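import Mathlib

set_option autoImplicit false

namespace Cfsg.Agent.Helper27

/-- an automorphism stabilizing a chain of invariant multiplicatively closed subsets, with trivial action on the
successive "factors", fixes the first member pointwise after raising to a power of the group order -/
theorem pow_fix_of_chain {P : Type*} [Group P] [Finite P] (α : MulAut P) (n : ℕ) (K : ℕ → Set P)
    (hn : ∀ x ∈ K n, x = 1) (hone : ∀ i, (1 : P) ∈ K i)
    (hα : ∀ i, ∀ x ∈ K i, α x ∈ K i)
    (hmul : ∀ i, ∀ x ∈ K i, ∀ y ∈ K i, x * y ∈ K i)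
    (hstep : ∀ i, i < n → ∀ x ∈ K i, x⁻¹ * α x ∈ K (i + 1)) :
    ∀ x ∈ K 0, (α ^ (Nat.card P ^ n)) x = x := by
  have hpow : ∀ i, i < n → ∀ x ∈ K i, ∀ j : ℕ, x⁻¹ * (α ^ j) x ∈ K (i + 1) := by
    intro i hi x hx j
    induction j with
    | zero => simpa using hone (i + 1)
    | succ j ih =>
      have h1 : x⁻¹ * (α ^ (j + 1)) x = (x⁻¹ * α x) * α (x⁻¹ * (α ^ j) x) := by
        rw [pow_succ', MulAut.mul_apply, map_mul, map_inv]
        group
      rw [h1]
      exact hmul _ _ (hstep i hi x hx) _ (hα _ _ ih)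
  have key : ∀ k, k ≤ n → ∀ x ∈ K (n - k), (α ^ (Nat.card P ^ k)) x = x := by
    intro k
    induction k with
    | zero =>
      intro _ x hx
      rw [hn x hx]
      simp
    | succ k ih =>
      intro hk x hx
      have hi : n - (k + 1) < n := by omega
      have hi1 : n - (k + 1) + 1 = n - k := by omega
      have hc : x⁻¹ * (α ^ (Nat.card P ^ k)) x ∈ K (n - k) := by
        have := hpow _ hi x hx (Nat.card P ^ k)
        rwa [hi1] at this
      have hβc : (α ^ (Nat.card P ^ k)) (x⁻¹ * (α ^ (Nat.card P ^ k)) x)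
          = x⁻¹ * (α ^ (Nat.card P ^ k)) x := ih (by omega) _ hc
      have hm : ∀ m : ℕ, ((α ^ (Nat.card P ^ k)) ^ m) x
          = x * (x⁻¹ * (α ^ (Nat.card P ^ k)) x) ^ m := by
        intro m
        induction m with
        | zero => simp
        | succ m ihm =>
          rw [pow_succ', MulAut.mul_apply, ihm, map_mul, map_pow, hβc, pow_succ', ← mul_assoc,
            mul_inv_cancel_left]
      have h2 : α ^ (Nat.card P ^ (k + 1)) = (α ^ (Nat.card P ^ k)) ^ Nat.card P := by
        rw [← pow_mul, pow_succ]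
      rw [h2, hm, pow_card_eq_one', mul_one]
  intro x hx
  exact key n le_rfl x (by rw [Nat.sub_self]; exact hx)

theorem zmod_two_nsmul_eq_zero {b : ℕ} (hb : 1 ≤ b) (z : ZMod (2 ^ b)) (hz : 2 • z = 0) :
    z = 0 ∨ z = ((2 ^ (b - 1) : ℕ) : ZMod (2 ^ b)) := by
  have hne : NeZero (2 ^ b) := ⟨by positivity⟩
  have hzv : z = ((z.val : ℕ) : ZMod (2 ^ b)) := (ZMod.natCast_zmod_val z).symm
  have h2 : ((2 * z.val : ℕ) : ZMod (2 ^ b)) = 0 := by
    rw [Nat.cast_mul, ZMod.natCast_zmod_val]
    rw [nsmul_eq_mul] at hz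
    exact_mod_cast hz
  rw [ZMod.natCast_eq_zero_iff] at h2
  have hb' : 2 ^ b = 2 * 2 ^ (b - 1) := by
    rw [← pow_succ']
    congr 1
    omega
  have h2' : 2 * 2 ^ (b - 1) ∣ 2 * z.val := by
    rw [← hb']
    exact h2
  have h3 : 2 ^ (b - 1) ∣ z.val := (Nat.mul_dvd_mul_iff_left (by norm_num)).mp h2'
  obtain ⟨t, ht⟩ := h3
  have hlt : z.val < 2 * 2 ^ (b - 1) := by
    rw [← hb']
    exact ZMod.val_lt z
  have hpos : 0 < 2 ^ (b - 1) := by positivity
  have ht2 : t < 2 := by
    by_contra h
    have h := not_lt.mp h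
    have : 2 * 2 ^ (b - 1) ≤ 2 ^ (b - 1) * t := by
      calc 2 * 2 ^ (b - 1) = 2 ^ (b - 1) * 2 := by ring
        _ ≤ 2 ^ (b - 1) * t := Nat.mul_le_mul_left _ h
    omega
  interval_cases t
  · left
    rw [hzv, ht]
    simp
  · right
    rw [hzv, ht]
    simp

theorem zmod_pow_two_nsmul {b m : ℕ} (h : b ≤ m) (z : ZMod (2 ^ b)) : (2 ^ m) • z = 0 := by
  rw [nsmul_eq_mul]
  have h1 : ((2 ^ m : ℕ) : ZMod (2 ^ b)) = 0 := by
    rw [ZMod.natCast_eq_zero_iff]
    exact pow_dvd_pow 2 h
  rw [h1, zero_mul]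

/-- every automorphism of a finite abelian `2`-group with pairwise distinct invariants has `2`-power order -/
theorem mulAut_pow_two_of_distinct_invariants {G : Type*} [Group G] [Finite G] (n : ℕ) (a : Fin n → ℕ)
    (ha : StrictMono a) (ha1 : ∀ i, 1 ≤ a i) (e : G ≃* Multiplicative ((i : Fin n) → ZMod (2 ^ a i)))
    (α : MulAut G) : ∃ k : ℕ, α ^ (2 ^ k) = 1 := by
  -- coordinates
  let c : G → (i : Fin n) → ZMod (2 ^ a i) := fun x => (e x).toAdd
  have hc_mul : ∀ x y, c (x * y) = c x + c y := fun x y => by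
    show (e (x * y)).toAdd = _
    rw [map_mul]
    rfl
  have hc_one : c 1 = 0 := by
    show (e 1).toAdd = _
    rw [map_one]
    rfl
  have hc_inv : ∀ x, c x⁻¹ = - c x := fun x => by
    show (e x⁻¹).toAdd = _
    rw [map_inv]
    rfl
  have hc_pow : ∀ x (k : ℕ), c (x ^ k) = k • c x := fun x k => by
    show (e (x ^ k)).toAdd = _
    rw [map_pow]
    rfl
  have hc_inj : ∀ x y, c x = c y → x = y := fun x y h => e.injective (Multiplicative.toAdd.injective h)
  have hc_surj : ∀ f : (i : Fin n) → ZMod (2 ^ a i), ∃ y, c y = f := fun f =>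
    ⟨e.symm (Multiplicative.ofAdd f), by
      show (e (e.symm (Multiplicative.ofAdd f))).toAdd = f
      rw [MulEquiv.apply_symm_apply]
      rfl⟩
  have hcomm : ∀ x y : G, x * y = y * x := fun x y => by
    apply hc_inj
    rw [hc_mul, hc_mul, add_comm]
  have hcard : Nat.card G = 2 ^ (∑ i, a i) := by
    rw [Nat.card_congr e.toEquiv, Nat.card_congr Multiplicative.toAdd, Nat.card_pi]
    simp only [Nat.card_zmod]
    exact Finset.prod_pow_eq_pow_sum _ _ _
  have hmulpow : ∀ (x y : G) (k : ℕ), (x * y) ^ k = x ^ k * y ^ k :=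
    fun x y k => (Commute.mul_pow (hcomm x y) k)
  -- the flag in the elements of order two
  let W : ℕ → Set G := fun j => {x | 2 • c x = 0 ∧ ∀ i : Fin n, (i : ℕ) < j → c x i = 0}
  have hW_mono : ∀ j j', j ≤ j' → ∀ x ∈ W j', x ∈ W j := by
    intro j j' hjj' x hx
    exact ⟨hx.1, fun i hi => hx.2 i (lt_of_lt_of_le hi hjj')⟩
  have hWn : ∀ x ∈ W n, x = 1 := by
    intro x hx
    apply hc_inj
    rw [hc_one]
    funext i
    exact hx.2 i i.2
  -- elements of W j are big powers
  have hF3 : ∀ (j : ℕ) (hj : j < n), ∀ x ∈ W j, ∃ y, x = y ^ (2 ^ (a ⟨j, hj⟩ - 1)) := by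
    intro j hj x hx
    classical
    obtain ⟨y, hy⟩ := hc_surj (fun i => if c x i = 0 then 0 else ((2 ^ (a i - a ⟨j, hj⟩) : ℕ) : ZMod (2 ^ a i)))
    refine ⟨y, ?_⟩
    apply hc_inj
    rw [hc_pow, hy]
    funext i
    show c x i = 2 ^ (a ⟨j, hj⟩ - 1) • (if c x i = 0 then 0 else ((2 ^ (a i - a ⟨j, hj⟩) : ℕ) : ZMod (2 ^ a i)))
    by_cases h0 : c x i = 0
    · rw [if_pos h0, h0, smul_zero]
    · rw [if_neg h0]
      have hji : j ≤ (i : ℕ) := by
        by_contra h
        exact h0 (hx.2 i (not_le.mp h))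
      have haji : a ⟨j, hj⟩ ≤ a i := ha.monotone (by exact hji)
      have h2 : 2 • c x i = 0 := by
        have := congrFun hx.1 i
        exact this
      rcases zmod_two_nsmul_eq_zero (ha1 i) (c x i) h2 with h | h
      · exact absurd h h0
      · rw [h, nsmul_eq_mul, ← Nat.cast_mul, ← pow_add]
        congr 2
        have := ha1 ⟨j, hj⟩
        omega
  -- invariance of the flag under all automorphisms
  have hF1 : ∀ (γ : MulAut G) (j : ℕ), ∀ x ∈ W j, γ x ∈ W j := by
    intro γ j x hx
    have hx2 : x ^ 2 = 1 := by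
      apply hc_inj
      rw [hc_pow, hc_one]
      exact hx.1
    refine ⟨?_, ?_⟩
    · rw [← hc_pow, ← map_pow, hx2, map_one, hc_one]
    · intro i hi
      by_cases hin : (i : ℕ) + 1 < n
      · obtain ⟨y, hy⟩ := hF3 ((i : ℕ) + 1) hin x (hW_mono _ _ hi x hx)
        rw [hy, map_pow, hc_pow]
        show 2 ^ (a ⟨(i : ℕ) + 1, hin⟩ - 1) • c (γ y) i = 0
        apply zmod_pow_two_nsmul
        have hlt : a i < a ⟨(i : ℕ) + 1, hin⟩ := ha (by
          show (i : ℕ) < (i : ℕ) + 1
          omega)
        omega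
      · have hin' : (i : ℕ) + 1 = n := by
          have := i.2
          omega
        have hx1 : x = 1 := hWn x (hW_mono _ _ (by omega) x hx)
        rw [hx1, map_one, hc_one]
        rfl
  have hpos : ∀ x ∈ W 0, x ^ 2 = 1 := by
    intro x hx
    apply hc_inj
    rw [hc_pow, hc_one]
    exact hx.1
  -- step 1: a power of α fixes the elements of order two
  have hstep1 : ∀ x ∈ W 0, (α ^ (Nat.card G ^ n)) x = x := by
    apply pow_fix_of_chain α n W hWn
    · intro i
      refine ⟨?_, fun j _ => ?_⟩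
      · rw [hc_one, smul_zero]
      · rw [hc_one]
        rfl
    · intro i x hx
      exact hF1 α i x hx
    · intro i x hx y hy
      refine ⟨?_, fun j hj => ?_⟩
      · rw [hc_mul, smul_add, hx.1, hy.1, add_zero]
      · rw [hc_mul]
        show c x j + c y j = 0
        rw [hx.2 j hj, hy.2 j hj, add_zero]
    · intro j hj x hx
      have hαx := hF1 α j x hx
      refine ⟨?_, fun i hi => ?_⟩
      · rw [hc_mul, hc_inv, smul_add, smul_neg, hx.1, hαx.1, neg_zero, add_zero]
      · rw [hc_mul, hc_inv]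
        show - c x i + c (α x) i = 0
        rcases Nat.lt_succ_iff_lt_or_eq.mp hi with hlt | heq
        · rw [hx.2 i hlt, hαx.2 i hlt, neg_zero, add_zero]
        · have h2x : 2 • c x i = 0 := congrFun hx.1 i
          have h2αx : 2 • c (α x) i = 0 := congrFun hαx.1 i
          have hkey : c (α x) i = c x i := by
            rcases zmod_two_nsmul_eq_zero (ha1 i) (c x i) h2x with h | h
            · -- x ∈ W (j+1)
              have hxW : x ∈ W (j + 1) := by
                refine ⟨hx.1, fun i' hi' => ?_⟩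
                rcases Nat.lt_succ_iff_lt_or_eq.mp hi' with hlt' | heq'
                · exact hx.2 i' hlt'
                · have : i' = i := Fin.ext (heq'.trans heq.symm)
                  rw [this]
                  exact h
              rw [h]
              exact (hF1 α (j + 1) x hxW).2 i hi
            · rcases zmod_two_nsmul_eq_zero (ha1 i) (c (α x) i) h2αx with h' | h'
              · exfalso
                have hαxW : α x ∈ W (j + 1) := by
                  refine ⟨hαx.1, fun i' hi' => ?_⟩
                  rcases Nat.lt_succ_iff_lt_or_eq.mp hi' with hlt' | heq'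
                  · exact hαx.2 i' hlt'
                  · have : i' = i := Fin.ext (heq'.trans heq.symm)
                    rw [this]
                    exact h'
                have hback := (hF1 α⁻¹ (j + 1) (α x) hαxW).2 i hi
                rw [MulAut.inv_apply_self] at hback
                rw [hback] at h
                -- 0 = 2^(a i - 1) in ZMod (2^(a i)) is impossible
                have h3 : ((2 ^ (a i - 1) : ℕ) : ZMod (2 ^ a i)) = 0 := h.symm
                rw [ZMod.natCast_eq_zero_iff] at h3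
                have h4 := Nat.le_of_dvd (by positivity) h3
                have h5 : a i ≤ a i - 1 := (Nat.pow_le_pow_iff_right (by norm_num)).mp h4
                have := ha1 i
                omega
              · rw [h, h']
          rw [hkey, neg_add_cancel]
  -- step 2: the chain of the subgroups of elements of order dividing 2^k
  obtain ⟨m, hm⟩ : ∃ m, Nat.card G = 2 ^ m := ⟨_, hcard⟩
  have hstep2 : (α ^ (Nat.card G ^ n)) ^ (Nat.card G ^ m) = 1 := by
    have hfix := pow_fix_of_chain (α ^ (Nat.card G ^ n)) m (fun i => {x : G | x ^ (2 ^ (m - i)) = 1})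
      (by
        intro x hx
        have h : x ^ (2 ^ (m - m)) = 1 := hx
        simpa using h)
      (by intro i; simp)
      (by
        intro i x hx
        show ((α ^ (Nat.card G ^ n)) x) ^ (2 ^ (m - i)) = 1
        rw [← map_pow]
        have h : x ^ (2 ^ (m - i)) = 1 := hx
        rw [h, map_one])
      (by
        intro i x hx y hy
        show (x * y) ^ (2 ^ (m - i)) = 1
        have h1 : x ^ (2 ^ (m - i)) = 1 := hx
        have h2 : y ^ (2 ^ (m - i)) = 1 := hy
        rw [hmulpow, h1, h2, mul_one])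
      (by
        intro i hi x hx
        show (x⁻¹ * (α ^ (Nat.card G ^ n)) x) ^ (2 ^ (m - (i + 1))) = 1
        have h1 : x ^ (2 ^ (m - i)) = 1 := hx
        rw [hmulpow, inv_pow, ← map_pow]
        have hy : x ^ (2 ^ (m - (i + 1))) ∈ W 0 := by
          refine ⟨?_, fun j hj => absurd hj (Nat.not_lt_zero _)⟩
          rw [← hc_pow, ← pow_mul, ← pow_succ]
          have h3 : m - (i + 1) + 1 = m - i := by omega
          rw [h3, h1, hc_one]
        rw [hstep1 _ hy, inv_mul_cancel])
    ext x
    have h := hfix x (by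
      show x ^ (2 ^ (m - 0)) = 1
      rw [Nat.sub_zero, ← hm]
      exact pow_card_eq_one')
    simpa using h
  refine ⟨m * n + m * m, ?_⟩
  rw [← hstep2, ← pow_mul, hm, ← pow_mul, ← pow_mul, ← pow_add]
end Cfsg.Agent.Helper27
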