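import Cfsg.Agent.Helper27.FusSat
import Cfsg.Agent.Helper27.FusAbelian
import Cfsg.Agent.Helper26.Stancu
import Cfsg.Prelude.Def_FusionComponents

set_option autoImplicit false

namespace Cfsg.Agent.Helper27

open Cfsg Cfsg.FusionSystem

section general

variable {Ω : Type*} [Group Ω] {S : Subgroup Ω}

/-- receptivity passes back along a map defined on the normalizer that is onto the normalizer of the image -/
theorem receptive_of_map [Finite S] {F : FusionSystem S} {P : Subgroup Ω} (hP : P ≤ S)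
    {f' : Ω → Ω} (hf' : Mor F (normalizerIn S P) f')
    (hN : img (normalizerIn S P) f' = normalizerIn S (img P f'))
    (hQr : F.IsReceptive (img P f')) : F.IsReceptive P := by
  have hPN : P ≤ normalizerIn S P := le_normalizerIn hP
  have hfP : Mor F P f' := hf'.restrict hPN
  obtain ⟨k, hk, hkf, hk2, -⟩ := hf'.exists_inv
  rw [receptive_iff]
  refine ⟨hP, ?_⟩
  intro R φ hφ hRP
  have hφP : ∀ x ∈ R, φ x ∈ P := fun x hx => by rw [← hRP]; exact apply_mem_img hx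
  have hφ₁ : Mor F R (f' ∘ φ) := hφ.comp hfP hφP
  have hi₁ : img R (f' ∘ φ) = img P f' := by rw [hφ.img_comp, hRP]
  obtain ⟨ρ, hρ, hρφ⟩ := exists_extension hQr hφ₁ hi₁
  have : Finite P := finite_of_le hP
  have hRN : R ≤ ext S R (f' ∘ φ) := hφ₁.le_ext
  have hkey : ∀ g ∈ ext S R φ, g ∈ ext S R (f' ∘ φ) ∧ ρ g ∈ img (normalizerIn S P) f' := by
    intro g hg
    obtain ⟨hgS, hgN, h, hh, e⟩ := hg
    have hhN : h ∈ normalizerIn S P := by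
      refine ⟨hh, mem_normalizer_of_forall ?_⟩
      intro y hy
      rw [← hRP] at hy
      obtain ⟨x, hx, rfl⟩ := hφ.mem_img.mp hy
      rw [← e x hx]
      exact hφP _ ((Subgroup.mem_normalizer_iff.mp hgN x).mp hx)
    have e' : ∀ x ∈ R, (f' ∘ φ) (g * x * g⁻¹) = f' h * (f' ∘ φ) x * (f' h)⁻¹ := by
      intro x hx
      show f' (φ (g * x * g⁻¹)) = f' h * f' (φ x) * (f' h)⁻¹
      rw [e x hx, hf'.map_conj hhN (hPN (hφP x hx))]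
    have hg₁ : g ∈ ext S R (f' ∘ φ) := ⟨hgS, hgN, f' h, hf'.mem hhN, e'⟩
    refine ⟨hg₁, ?_⟩
    rw [hN]
    have h1 := hρ.map_normalizerIn hRN hg₁ ⟨hgS, hgN⟩
    have h2 : img R ρ = img P f' := by
      rw [img_congr hρφ]
      exact hi₁
    rw [h2] at h1
    exact h1
  have hN' : ext S R φ ≤ ext S R (f' ∘ φ) := fun g hg => (hkey g hg).1
  refine ⟨k ∘ ρ, (hρ.restrict hN').comp hk (fun g hg => (hkey g hg).2), ?_⟩
  intro x hx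
  show k (ρ x) = φ x
  rw [hρφ x hx]
  exact hkf _ (hPN (hφP x hx))

/-- a `p`-subgroup containing every element of `p`-power order is a Sylow `p`-subgroup -/
theorem exists_sylow_eq_of_pelements {G : Type*} [Group G] [Finite G] {p : ℕ} [Fact p.Prime]
    {N : Subgroup G} (hN : IsPGroup p N) (h : ∀ g : G, (∃ k : ℕ, g ^ p ^ k = 1) → g ∈ N) :
    ∃ R : Sylow p G, (R : Subgroup G) = N := by
  obtain ⟨R, hR⟩ := hN.exists_le_sylow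
  refine ⟨R, le_antisymm ?_ hR⟩
  intro g hg
  obtain ⟨k, hk⟩ := R.isPGroup' ⟨g, hg⟩
  exact h g ⟨k, congrArg Subtype.val hk⟩

theorem isPGroup_zpowers_of_pow {G : Type*} [Group G] {p k : ℕ} {g : G} (h : g ^ p ^ k = 1) :
    IsPGroup p (Subgroup.zpowers g) := by
  rintro ⟨x, z, rfl⟩
  refine ⟨k, Subtype.ext ?_⟩
  show (g ^ z) ^ p ^ k = 1
  rw [← zpow_natCast, ← zpow_mul, mul_comm, zpow_mul, zpow_natCast, h, one_zpow]

/-- in a saturated system, an automorphism of `S` of `p`-power order is inner -/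
theorem aut_top_inner_of_pelement [Finite S] {p : ℕ} [Fact p.Prime] (hS : IsPGroup p S)
    {F : FusionSystem S} (hF : F.IsSaturated p) {α : MulAut S} (hα : α ∈ F.autGroup S) {k : ℕ}
    (hk : α ^ p ^ k = 1) : ∃ t ∈ S, ∀ y : S, ((α y : S) : Ω) = t * y * t⁻¹ := by
  obtain ⟨-, -, -, R, hR⟩ := fullyNormalized_props hS hF (fullyNormalized_top F)
  have hk' : (⟨α, hα⟩ : F.autGroup S) ^ p ^ k = 1 := Subtype.ext hk
  obtain ⟨g, hg⟩ := sylow_conj R (Subgroup.zpowers (⟨α, hα⟩ : F.autGroup S))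
    (isPGroup_zpowers_of_pow hk')
  have h1 := hg _ (Subgroup.mem_zpowers _)
  rw [hR, Subgroup.mem_subgroupOf, mem_autInducedBy_iff] at h1
  obtain ⟨s, hs, hsα⟩ := h1
  refine ⟨(((g : MulAut S)⁻¹ ⟨s, hs⟩ : S) : Ω), Subtype.property _, fun y => ?_⟩
  have h2 := hsα ((g : MulAut S) y)
  have h3 : ((g * ⟨α, hα⟩ * g⁻¹ : F.autGroup S) : MulAut S) ((g : MulAut S) y) =
      (g : MulAut S) (α y) := by
    show (g : MulAut S) (α ((g : MulAut S)⁻¹ ((g : MulAut S) y))) = _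
    rw [MulAut.inv_apply_self]
  rw [h3] at h2
  have h4 : (g : MulAut S) (α y) = ⟨s, hs⟩ * (g : MulAut S) y * (⟨s, hs⟩ : S)⁻¹ :=
    Subtype.ext h2
  have h5 : α y = (g : MulAut S)⁻¹ (⟨s, hs⟩ * (g : MulAut S) y * (⟨s, hs⟩ : S)⁻¹) := by
    rw [← h4, MulAut.inv_apply_self]
  rw [h5, map_mul, map_mul, map_inv, MulAut.inv_apply_self]
  rfl

end general

section prod

variable {Ω₁ Ω₂ : Type*} [Group Ω₁] [Group Ω₂] {S₁ : Subgroup Ω₁} {S₂ : Subgroup Ω₂}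
  {F₁ : FusionSystem S₁} {F₂ : FusionSystem S₂} {E : FusionSystem (S₁.prod S₂)}

theorem mor_prod_iff (hE : IsProductSystem F₁ F₂ E) {P : Subgroup (Ω₁ × Ω₂)}
    {f : Ω₁ × Ω₂ → Ω₁ × Ω₂} :
    Mor E P f ↔ P ≤ S₁.prod S₂ ∧ ∃ f₁ f₂, Mor F₁ (P.map (MonoidHom.fst Ω₁ Ω₂)) f₁ ∧
      Mor F₂ (P.map (MonoidHom.snd Ω₁ Ω₂)) f₂ ∧ ∀ x ∈ P, f x = (f₁ x.1, f₂ x.2) := by
  constructor
  · rintro ⟨φ, hφ, hφf⟩
    obtain ⟨hP, φ₁, hφ₁, φ₂, hφ₂, h⟩ := (hE P φ).mp hφ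
    refine ⟨hP, fn φ₁, fn φ₂, mor_of_hom hφ₁, mor_of_hom hφ₂, fun x hx => ?_⟩
    have h1 : x.1 ∈ P.map (MonoidHom.fst Ω₁ Ω₂) := ⟨x, hx, rfl⟩
    have h2 : x.2 ∈ P.map (MonoidHom.snd Ω₁ Ω₂) := ⟨x, hx, rfl⟩
    rw [← hφf ⟨x, hx⟩, h ⟨x, hx⟩ h1 h2, fn_of_mem φ₁ h1, fn_of_mem φ₂ h2]
  · rintro ⟨hP, f₁, f₂, ⟨φ₁, hφ₁, hφf₁⟩, ⟨φ₂, hφ₂, hφf₂⟩, hf⟩
    refine ⟨MonoidHom.prod (φ₁.comp ((MonoidHom.fst Ω₁ Ω₂).subgroupMap P))
      (φ₂.comp ((MonoidHom.snd Ω₁ Ω₂).subgroupMap P)), ?_, ?_⟩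
    · rw [hE P]
      exact ⟨hP, φ₁, hφ₁, φ₂, hφ₂, fun x h₁ h₂ => rfl⟩
    · intro x
      rw [hf x x.2]
      exact Prod.ext (hφf₁ ⟨_, ⟨x, x.2, rfl⟩⟩) (hφf₂ ⟨_, ⟨x, x.2, rfl⟩⟩)

theorem map_fst_prod_eq (S₁ : Subgroup Ω₁) (S₂ : Subgroup Ω₂) :
    (S₁.prod S₂).map (MonoidHom.fst Ω₁ Ω₂) = S₁ := by
  ext y
  constructor
  · rintro ⟨x, hx, rfl⟩
    exact (Subgroup.mem_prod.mp hx).1
  · intro hy
    exact ⟨(y, 1), Subgroup.mem_prod.mpr ⟨hy, S₂.one_mem⟩, rfl⟩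

theorem map_snd_prod_eq (S₁ : Subgroup Ω₁) (S₂ : Subgroup Ω₂) :
    (S₁.prod S₂).map (MonoidHom.snd Ω₁ Ω₂) = S₂ := by
  ext y
  constructor
  · rintro ⟨x, hx, rfl⟩
    exact (Subgroup.mem_prod.mp hx).2
  · intro hy
    exact ⟨(1, y), Subgroup.mem_prod.mpr ⟨S₁.one_mem, hy⟩, rfl⟩

theorem map_fst_img {P : Subgroup (Ω₁ × Ω₂)} {f : Ω₁ × Ω₂ → Ω₁ × Ω₂} {f₁ : Ω₁ → Ω₁}
    {f₂ : Ω₂ → Ω₂} (hP : Mor E P f) (hf₁ : Mor F₁ (P.map (MonoidHom.fst Ω₁ Ω₂)) f₁)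
    (hf : ∀ x ∈ P, f x = (f₁ x.1, f₂ x.2)) :
    (img P f).map (MonoidHom.fst Ω₁ Ω₂) = img (P.map (MonoidHom.fst Ω₁ Ω₂)) f₁ := by
  ext y
  constructor
  · rintro ⟨z, hz, rfl⟩
    obtain ⟨x, hx, rfl⟩ := hP.mem_img.mp hz
    rw [hf x hx]
    exact apply_mem_img ⟨x, hx, rfl⟩
  · intro hy
    obtain ⟨x₁, ⟨x, hx, rfl⟩, rfl⟩ := hf₁.mem_img.mp hy
    exact ⟨f x, apply_mem_img hx, by rw [hf x hx]; rfl⟩

theorem map_snd_img {P : Subgroup (Ω₁ × Ω₂)} {f : Ω₁ × Ω₂ → Ω₁ × Ω₂} {f₁ : Ω₁ → Ω₁}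
    {f₂ : Ω₂ → Ω₂} (hP : Mor E P f) (hf₂ : Mor F₂ (P.map (MonoidHom.snd Ω₁ Ω₂)) f₂)
    (hf : ∀ x ∈ P, f x = (f₁ x.1, f₂ x.2)) :
    (img P f).map (MonoidHom.snd Ω₁ Ω₂) = img (P.map (MonoidHom.snd Ω₁ Ω₂)) f₂ := by
  ext y
  constructor
  · rintro ⟨z, hz, rfl⟩
    obtain ⟨x, hx, rfl⟩ := hP.mem_img.mp hz
    rw [hf x hx]
    exact apply_mem_img ⟨x, hx, rfl⟩
  · intro hy
    obtain ⟨x₁, ⟨x, hx, rfl⟩, rfl⟩ := hf₂.mem_img.mp hy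
    exact ⟨f x, apply_mem_img hx, by rw [hf x hx]; rfl⟩

theorem fst_mem_normalizer {P : Subgroup (Ω₁ × Ω₂)} {g : Ω₁ × Ω₂}
    (hg : g ∈ Subgroup.normalizer (P : Set (Ω₁ × Ω₂))) :
    g.1 ∈ Subgroup.normalizer ((P.map (MonoidHom.fst Ω₁ Ω₂) : Subgroup Ω₁) : Set Ω₁) := by
  apply Cfsg.Agent.Helper26.mem_normalizer_of_conj_mem
  · rintro _ ⟨x, hx, rfl⟩
    exact ⟨g * x * g⁻¹, (Subgroup.mem_normalizer_iff.mp hg x).mp hx, rfl⟩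
  · rintro _ ⟨x, hx, rfl⟩
    have h := (Subgroup.mem_normalizer_iff.mp (Subgroup.inv_mem _ hg) x).mp hx
    rw [inv_inv] at h
    exact ⟨g⁻¹ * x * g, h, rfl⟩

theorem snd_mem_normalizer {P : Subgroup (Ω₁ × Ω₂)} {g : Ω₁ × Ω₂}
    (hg : g ∈ Subgroup.normalizer (P : Set (Ω₁ × Ω₂))) :
    g.2 ∈ Subgroup.normalizer ((P.map (MonoidHom.snd Ω₁ Ω₂) : Subgroup Ω₂) : Set Ω₂) := by
  apply Cfsg.Agent.Helper26.mem_normalizer_of_conj_mem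
  · rintro _ ⟨x, hx, rfl⟩
    exact ⟨g * x * g⁻¹, (Subgroup.mem_normalizer_iff.mp hg x).mp hx, rfl⟩
  · rintro _ ⟨x, hx, rfl⟩
    have h := (Subgroup.mem_normalizer_iff.mp (Subgroup.inv_mem _ hg) x).mp hx
    rw [inv_inv] at h
    exact ⟨g⁻¹ * x * g, h, rfl⟩

/-- a subgroup of the product whose two projections are receptive is receptive in the product system -/
theorem prod_receptive (hE : IsProductSystem F₁ F₂ E) {Q : Subgroup (Ω₁ × Ω₂)}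
    (hQ : Q ≤ S₁.prod S₂) (h₁ : F₁.IsReceptive (Q.map (MonoidHom.fst Ω₁ Ω₂)))
    (h₂ : F₂.IsReceptive (Q.map (MonoidHom.snd Ω₁ Ω₂))) : E.IsReceptive Q := by
  rw [receptive_iff]
  refine ⟨hQ, ?_⟩
  intro R ψ hψ hRQ
  obtain ⟨hR, ψ₁, ψ₂, hψ₁, hψ₂, hψe⟩ := (mor_prod_iff hE).mp hψ
  have hi₁ : img (R.map (MonoidHom.fst Ω₁ Ω₂)) ψ₁ = Q.map (MonoidHom.fst Ω₁ Ω₂) := by
    rw [← hRQ, map_fst_img hψ hψ₁ hψe]
  have hi₂ : img (R.map (MonoidHom.snd Ω₁ Ω₂)) ψ₂ = Q.map (MonoidHom.snd Ω₁ Ω₂) := by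
    rw [← hRQ, map_snd_img hψ hψ₂ hψe]
  obtain ⟨ρ₁, hρ₁, hρψ₁⟩ := exists_extension h₁ hψ₁ hi₁
  obtain ⟨ρ₂, hρ₂, hρψ₂⟩ := exists_extension h₂ hψ₂ hi₂
  refine ⟨fun x => (ρ₁ x.1, ρ₂ x.2), ?_, ?_⟩
  · rw [mor_prod_iff hE]
    refine ⟨fun g hg => hg.1, ρ₁, ρ₂, hρ₁.restrict ?_, hρ₂.restrict ?_, fun x _ => rfl⟩
    · rintro _ ⟨g, hg, rfl⟩
      obtain ⟨hgS, hgN, h, hh, e⟩ := hg
      refine ⟨(Subgroup.mem_prod.mp hgS).1, fst_mem_normalizer hgN, h.1,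
        (Subgroup.mem_prod.mp hh).1, ?_⟩
      rintro _ ⟨x, hx, rfl⟩
      have e1 := e x hx
      rw [hψe x hx, hψe _ ((Subgroup.mem_normalizer_iff.mp hgN x).mp hx)] at e1
      exact congrArg Prod.fst e1
    · rintro _ ⟨g, hg, rfl⟩
      obtain ⟨hgS, hgN, h, hh, e⟩ := hg
      refine ⟨(Subgroup.mem_prod.mp hgS).2, snd_mem_normalizer hgN, h.2,
        (Subgroup.mem_prod.mp hh).2, ?_⟩
      rintro _ ⟨x, hx, rfl⟩
      have e1 := e x hx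
      rw [hψe x hx, hψe _ ((Subgroup.mem_normalizer_iff.mp hgN x).mp hx)] at e1
      exact congrArg Prod.snd e1
  · intro x hx
    show (ρ₁ x.1, ρ₂ x.2) = ψ x
    rw [hψe x hx, hρψ₁ x.1 ⟨x, hx, rfl⟩, hρψ₂ x.2 ⟨x, hx, rfl⟩]

theorem isPGroup_prod {p : ℕ} (h₁ : IsPGroup p S₁) (h₂ : IsPGroup p S₂) :
    IsPGroup p (S₁.prod S₂) := by
  rintro ⟨⟨a, b⟩, hab⟩
  obtain ⟨ha, hb⟩ := Subgroup.mem_prod.mp hab
  obtain ⟨k, hk⟩ := h₁ ⟨a, ha⟩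
  obtain ⟨l, hl⟩ := h₂ ⟨b, hb⟩
  have hk' : a ^ p ^ k = 1 := congrArg Subtype.val hk
  have hl' : b ^ p ^ l = 1 := congrArg Subtype.val hl
  refine ⟨k + l, Subtype.ext (Prod.ext ?_ ?_)⟩
  · show a ^ p ^ (k + l) = 1
    rw [pow_add, pow_mul, hk', one_pow]
  · show b ^ p ^ (k + l) = 1
    rw [pow_add, mul_comm, pow_mul, hl', one_pow]

theorem finite_prod [Finite S₁] [Finite S₂] : Finite (S₁.prod S₂) :=
  Finite.of_equiv _ (Subgroup.prodEquiv S₁ S₂).symm.toEquiv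

/-- `S₁ × S₂` is fully automized in the product of two saturated systems -/
theorem prod_fullyAutomized_top [Finite S₁] [Finite S₂] {p : ℕ} [Fact p.Prime]
    (h₁ : IsPGroup p S₁) (h₂ : IsPGroup p S₂) (hF₁ : F₁.IsSaturated p) (hF₂ : F₂.IsSaturated p)
    (hE : IsProductSystem F₁ F₂ E) : E.IsFullyAutomized p (S₁.prod S₂) := by
  have hfin : Finite (S₁.prod S₂) := finite_prod
  have hSp : IsPGroup p (S₁.prod S₂) := isPGroup_prod h₁ h₂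
  refine ⟨le_rfl, ?_⟩
  apply exists_sylow_eq_of_pelements
  · exact (isPGroup_autInducedBy hSp _).comap_subtype
  · rintro α ⟨k, hk⟩
    rw [Subgroup.mem_subgroupOf, mem_autInducedBy_iff]
    obtain ⟨a, hadef⟩ : ∃ a : MulAut (S₁.prod S₂), a = (α : MulAut (S₁.prod S₂)) := ⟨_, rfl⟩
    rw [← hadef]
    have hak : a ^ p ^ k = 1 := by
      rw [hadef]
      exact congrArg Subtype.val hk
    have hm : Mor E (S₁.prod S₂) (autFn a) := by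
      rw [hadef]
      exact (mem_autGroup_iff le_rfl _).mp α.2
    obtain ⟨-, f₁, f₂, hf₁, hf₂, hfe⟩ := (mor_prod_iff hE).mp hm
    rw [map_fst_prod_eq] at hf₁
    rw [map_snd_prod_eq] at hf₂
    obtain ⟨α₁, hα₁, hα₁f⟩ := exists_aut_of_mor hf₁ (fun x hx => hf₁.mem hx)
    obtain ⟨α₂, hα₂, hα₂f⟩ := exists_aut_of_mor hf₂ (fun x hx => hf₂.mem hx)
    have hmem : ∀ x : S₁.prod S₂, (x : Ω₁ × Ω₂).1 ∈ S₁ ∧ (x : Ω₁ × Ω₂).2 ∈ S₂ :=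
      fun x => Subgroup.mem_prod.mp x.2
    have hpow : ∀ n : ℕ, ∀ x : S₁.prod S₂, (((a ^ n) x : S₁.prod S₂) : Ω₁ × Ω₂) =
        ((((α₁ ^ n) ⟨(x : Ω₁ × Ω₂).1, (hmem x).1⟩ : S₁) : Ω₁),
          (((α₂ ^ n) ⟨(x : Ω₁ × Ω₂).2, (hmem x).2⟩ : S₂) : Ω₂)) := by
      intro n
      induction n with
      | zero =>
        intro x
        simp
      | succ n ih =>
        intro x
        rw [pow_succ', pow_succ', pow_succ']
        show ((a ((a ^ n) x) : S₁.prod S₂) : Ω₁ × Ω₂) = _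
        have h1 := hfe ((a ^ n) x : S₁.prod S₂) (Subtype.property _)
        rw [autFn_apply] at h1
        rw [h1]
        have h2 := ih x
        have e1 : (⟨(((a ^ n) x : S₁.prod S₂) : Ω₁ × Ω₂).1, (hmem _).1⟩ : S₁) =
            (α₁ ^ n) ⟨(x : Ω₁ × Ω₂).1, (hmem x).1⟩ := Subtype.ext (congrArg Prod.fst h2)
        have e2 : (⟨(((a ^ n) x : S₁.prod S₂) : Ω₁ × Ω₂).2, (hmem _).2⟩ : S₂) =
            (α₂ ^ n) ⟨(x : Ω₁ × Ω₂).2, (hmem x).2⟩ := Subtype.ext (congrArg Prod.snd h2)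
        have e3 := hα₁f ⟨(((a ^ n) x : S₁.prod S₂) : Ω₁ × Ω₂).1, (hmem _).1⟩
        have e4 := hα₂f ⟨(((a ^ n) x : S₁.prod S₂) : Ω₁ × Ω₂).2, (hmem _).2⟩
        exact Prod.ext (e3.symm.trans (congrArg (fun z : S₁ => ((α₁ z : S₁) : Ω₁)) e1))
          (e4.symm.trans (congrArg (fun z : S₂ => ((α₂ z : S₂) : Ω₂)) e2))
    have hα₁k : α₁ ^ p ^ k = 1 := by
      apply MulEquiv.ext
      intro y
      apply Subtype.ext
      have h1 := hpow (p ^ k) ⟨((y : Ω₁), 1), Subgroup.mem_prod.mpr ⟨y.2, S₂.one_mem⟩⟩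
      rw [hak] at h1
      exact (congrArg Prod.fst h1).symm
    have hα₂k : α₂ ^ p ^ k = 1 := by
      apply MulEquiv.ext
      intro y
      apply Subtype.ext
      have h1 := hpow (p ^ k) ⟨(1, (y : Ω₂)), Subgroup.mem_prod.mpr ⟨S₁.one_mem, y.2⟩⟩
      rw [hak] at h1
      exact (congrArg Prod.snd h1).symm
    obtain ⟨t₁, ht₁, ht₁α⟩ := aut_top_inner_of_pelement h₁ hF₁ hα₁ hα₁k
    obtain ⟨t₂, ht₂, ht₂α⟩ := aut_top_inner_of_pelement h₂ hF₂ hα₂ hα₂k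
    refine ⟨(t₁, t₂), Subgroup.mem_prod.mpr ⟨ht₁, ht₂⟩, fun x => ?_⟩
    have h1 := hpow 1 x
    rw [pow_one, pow_one, pow_one] at h1
    rw [h1, ht₁α, ht₂α]
    rfl

/-- the product of two saturated fusion systems is saturated -/
theorem prod_saturated [Finite S₁] [Finite S₂] {p : ℕ} [Fact p.Prime]
    (h₁ : IsPGroup p S₁) (h₂ : IsPGroup p S₂) (hF₁ : F₁.IsSaturated p) (hF₂ : F₂.IsSaturated p)
    (hE : IsProductSystem F₁ F₂ E) : E.IsSaturated p := by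
  have hfin : Finite (S₁.prod S₂) := finite_prod
  have hSp : IsPGroup p (S₁.prod S₂) := isPGroup_prod h₁ h₂
  rw [Cfsg.Agent.Helper26.saturated_iff_rs p hSp E]
  refine ⟨prod_fullyAutomized_top h₁ h₂ hF₁ hF₂ hE, ?_⟩
  intro P hP
  have hPS := hP.1
  have hP₁S : P.map (MonoidHom.fst Ω₁ Ω₂) ≤ S₁ := by
    rintro _ ⟨x, hx, rfl⟩
    exact (Subgroup.mem_prod.mp (hPS hx)).1
  have hP₂S : P.map (MonoidHom.snd Ω₁ Ω₂) ≤ S₂ := by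
    rintro _ ⟨x, hx, rfl⟩
    exact (Subgroup.mem_prod.mp (hPS hx)).2
  obtain ⟨Q₁, φ₁, -, -, hQ₁r, hφ₁, hi₁⟩ := exists_fn_map h₁ hF₁ hP₁S
  obtain ⟨Q₂, φ₂, -, -, hQ₂r, hφ₂, hi₂⟩ := exists_fn_map h₂ hF₂ hP₂S
  obtain ⟨Φ, hΦdef⟩ : ∃ Φ : Ω₁ × Ω₂ → Ω₁ × Ω₂, Φ = fun x => (φ₁ x.1, φ₂ x.2) := ⟨_, rfl⟩
  have hΦe : ∀ x, Φ x = (φ₁ x.1, φ₂ x.2) := fun x => by rw [hΦdef]
  have hΦ : Mor E ((normalizerIn S₁ (P.map (MonoidHom.fst Ω₁ Ω₂))).prod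
      (normalizerIn S₂ (P.map (MonoidHom.snd Ω₁ Ω₂)))) Φ := by
    rw [mor_prod_iff hE]
    refine ⟨Subgroup.prod_mono (normalizerIn_le _ _) (normalizerIn_le _ _), φ₁, φ₂, ?_, ?_,
      fun x _ => hΦe x⟩
    · rw [map_fst_prod_eq]
      exact hφ₁
    · rw [map_snd_prod_eq]
      exact hφ₂
  have hNle : normalizerIn (S₁.prod S₂) P ≤
      (normalizerIn S₁ (P.map (MonoidHom.fst Ω₁ Ω₂))).prod
        (normalizerIn S₂ (P.map (MonoidHom.snd Ω₁ Ω₂))) := by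
    intro g hg
    exact Subgroup.mem_prod.mpr ⟨⟨(Subgroup.mem_prod.mp hg.1).1, fst_mem_normalizer hg.2⟩,
      ⟨(Subgroup.mem_prod.mp hg.1).2, snd_mem_normalizer hg.2⟩⟩
  have hΦN : Mor E (normalizerIn (S₁.prod S₂) P) Φ := hΦ.restrict hNle
  have hPN : P ≤ normalizerIn (S₁.prod S₂) P := le_normalizerIn hPS
  have hΦP : Mor E P Φ := hΦN.restrict hPN
  have hNimg : img (normalizerIn (S₁.prod S₂) P) Φ = normalizerIn (S₁.prod S₂) (img P Φ) := by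
    have : Finite (normalizerIn (S₁.prod S₂) (img P Φ)) := finite_of_le (normalizerIn_le _ _)
    apply Subgroup.eq_of_le_of_card_ge
    · intro y hy
      obtain ⟨g, hg, rfl⟩ := hΦN.mem_img.mp hy
      exact hΦN.map_normalizerIn hPN hg hg
    · rw [hΦN.card_img]
      exact hP.2 _ (isConj_iff.mpr ⟨Φ, hΦP, rfl⟩)
  apply receptive_of_map hPS hΦN hNimg
  apply prod_receptive hE hΦP.img_le
  · rw [map_fst_img hΦP (hφ₁.restrict (le_normalizerIn hP₁S)) (fun x _ => hΦe x), hi₁]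
    exact hQ₁r
  · rw [map_snd_img hΦP (hφ₂.restrict (le_normalizerIn hP₂S)) (fun x _ => hΦe x), hi₂]
    exact hQ₂r

end prod

end Cfsg.Agent.Helper27
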