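import Mathlib

set_option autoImplicit false

namespace Cfsg.Agent.Helper27

section Marks

variable {H X : Type*} [Group H]

/-- points fixed by a subgroup under a permutation representation -/
def fixSet (σ : H →* Equiv.Perm X) (L : Subgroup H) : Set X := {x | ∀ l ∈ L, σ l x = x}

/-- stabilizer of a point under a permutation representation -/
def stabOf (σ : H →* Equiv.Perm X) (x : X) : Subgroup H where
  carrier := {h | σ h x = x}
  one_mem' := by simp
  mul_mem' := by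
    intro a b ha hb
    have ha' : σ a x = x := ha
    have hb' : σ b x = x := hb
    show σ (a * b) x = x
    rw [map_mul, Equiv.Perm.mul_apply, hb', ha']
  inv_mem' := by
    intro a ha
    have ha' : σ a x = x := ha
    show σ a⁻¹ x = x
    rw [map_inv, Equiv.Perm.inv_eq_iff_eq]
    exact ha'.symm

theorem mem_stabOf (σ : H →* Equiv.Perm X) (x : X) (h : H) : h ∈ stabOf σ x ↔ σ h x = x :=
  Iff.rfl

theorem marks_aux [Finite H] [Finite X] (σ₁ σ₂ : H →* Equiv.Perm X) :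
    ∀ (n : ℕ) (A B : Set X), A.ncard = n →
      (∀ h, ∀ a ∈ A, σ₁ h a ∈ A) → (∀ h, ∀ b ∈ B, σ₂ h b ∈ B) →
      (∀ L : Subgroup H, (A ∩ fixSet σ₁ L).ncard = (B ∩ fixSet σ₂ L).ncard) →
      ∃ f : X → X, Set.BijOn f A B ∧ ∀ h, ∀ a ∈ A, f (σ₁ h a) = σ₂ h (f a) := by
  classical
  intro n
  induction n using Nat.strong_induction_on with
  | _ n ih =>
    intro A B hn hA hB hm
    rcases Set.eq_empty_or_nonempty A with hAe | ⟨a₀, ha₀⟩
    · have h1 := hm ⊥
      have hfix1 : fixSet σ₁ ⊥ = Set.univ := by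
        ext x
        simp [fixSet]
      have hfix2 : fixSet σ₂ ⊥ = Set.univ := by
        ext x
        simp [fixSet]
      rw [hfix1, hfix2, Set.inter_univ, Set.inter_univ, hAe, Set.ncard_empty] at h1
      have hBe : B = ∅ := (Set.ncard_eq_zero (Set.toFinite B)).mp h1.symm
      refine ⟨id, ?_, ?_⟩
      · rw [hAe, hBe]
        exact Set.bijOn_empty_iff_left.mpr rfl
      · intro h a ha
        rw [hAe] at ha
        exact absurd ha (Set.notMem_empty a)
    · obtain ⟨a, haA, hamax⟩ : ∃ a ∈ A, ∀ a' ∈ A,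
          Nat.card (stabOf σ₁ a') ≤ Nat.card (stabOf σ₁ a) := by
        have : Nonempty A := ⟨⟨a₀, ha₀⟩⟩
        obtain ⟨x, hx⟩ := Finite.exists_max (fun a : A => Nat.card (stabOf σ₁ a.1))
        exact ⟨x.1, x.2, fun a' ha' => hx ⟨a', ha'⟩⟩
      have hne : (A ∩ fixSet σ₁ (stabOf σ₁ a)).Nonempty := ⟨a, haA, fun l hl => hl⟩
      have hneB : (B ∩ fixSet σ₂ (stabOf σ₁ a)).Nonempty := by
        rw [← Set.ncard_pos (Set.toFinite _), ← hm (stabOf σ₁ a), Set.ncard_pos (Set.toFinite _)]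
        exact hne
      obtain ⟨b, hbB, hbfix⟩ := hneB
      have hstab : stabOf σ₂ b = stabOf σ₁ a := by
        have h1 : stabOf σ₁ a ≤ stabOf σ₂ b := fun l hl => hbfix l hl
        have h2 : (A ∩ fixSet σ₁ (stabOf σ₂ b)).Nonempty := by
          rw [← Set.ncard_pos (Set.toFinite _), hm (stabOf σ₂ b), Set.ncard_pos (Set.toFinite _)]
          exact ⟨b, hbB, fun l hl => hl⟩
        obtain ⟨a', ha'A, ha'fix⟩ := h2
        have h3 : stabOf σ₂ b ≤ stabOf σ₁ a' := fun l hl => ha'fix l hl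
        have h4 : Nat.card (stabOf σ₂ b) ≤ Nat.card (stabOf σ₁ a) :=
          (Subgroup.card_le_of_le h3).trans (hamax a' ha'A)
        exact (Subgroup.eq_of_le_of_card_ge h1 h4).symm
      -- the map on the orbit
      have hkey : ∀ h h' : H, σ₁ h a = σ₁ h' a ↔ σ₂ h b = σ₂ h' b := by
        intro h h'
        have e1 : σ₁ h a = σ₁ h' a ↔ h'⁻¹ * h ∈ stabOf σ₁ a := by
          rw [mem_stabOf, map_mul, Equiv.Perm.mul_apply, map_inv, Equiv.Perm.inv_eq_iff_eq]
        have e2 : σ₂ h b = σ₂ h' b ↔ h'⁻¹ * h ∈ stabOf σ₂ b := by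
          rw [mem_stabOf, map_mul, Equiv.Perm.mul_apply, map_inv, Equiv.Perm.inv_eq_iff_eq]
        rw [e1, e2, hstab]
      let f₀ : X → X := fun x => if hx : ∃ h, σ₁ h a = x then σ₂ hx.choose b else x
      have hf₀ : ∀ h, f₀ (σ₁ h a) = σ₂ h b := by
        intro h
        have hx : ∃ h', σ₁ h' a = σ₁ h a := ⟨h, rfl⟩
        show (if hx : ∃ h', σ₁ h' a = σ₁ h a then σ₂ hx.choose b else σ₁ h a) = σ₂ h b
        rw [dif_pos hx]
        exact (hkey _ _).mp hx.choose_spec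
      let O₁ : Set X := Set.range (fun h => σ₁ h a)
      let O₂ : Set X := Set.range (fun h => σ₂ h b)
      have hO₁A : O₁ ⊆ A := by
        rintro _ ⟨h, rfl⟩
        exact hA h a haA
      have hO₂B : O₂ ⊆ B := by
        rintro _ ⟨h, rfl⟩
        exact hB h b hbB
      have hinj₀ : Set.InjOn f₀ O₁ := by
        rintro _ ⟨h, rfl⟩ _ ⟨h', rfl⟩ hxy
        show σ₁ h a = σ₁ h' a
        rw [hf₀, hf₀] at hxy
        exact (hkey _ _).mpr hxy
      have heq₀ : ∀ k, ∀ x ∈ O₁, f₀ (σ₁ k x) = σ₂ k (f₀ x) := by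
        rintro k _ ⟨h, rfl⟩
        show f₀ (σ₁ k (σ₁ h a)) = σ₂ k (f₀ (σ₁ h a))
        rw [hf₀, ← Equiv.Perm.mul_apply, ← map_mul, hf₀, map_mul, Equiv.Perm.mul_apply]
      have hO₁inv : ∀ k, ∀ x ∈ O₁, σ₁ k x ∈ O₁ := by
        rintro k _ ⟨h, rfl⟩
        exact ⟨k * h, by simp [map_mul]⟩
      -- invariance of the complements
      have hA' : ∀ h, ∀ x ∈ A \ O₁, σ₁ h x ∈ A \ O₁ := by
        rintro h x ⟨hxA, hxO⟩
        refine ⟨hA h x hxA, ?_⟩
        intro hO
        apply hxO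
        have := hO₁inv h⁻¹ _ hO
        simpa using this
      have hO₂inv : ∀ k, ∀ x ∈ O₂, σ₂ k x ∈ O₂ := by
        rintro k _ ⟨h, rfl⟩
        exact ⟨k * h, by simp [map_mul]⟩
      have hB' : ∀ h, ∀ x ∈ B \ O₂, σ₂ h x ∈ B \ O₂ := by
        rintro h x ⟨hxB, hxO⟩
        refine ⟨hB h x hxB, ?_⟩
        intro hO
        apply hxO
        have := hO₂inv h⁻¹ _ hO
        simpa using this
      -- marks of the orbits agree
      have hOm : ∀ L : Subgroup H, (O₁ ∩ fixSet σ₁ L).ncard = (O₂ ∩ fixSet σ₂ L).ncard := by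
        intro L
        have himg : O₂ ∩ fixSet σ₂ L = f₀ '' (O₁ ∩ fixSet σ₁ L) := by
          ext y
          constructor
          · rintro ⟨⟨h, rfl⟩, hfix⟩
            refine ⟨σ₁ h a, ⟨⟨h, rfl⟩, ?_⟩, hf₀ h⟩
            intro l hl
            apply hinj₀ (hO₁inv l _ ⟨h, rfl⟩) ⟨h, rfl⟩
            rw [heq₀ l _ ⟨h, rfl⟩, hf₀]
            exact hfix l hl
          · rintro ⟨x, ⟨⟨h, rfl⟩, hfix⟩, rfl⟩
            refine ⟨⟨h, (hf₀ h).symm⟩, ?_⟩
            intro l hl
            have h1 := heq₀ l _ ⟨h, rfl⟩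
            have h2 : σ₁ l (σ₁ h a) = σ₁ h a := hfix l hl
            show σ₂ l (f₀ (σ₁ h a)) = f₀ (σ₁ h a)
            rw [← h1, h2]
        rw [himg]
        exact (Set.InjOn.ncard_image (hinj₀.mono Set.inter_subset_left)).symm
      have hm' : ∀ L : Subgroup H,
          ((A \ O₁) ∩ fixSet σ₁ L).ncard = ((B \ O₂) ∩ fixSet σ₂ L).ncard := by
        intro L
        have e1 : A ∩ fixSet σ₁ L = ((A \ O₁) ∩ fixSet σ₁ L) ∪ (O₁ ∩ fixSet σ₁ L) := by
          ext x
          constructor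
          · rintro ⟨hxA, hxf⟩
            by_cases hxO : x ∈ O₁
            · exact Or.inr ⟨hxO, hxf⟩
            · exact Or.inl ⟨⟨hxA, hxO⟩, hxf⟩
          · rintro (⟨⟨hxA, -⟩, hxf⟩ | ⟨hxO, hxf⟩)
            · exact ⟨hxA, hxf⟩
            · exact ⟨hO₁A hxO, hxf⟩
        have e2 : B ∩ fixSet σ₂ L = ((B \ O₂) ∩ fixSet σ₂ L) ∪ (O₂ ∩ fixSet σ₂ L) := by
          ext x
          constructor
          · rintro ⟨hxA, hxf⟩
            by_cases hxO : x ∈ O₂
            · exact Or.inr ⟨hxO, hxf⟩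
            · exact Or.inl ⟨⟨hxA, hxO⟩, hxf⟩
          · rintro (⟨⟨hxA, -⟩, hxf⟩ | ⟨hxO, hxf⟩)
            · exact ⟨hxA, hxf⟩
            · exact ⟨hO₂B hxO, hxf⟩
        have d1 : Disjoint ((A \ O₁) ∩ fixSet σ₁ L) (O₁ ∩ fixSet σ₁ L) := by
          rw [Set.disjoint_left]
          rintro x ⟨⟨-, hxO⟩, -⟩ ⟨hxO', -⟩
          exact hxO hxO'
        have d2 : Disjoint ((B \ O₂) ∩ fixSet σ₂ L) (O₂ ∩ fixSet σ₂ L) := by
          rw [Set.disjoint_left]
          rintro x ⟨⟨-, hxO⟩, -⟩ ⟨hxO', -⟩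
          exact hxO hxO'
        have h1 := hm L
        rw [e1, e2, Set.ncard_union_eq d1 (Set.toFinite _) (Set.toFinite _),
          Set.ncard_union_eq d2 (Set.toFinite _) (Set.toFinite _), hOm L] at h1
        omega
      have hlt : (A \ O₁).ncard < n := by
        have h1 := Set.ncard_sdiff_add_ncard_of_subset hO₁A (Set.toFinite A)
        have h2 : 0 < O₁.ncard := by
          rw [Set.ncard_pos (Set.toFinite _)]
          exact ⟨a, 1, by simp⟩
        omega
      obtain ⟨f', hf'bij, hf'eq⟩ := ih _ hlt (A \ O₁) (B \ O₂) rfl hA' hB' hm'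
      refine ⟨fun x => if x ∈ O₁ then f₀ x else f' x, ⟨?_, ?_, ?_⟩, ?_⟩
      · intro x hxA
        show (if x ∈ O₁ then f₀ x else f' x) ∈ B
        by_cases hxO : x ∈ O₁
        · rw [if_pos hxO]
          obtain ⟨h, rfl⟩ := hxO
          rw [hf₀]
          exact hB h b hbB
        · rw [if_neg hxO]
          exact (hf'bij.mapsTo ⟨hxA, hxO⟩).1
      · intro x hxA y hyA hxy
        have hxy' : (if x ∈ O₁ then f₀ x else f' x) = (if y ∈ O₁ then f₀ y else f' y) := hxy
        by_cases hxO : x ∈ O₁ <;> by_cases hyO : y ∈ O₁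
        · rw [if_pos hxO, if_pos hyO] at hxy'
          exact hinj₀ hxO hyO hxy'
        · rw [if_pos hxO, if_neg hyO] at hxy'
          exfalso
          have h1 := (hf'bij.mapsTo ⟨hyA, hyO⟩).2
          apply h1
          rw [← hxy']
          obtain ⟨h, rfl⟩ := hxO
          exact ⟨h, (hf₀ h).symm⟩
        · rw [if_neg hxO, if_pos hyO] at hxy'
          exfalso
          have h1 := (hf'bij.mapsTo ⟨hxA, hxO⟩).2
          apply h1
          rw [hxy']
          obtain ⟨h, rfl⟩ := hyO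
          exact ⟨h, (hf₀ h).symm⟩
        · rw [if_neg hxO, if_neg hyO] at hxy'
          exact hf'bij.injOn ⟨hxA, hxO⟩ ⟨hyA, hyO⟩ hxy'
      · intro z hzB
        by_cases hzO : z ∈ O₂
        · obtain ⟨h, rfl⟩ := hzO
          refine ⟨σ₁ h a, hA h a haA, ?_⟩
          show (if σ₁ h a ∈ O₁ then f₀ (σ₁ h a) else f' (σ₁ h a)) = σ₂ h b
          rw [if_pos ⟨h, rfl⟩, hf₀]
        · obtain ⟨x, hx, rfl⟩ := hf'bij.surjOn ⟨hzB, hzO⟩
          refine ⟨x, hx.1, ?_⟩
          show (if x ∈ O₁ then f₀ x else f' x) = f' x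
          rw [if_neg hx.2]
      · intro h x hxA
        show (if σ₁ h x ∈ O₁ then f₀ (σ₁ h x) else f' (σ₁ h x)) =
          σ₂ h (if x ∈ O₁ then f₀ x else f' x)
        by_cases hxO : x ∈ O₁
        · rw [if_pos hxO, if_pos (hO₁inv h x hxO)]
          exact heq₀ h x hxO
        · rw [if_neg hxO, if_neg (hA' h x ⟨hxA, hxO⟩).2]
          exact hf'eq h x ⟨hxA, hxO⟩

/-- two permutation representations of a finite group on a finite set with the same marks are
conjugate -/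
theorem exists_equivariant_perm [Finite H] [Finite X] (σ₁ σ₂ : H →* Equiv.Perm X)
    (hm : ∀ L : Subgroup H, (fixSet σ₁ L).ncard = (fixSet σ₂ L).ncard) :
    ∃ e : Equiv.Perm X, ∀ h x, e (σ₁ h x) = σ₂ h (e x) := by
  obtain ⟨f, hbij, heq⟩ := marks_aux σ₁ σ₂ _ Set.univ Set.univ rfl
    (fun _ _ _ => Set.mem_univ _) (fun _ _ _ => Set.mem_univ _)
    (fun L => by rw [Set.univ_inter, Set.univ_inter]; exact hm L)
  have hb : Function.Bijective f := Set.bijOn_univ.mp hbij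
  exact ⟨Equiv.ofBijective f hb, fun h x => heq h x (Set.mem_univ x)⟩

end Marks

end Cfsg.Agent.Helper27
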