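import Cfsg.Agent.Helper27.Model1
import Cfsg.Agent.Helper27.FusNormalSub
import Cfsg.Agent.Helper27.Iso1
import Cfsg.Agent.Helper27.FusAlperin

set_option autoImplicit false

namespace Cfsg.Agent.Helper27

open Cfsg Cfsg.FusionSystem

section model

variable {Ω : Type*} [Group Ω] {S : Subgroup Ω}

/-- a conjugation in one realizing group, on a subgroup it keeps inside the image of `S`, is
induced by an element of any other realizing group -/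
theorem realized_transfer {F : FusionSystem S}
    {G₁ G₂ : Type*} [Group G₁] [Group G₂] {ι₁ : S →* G₁} {ι₂ : S →* G₂}
    (h₁ : F.IsRealizedBy ι₁) (h₂ : F.IsRealizedBy ι₂) (P : Subgroup S) (g : G₁)
    (hg : ∀ x ∈ P, g * ι₁ x * g⁻¹ ∈ ι₁.range) :
    ∃ g' : G₂, ∀ x ∈ P, ∀ x' : S, g * ι₁ x * g⁻¹ = ι₁ x' → g' * ι₂ x * g'⁻¹ = ι₂ x' := by
  have hmor : Mor F (P.map S.subtype) (fun x => ainv ι₁ (g * afn ι₁ x * g⁻¹)) := by
    rw [realized_mor_iff h₁]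
    have key : ∀ x ∈ P.map S.subtype, ∃ x' : S,
        ainv ι₁ (g * afn ι₁ x * g⁻¹) = (x' : Ω) ∧ ι₁ x' = g * afn ι₁ x * g⁻¹ := by
      rintro _ ⟨s, hs, rfl⟩
      obtain ⟨x', hx'⟩ := hg s hs
      have e1 : afn ι₁ (S.subtype s) = ι₁ s := afn_of_mem ι₁ s.2
      have e2 : afn ι₁ (x' : Ω) = ι₁ x' := afn_of_mem ι₁ x'.2
      refine ⟨x', ?_, ?_⟩
      · rw [e1, ← hx', ← e2]
        exact ainv_afn h₁.1 x'.2
      · rw [e1, hx']
    refine ⟨?_, fun x hx => ?_, g, fun x hx => ?_⟩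
    · rintro _ ⟨s, -, rfl⟩
      exact s.2
    · obtain ⟨x', h1, -⟩ := key x hx
      show ainv ι₁ (g * afn ι₁ x * g⁻¹) ∈ S
      rw [h1]
      exact x'.2
    · obtain ⟨x', h1, h2⟩ := key x hx
      show afn ι₁ (ainv ι₁ (g * afn ι₁ x * g⁻¹)) = _
      rw [h1, afn_of_mem ι₁ x'.2]
      exact h2
  obtain ⟨-, -, g', hg'⟩ := (realized_mor_iff h₂).mp hmor
  refine ⟨g', fun x hx x' hxx' => ?_⟩
  have h1 := hg' (x : Ω) ⟨x, hx, rfl⟩
  have e1 : afn ι₁ (x : Ω) = ι₁ x := afn_of_mem ι₁ x.2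
  have e2 : afn ι₁ (x' : Ω) = ι₁ x' := afn_of_mem ι₁ x'.2
  have e3 : afn ι₂ (x : Ω) = ι₂ x := afn_of_mem ι₂ x.2
  have e4 : afn ι₂ (x' : Ω) = ι₂ x' := afn_of_mem ι₂ x'.2
  have h2 : ainv ι₁ (g * afn ι₁ (x : Ω) * g⁻¹) = (x' : Ω) := by
    rw [e1, hxx', ← e2]
    exact ainv_afn h₁.1 x'.2
  have h3 : afn ι₂ (ainv ι₁ (g * afn ι₁ (x : Ω) * g⁻¹)) = g' * afn ι₂ (x : Ω) * g'⁻¹ := h1
  rw [h2, e4, e3] at h3
  exact h3.symm

/-- the preimages of the `p`-cores of two models agree (one inclusion) -/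
theorem model_core_le [Finite S] (p : ℕ) [Fact p.Prime] (hS : IsPGroup p S) {F : FusionSystem S}
    {G₁ G₂ : Type*} [Group G₁] [Group G₂] (ι₁ : S →* G₁) (ι₂ : S →* G₂)
    (h₁ : F.IsModel p G₁ ι₁) (h₂ : F.IsModel p G₂ ι₂) (s : S) (hs : ι₁ s ∈ pCore p G₁) :
    ι₂ s ∈ pCore p G₂ := by
  obtain ⟨hfin₁, hr₁, ⟨T₁, hT₁⟩, hC₁⟩ := h₁
  obtain ⟨hfin₂, hr₂, ⟨T₂, hT₂⟩, hC₂⟩ := h₂
  have hU₁n : (pCore p G₁).Normal := pCore_normal' p G₁
  have hU₂n : (pCore p G₂).Normal := pCore_normal' p G₂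
  have hU₁r : pCore p G₁ ≤ ι₁.range := by
    rw [← hT₁]
    exact pCore_le_sylow T₁
  have hU₂r : pCore p G₂ ≤ ι₂.range := by
    rw [← hT₂]
    exact pCore_le_sylow T₂
  have hMn : (((pCore p G₁).comap ι₁).map ι₂).Normal := by
    refine ⟨?_⟩
    rintro _ ⟨q, hq, rfl⟩ g
    have hq' : ι₁ q ∈ pCore p G₁ := hq
    obtain ⟨g₁, hg₁⟩ := realized_transfer hr₂ hr₁ ((pCore p G₂).comap ι₂) g
      (fun x hx => hU₂r (hU₂n.conj_mem (ι₂ x) hx g))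
    have hle : (pCore p G₁).comap ι₁ ⊔ (pCore p G₂).comap ι₂ ≤
        ι₁.range.comap ((MulAut.conj g₁).toMonoidHom.comp ι₁) := by
      apply sup_le
      · intro x hx
        exact hU₁r (hU₁n.conj_mem (ι₁ x) hx g₁)
      · intro x hx
        obtain ⟨x', hx'⟩ := hU₂r (hU₂n.conj_mem (ι₂ x) hx g)
        exact ⟨x', (hg₁ x hx x' hx'.symm).symm⟩
    obtain ⟨h, hh⟩ := realized_transfer hr₁ hr₂
      ((pCore p G₁).comap ι₁ ⊔ (pCore p G₂).comap ι₂) g₁ (fun x hx => hle hx)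
    have hcen : g⁻¹ * h ∈ Subgroup.centralizer ((pCore p G₂ : Subgroup G₂) : Set G₂) := by
      rw [Subgroup.mem_centralizer_iff]
      intro u hu
      have hu' : u ∈ pCore p G₂ := hu
      obtain ⟨x, rfl⟩ := hU₂r hu'
      obtain ⟨x', hx'⟩ := hU₂r (hU₂n.conj_mem (ι₂ x) hu' g)
      have e1 := hg₁ x hu' x' hx'.symm
      have e2 := hh x (Subgroup.mem_sup_right hu') x' e1
      have e3 : h * ι₂ x * h⁻¹ = g * ι₂ x * g⁻¹ := e2.trans hx'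
      calc ι₂ x * (g⁻¹ * h) = g⁻¹ * (g * ι₂ x * g⁻¹) * h := by group
        _ = g⁻¹ * (h * ι₂ x * h⁻¹) * h := by rw [e3]
        _ = g⁻¹ * h * ι₂ x := by group
    obtain ⟨s₀, hs₀⟩ := hU₂r (hC₂ hcen)
    have hq2 : ι₁ (s₀⁻¹ * q * s₀) ∈ pCore p G₁ := by
      rw [map_mul, map_mul, map_inv]
      have := hU₁n.conj_mem (ι₁ q) hq' (ι₁ s₀)⁻¹
      rwa [inv_inv] at this
    obtain ⟨q₃, hq₃⟩ := hU₁r (hU₁n.conj_mem _ hq2 g₁)
    have hq₃U : ι₁ q₃ ∈ pCore p G₁ := by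
      rw [hq₃]
      exact hU₁n.conj_mem _ hq2 g₁
    have e4 := hh (s₀⁻¹ * q * s₀) (Subgroup.mem_sup_left hq2) q₃ hq₃.symm
    refine ⟨q₃, hq₃U, ?_⟩
    rw [← e4, map_mul, map_mul, map_inv, hs₀]
    group
  have hMp : IsPGroup p (((pCore p G₁).comap ι₁).map ι₂) := (hS.to_subgroup _).map ι₂
  exact le_pCore' hMn hMp ⟨s, hs, rfl⟩

/-- an injective homomorphism between two models, compatible with the embeddings of `S` -/
theorem model_hom [Finite S] (p : ℕ) [Fact p.Prime] (hS : IsPGroup p S) {F : FusionSystem S}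
    {G₁ G₂ : Type*} [Group G₁] [Group G₂] (ι₁ : S →* G₁) (ι₂ : S →* G₂)
    (h₁ : F.IsModel p G₁ ι₁) (h₂ : F.IsModel p G₂ ι₂)
    (hQ : ∀ s : S, ι₁ s ∈ pCore p G₁ ↔ ι₂ s ∈ pCore p G₂) :
    ∃ φ : G₁ →* G₂, Function.Injective φ ∧ ∀ x, φ (ι₁ x) = ι₂ x := by
  obtain ⟨hfin₁, hr₁, ⟨T₁, hT₁⟩, hC₁⟩ := h₁
  obtain ⟨hfin₂, hr₂, ⟨T₂, hT₂⟩, hC₂⟩ := h₂
  have hU₁n : (pCore p G₁).Normal := pCore_normal' p G₁
  have hU₂n : (pCore p G₂).Normal := pCore_normal' p G₂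
  have hU₁r : pCore p G₁ ≤ ι₁.range := by
    rw [← hT₁]
    exact pCore_le_sylow T₁
  have hU₂r : pCore p G₂ ≤ ι₂.range := by
    rw [← hT₂]
    exact pCore_le_sylow T₂
  have hi₁ := hr₁.1
  have hi₂ := hr₂.1
  let H : Subgroup (G₁ × G₂) :=
    { carrier := {gx | ∀ q : S, ι₁ q ∈ pCore p G₁ → ∃ q' : S, ι₁ q' ∈ pCore p G₁ ∧
        gx.1 * ι₁ q * gx.1⁻¹ = ι₁ q' ∧ gx.2 * ι₂ q * gx.2⁻¹ = ι₂ q'}
      one_mem' := by
        intro q hq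
        exact ⟨q, hq, by simp, by simp⟩
      mul_mem' := by
        rintro ⟨g, x⟩ ⟨g', x'⟩ h h' q hq
        obtain ⟨q₁, hq₁, e1, e2⟩ := h' q hq
        obtain ⟨q₂, hq₂, e3, e4⟩ := h q₁ hq₁
        have e1' : g' * ι₁ q * g'⁻¹ = ι₁ q₁ := e1
        have e2' : x' * ι₂ q * x'⁻¹ = ι₂ q₁ := e2
        have e3' : g * ι₁ q₁ * g⁻¹ = ι₁ q₂ := e3
        have e4' : x * ι₂ q₁ * x⁻¹ = ι₂ q₂ := e4
        refine ⟨q₂, hq₂, ?_, ?_⟩
        · show g * g' * ι₁ q * (g * g')⁻¹ = ι₁ q₂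
          rw [← e3', ← e1']
          group
        · show x * x' * ι₂ q * (x * x')⁻¹ = ι₂ q₂
          rw [← e4', ← e2']
          group
      inv_mem' := by
        rintro ⟨g, x⟩ h q hq
        obtain ⟨q₀, hq₀⟩ := hU₁r (hU₁n.conj_mem (ι₁ q) hq g⁻¹)
        have hq₀U : ι₁ q₀ ∈ pCore p G₁ := by
          rw [hq₀]
          exact hU₁n.conj_mem (ι₁ q) hq g⁻¹
        obtain ⟨q', hq', e1, e2⟩ := h q₀ hq₀U
        have e1' : g * ι₁ q₀ * g⁻¹ = ι₁ q' := e1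
        have e2' : x * ι₂ q₀ * x⁻¹ = ι₂ q' := e2
        have hqq : q' = q := by
          apply hi₁
          rw [← e1', hq₀]
          group
        rw [hqq] at e2'
        refine ⟨q₀, hq₀U, ?_, ?_⟩
        · show g⁻¹ * ι₁ q * g⁻¹⁻¹ = ι₁ q₀
          exact hq₀.symm
        · show x⁻¹ * ι₂ q * x⁻¹⁻¹ = ι₂ q₀
          rw [← e2']
          group }
  have hH : ∀ g x, (g, x) ∈ H ↔ ∀ q : S, ι₁ q ∈ pCore p G₁ → ∃ q' : S, ι₁ q' ∈ pCore p G₁ ∧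
      g * ι₁ q * g⁻¹ = ι₁ q' ∧ x * ι₂ q * x⁻¹ = ι₂ q' := fun g x => Iff.rfl
  have hHS : ∀ s, (ι₁ s, ι₂ s) ∈ H := by
    intro s
    rw [hH]
    intro q hq
    refine ⟨s * q * s⁻¹, ?_, ?_, ?_⟩
    · rw [map_mul, map_mul, map_inv]
      exact hU₁n.conj_mem (ι₁ q) hq (ι₁ s)
    · rw [map_mul, map_mul, map_inv]
    · rw [map_mul, map_mul, map_inv]
  have hex : ∀ t : G₁, ∃ y : G₂, (t, y) ∈ H ∧
      ∀ s s' : S, ι₁ s * t = t * ι₁ s' → ι₂ s * y = y * ι₂ s' := by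
    intro t
    have hmemP : ∀ x : S, t * ι₁ x * t⁻¹ ∈ ι₁.range →
        x ∈ ι₁.range.comap ((MulAut.conj t).toMonoidHom.comp ι₁) := fun x hx => hx
    obtain ⟨y, hy⟩ := realized_transfer hr₁ hr₂
      (ι₁.range.comap ((MulAut.conj t).toMonoidHom.comp ι₁)) t (fun x hx => hx)
    refine ⟨y, ?_, ?_⟩
    · rw [hH]
      intro q hq
      have h1 := hU₁n.conj_mem (ι₁ q) hq t
      obtain ⟨q', hq'⟩ := hU₁r h1
      refine ⟨q', ?_, hq'.symm, hy q (hmemP q ⟨q', hq'⟩) q' hq'.symm⟩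
      rw [hq']
      exact h1
    · intro s s' hss
      have e1 : t * ι₁ s' * t⁻¹ = ι₁ s := by
        rw [← hss]
        group
      have e2 := hy s' (hmemP s' ⟨s, e1.symm⟩) s e1
      rw [← e2]
      group
  have hZc : ∀ x : G₂, ((1 : G₁), x) ∈ H →
      x ∈ Subgroup.centralizer ((pCore p G₂ : Subgroup G₂) : Set G₂) := by
    intro x hx
    rw [Subgroup.mem_centralizer_iff]
    intro u hu
    have hu' : u ∈ pCore p G₂ := hu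
    obtain ⟨q, rfl⟩ := hU₂r hu'
    obtain ⟨q', -, e1, e2⟩ := (hH 1 x).mp hx q ((hQ q).mpr hu')
    have hqq : q' = q := by
      apply hi₁
      rw [← e1]
      group
    rw [hqq] at e2
    calc ι₂ q * x = (x * ι₂ q * x⁻¹) * x := by rw [e2]
      _ = x * ι₂ q := by group
  have hZ : ∀ x : G₂, ((1 : G₁), x) ∈ H → x ∈ pCore p G₂ := fun x hx => hC₂ (hZc x hx)
  have hZab : ∀ x y : G₂, ((1 : G₁), x) ∈ H → ((1 : G₁), y) ∈ H → x * y = y * x := by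
    intro x y hx hy
    exact Subgroup.mem_centralizer_iff.mp (hZc y hy) x (hZ x hx)
  have hZexp : ∀ x : G₂, ((1 : G₁), x) ∈ H → x ^ Nat.card S = 1 := by
    intro x hx
    obtain ⟨s, rfl⟩ := hU₂r (hZ x hx)
    rw [← map_pow, pow_card_eq_one', map_one]
  have hcop : Nat.Coprime ι₁.range.index (Nat.card S) := by
    obtain ⟨k, hk⟩ := IsPGroup.iff_card.mp hS
    rw [hk, ← hT₁]
    apply Nat.Coprime.pow_right
    exact ((Nat.Prime.coprime_iff_not_dvd (Fact.out : p.Prime)).mpr T₁.not_dvd_index).symm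
  obtain ⟨φ, hφH, hφι⟩ := exists_hom_of_compat ι₁ ι₂ hi₁ H hHS hex hZab (Nat.card S) hZexp hcop
  refine ⟨φ, ?_, hφι⟩
  rw [injective_iff_map_eq_one]
  intro g hg
  have h1 : (g, (1 : G₂)) ∈ H := by
    have := hφH g
    rw [hg] at this
    exact this
  have h2 : g ∈ Subgroup.centralizer ((pCore p G₁ : Subgroup G₁) : Set G₁) := by
    rw [Subgroup.mem_centralizer_iff]
    intro u hu
    have hu' : u ∈ pCore p G₁ := hu
    obtain ⟨q, rfl⟩ := hU₁r hu'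
    obtain ⟨q', -, e1, e2⟩ := (hH g 1).mp h1 q hu'
    have hqq : q' = q := by
      apply hi₂
      rw [← e2]
      group
    rw [hqq] at e1
    calc ι₁ q * g = (g * ι₁ q * g⁻¹) * g := by rw [e1]
      _ = g * ι₁ q := by group
  obtain ⟨s, rfl⟩ := hU₁r (hC₁ h2)
  rw [hφι] at hg
  have hs1 : s = 1 := hi₂ (by rw [hg, map_one])
  rw [hs1, map_one]

/-- Model theorem, uniqueness -/
theorem model_unique [Finite S] (p : ℕ) [Fact p.Prime] (hS : IsPGroup p S) (F : FusionSystem S)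
    {G₁ G₂ : Type*} [Group G₁] [Group G₂] (ι₁ : S →* G₁) (ι₂ : S →* G₂)
    (h₁ : F.IsModel p G₁ ι₁) (h₂ : F.IsModel p G₂ ι₂) :
    ∃ φ : G₁ ≃* G₂, ∀ x : S, φ (ι₁ x) = ι₂ x := by
  have hQ : ∀ s : S, ι₁ s ∈ pCore p G₁ ↔ ι₂ s ∈ pCore p G₂ := fun s =>
    ⟨model_core_le p hS ι₁ ι₂ h₁ h₂ s, model_core_le p hS ι₂ ι₁ h₂ h₁ s⟩
  obtain ⟨φ, hφ, hφι⟩ := model_hom p hS ι₁ ι₂ h₁ h₂ hQ
  obtain ⟨ψ, hψ, -⟩ := model_hom p hS ι₂ ι₁ h₂ h₁ (fun s => (hQ s).symm)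
  haveI := h₁.1
  haveI := h₂.1
  have hbij : Function.Bijective φ :=
    hφ.bijective_of_nat_card_le (Nat.card_le_card_of_injective ψ hψ)
  exact ⟨MulEquiv.ofBijective φ hbij, fun x => hφι x⟩

end model

end Cfsg.Agent.Helper27
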