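import Cfsg.Agent.Helper27.ResLim1
import Cfsg.Agent.Helper27.Iso7
import Cfsg.Agent.Helper27.FusPred
import Cfsg.Agent.Helper27.FusSat

set_option autoImplicit false

namespace Cfsg.Agent.Helper27

open Cfsg Cfsg.FusionSystem

variable {Ω : Type*} [Group Ω] {S : Subgroup Ω}

/-- the subsystem of maps respecting membership in a normal subgroup `T` of `S` -/
def scSys (F : FusionSystem S) (T : Subgroup Ω)
    (hTn : ∀ g ∈ S, ∀ t : Ω, t ∈ T ↔ g * t * g⁻¹ ∈ T) : FusionSystem S :=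
  predSys F (fun P f => ∀ x ∈ P, (x ∈ T ↔ f x ∈ T))
    (fun P g _ hg x _ => hTn g hg x)
    (fun P f f' hG hff x hx => by rw [← hff x hx]; exact hG x hx)
    (fun P P₂ f f₂ _ _ hmaps hG hG₂ x hx => (hG x hx).trans (hG₂ (f x) (hmaps x hx)))
    (fun P f g hf hG _ hgf y hy => by
      obtain ⟨x, hx, rfl⟩ := hf.mem_img.mp hy
      rw [hgf x hx]
      exact (hG x hx).symm)

theorem mor_scSys_iff {F : FusionSystem S} {T : Subgroup Ω}
    {hTn : ∀ g ∈ S, ∀ t : Ω, t ∈ T ↔ g * t * g⁻¹ ∈ T} {P : Subgroup Ω} {f : Ω → Ω} :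
    Mor (scSys F T hTn) P f ↔ Mor F P f ∧ ∀ x ∈ P, (x ∈ T ↔ f x ∈ T) :=
  mor_predSys_iff

/-- a normal subgroup of `S` containing the hyperfocal subgroup is strongly closed -/
theorem stronglyClosed_of_hyp_le [Finite S] {p : ℕ} [Fact p.Prime] (hS : IsPGroup p S)
    {F : FusionSystem S} (hF : F.IsSaturated p) {T : Subgroup Ω} (hTS : T ≤ S)
    (hTn : ∀ g ∈ S, ∀ t : Ω, t ∈ T ↔ g * t * g⁻¹ ∈ T) (hT : F.hyperfocalSubgroup p ≤ T) :
    F.StronglyClosed T := by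
  have hA : ∀ P : Subgroup Ω, (P = S ∨ F.IsEssential p P) →
      F.autGroup P ≤ (scSys F T hTn).autGroup P := by
    intro P hPc α hα
    have hPfn : F.IsFullyNormalized P := by
      rcases hPc with hPe | hess
      · rw [hPe]
        exact Cfsg.Agent.Helper26.fullyNormalized_top F
      · exact hess.2.1
    have hP : P ≤ S := hPfn.1
    obtain ⟨g, hg, u, hu, hgu⟩ := Cfsg.Agent.Helper26.aut_decomp p hS F hF hPfn ⟨α, hα⟩
    rw [mem_autGroup_iff hP α]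
    refine mor_scSys_iff.mpr ⟨(mem_autGroup_iff hP α).mp hα, fun x hx => ?_⟩
    rw [autFn_of_mem α hx]
    have h1 := hgu ⟨x, hx⟩
    have h2 : ((α ⟨x, hx⟩ : P) : Ω) = g * (((u : MulAut P) ⟨x, hx⟩ : P) : Ω) * g⁻¹ := h1
    rw [h2, ← hTn g hg]
    have h3 : x⁻¹ * (((u : MulAut P) ⟨x, hx⟩ : P) : Ω) ∈ T :=
      hT (Subgroup.subset_closure ⟨P, u, ⟨x, hx⟩, hP, hu, rfl⟩)
    constructor
    · intro hxT
      have h4 := T.mul_mem hxT h3
      rwa [mul_inv_cancel_left] at h4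
    · intro huT
      have h4 := T.mul_mem huT (T.inv_mem h3)
      rw [mul_inv_rev, inv_inv, ← mul_assoc, mul_inv_cancel, one_mul] at h4
      exact h4
  refine ⟨hTS, fun R hR φ hφ x => ?_⟩
  have hRS : R ≤ S := le_trans hR hTS
  have h1 := Cfsg.Agent.Helper26.alperin_goldschmidt p hS F hF (scSys F T hTn) hA _ R hRS rfl φ hφ
  have h2 := (mor_scSys_iff.mp (mor_of_hom h1)).2 x x.2
  rw [fn_apply] at h2
  exact h2.mp (hR x.2)

/-- restriction of a `p'`-automorphism to the intersection with a strongly closed subgroup -/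
theorem restrict_pprime [Finite S] {p : ℕ} [Fact p.Prime] {F : FusionSystem S}
    {T : Subgroup Ω} (hsc : F.StronglyClosed T) {P : Subgroup Ω} (hP : P ≤ S) {α : MulAut P}
    (hα : α ∈ F.autGroup P) (hcop : Nat.Coprime (orderOf α) p) :
    ∃ β : MulAut ↥(P ⊓ T), β ∈ F.autGroup (P ⊓ T) ∧ Nat.Coprime (orderOf β) p ∧
      ∀ q : ↥(P ⊓ T), ((β q : ↥(P ⊓ T)) : Ω) = autFn α q := by
  have hTS := hsc.1
  have hm : Mor F P (autFn α) := (mem_autGroup_iff hP α).mp hα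
  have hQP : P ⊓ T ≤ P := inf_le_left
  have hQT : P ⊓ T ≤ T := inf_le_right
  have hmQ : Mor F (P ⊓ T) (autFn α) := hm.restrict hQP
  have hmaps : ∀ z ∈ P ⊓ T, autFn α z ∈ P ⊓ T := by
    intro z hz
    refine Subgroup.mem_inf.mpr ⟨autFn_mem α (hQP hz), ?_⟩
    obtain ⟨φ, hφ, hφf⟩ := hmQ
    rw [← hφf ⟨z, hz⟩]
    exact hsc.2 (P ⊓ T) hQT φ hφ ⟨z, hz⟩
  haveI : Finite ↥(P ⊓ T) := finite_of_le (le_trans hQT hTS)
  obtain ⟨β, hβ, hβf⟩ := exists_aut_of_mor hmQ hmaps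
  have hpow : ∀ (k : ℕ) (q : ↥(P ⊓ T)),
      (((β ^ k) q : ↥(P ⊓ T)) : Ω) = (((α ^ k) ⟨q, hQP q.2⟩ : P) : Ω) := by
    intro k
    induction k with
    | zero => intro q; rfl
    | succ k ih =>
      intro q
      rw [pow_succ', pow_succ']
      show ((β ((β ^ k) q) : ↥(P ⊓ T)) : Ω) = ((α ((α ^ k) ⟨q, hQP q.2⟩) : P) : Ω)
      rw [hβf, autFn_of_mem α (hQP ((β ^ k) q).2)]
      have h5 : (⟨(((β ^ k) q : ↥(P ⊓ T)) : Ω), hQP ((β ^ k) q).2⟩ : P) =
          (α ^ k) ⟨q, hQP q.2⟩ := Subtype.ext (ih q)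
      rw [h5]
  have hβord : Nat.Coprime (orderOf β) p := by
    have hone : β ^ orderOf α = 1 := by
      apply MulEquiv.ext
      intro q
      apply Subtype.ext
      rw [hpow, pow_orderOf_eq_one]
      rfl
    exact Nat.Coprime.coprime_dvd_left (orderOf_dvd_of_pow_eq_one hone) hcop
  exact ⟨β, hβ, hβord, hβf⟩

theorem mem_pResidual_of_coprime {G : Type*} [Group G] {p : ℕ} {H : Subgroup G} {β : G}
    (hβ : β ∈ H) (hcop : Nat.Coprime (orderOf β) p) :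
    β ∈ (pResidual p H).map H.subtype := by
  refine ⟨⟨β, hβ⟩, Subgroup.subset_closure ?_, rfl⟩
  show Nat.Coprime (orderOf (⟨β, hβ⟩ : H)) p
  have h3 : orderOf (⟨β, hβ⟩ : H) = orderOf β := (Subgroup.orderOf_coe (⟨β, hβ⟩ : H)).symm
  rw [h3]
  exact hcop

/-- conjugating a map of `F` between subgroups of `T` by an automorphism of `T` in `F` -/
theorem inv_sub {F : FusionSystem S} {T : Subgroup Ω} (hTS : T ≤ S) {α : MulAut T}
    (hα : α ∈ F.autGroup T) {P : Subgroup Ω} {f : Ω → Ω} (hf : Mor F P f) (hPT : P ≤ T)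
    (hfT : ∀ x ∈ P, f x ∈ T) :
    ∃ g, Mor F ((P.subgroupOf T).map (T.subtype.comp α.toMonoidHom)) g ∧
      ∀ x ∈ P, g (autFn α x) = autFn α (f x) := by
  have ha : Mor F T (autFn α) := (mem_autGroup_iff hTS α).mp hα
  have ha' : Mor F T (autFn α⁻¹) := (mem_autGroup_iff hTS α⁻¹).mp (inv_mem hα)
  have hle : (P.subgroupOf T).map (T.subtype.comp α.toMonoidHom) ≤ T := by
    intro y hy
    obtain ⟨x, hx, hxU, rfl⟩ := (mem_amap α).mp hy
    exact autFn_mem α hxU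
  have h1 : Mor F ((P.subgroupOf T).map (T.subtype.comp α.toMonoidHom)) (f ∘ autFn α⁻¹) := by
    refine (ha'.restrict hle).comp hf ?_
    intro y hy
    obtain ⟨x, hx, hxU, rfl⟩ := (mem_amap α).mp hy
    rw [autFn_inv_left α hxU]
    exact hx
  have h2 : Mor F ((P.subgroupOf T).map (T.subtype.comp α.toMonoidHom))
      (autFn α ∘ (f ∘ autFn α⁻¹)) := by
    refine h1.comp ha ?_
    intro y hy
    obtain ⟨x, hx, hxU, rfl⟩ := (mem_amap α).mp hy
    show f (autFn α⁻¹ (autFn α x)) ∈ T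
    rw [autFn_inv_left α hxU]
    exact hfT x hx
  refine ⟨_, h2, fun x hx => ?_⟩
  show autFn α (f (autFn α⁻¹ (autFn α x))) = autFn α (f x)
  rw [autFn_inv_left α (hPT hx)]

end Cfsg.Agent.Helper27
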