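import Cfsg.Agent.Helper27.PPN1
import Cfsg.Agent.Helper27.PearlGen
import Cfsg.Agent.Helper27.FusRes

set_option autoImplicit false

namespace Cfsg.Agent.Helper27

open Cfsg Cfsg.FusionSystem

variable {Ω : Type*} [Group Ω] {S : Subgroup Ω}

/-- conjugating an automorphism of `P` by an automorphism `α` of `T`: orders -/
theorem conj_order_dvd {T P P' : Subgroup Ω} (α : MulAut T) (hP : P ≤ T)
    (hPP' : ∀ x ∈ P, autFn α x ∈ P') {β : MulAut P} {β' : MulAut P'}
    (h : ∀ x ∈ P, autFn β' (autFn α x) = autFn α (autFn β x)) :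
    orderOf β ∣ orderOf β' := by
  have hpow : ∀ (k : ℕ) (x : Ω), x ∈ P →
      autFn (β' ^ k) (autFn α x) = autFn α (autFn (β ^ k) x) := by
    intro k
    induction k with
    | zero =>
      intro x hx
      rw [pow_zero, pow_zero, autFn_one_apply (hPP' x hx), autFn_one_apply hx]
    | succ k ih =>
      intro x hx
      rw [pow_succ', pow_succ', autFn_mul_apply β' _ (hPP' x hx), ih x hx,
        autFn_mul_apply β _ hx, h _ (autFn_mem _ hx)]
  apply orderOf_dvd_of_pow_eq_one
  apply MulEquiv.ext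
  intro x
  apply Subtype.ext
  have h1 := hpow (orderOf β') x x.2
  rw [pow_orderOf_eq_one, autFn_one_apply (hPP' x x.2)] at h1
  have h2 := autFn_injOn α (hP x.2) (hP (autFn_mem _ x.2)) h1
  rw [autFn_of_mem _ x.2] at h2
  exact h2.symm

theorem imageAlong_aut_top {T : Subgroup Ω} (α : MulAut T) :
    imageAlong (T.subtype.comp α.toMonoidHom) T = T := by
  ext y
  rw [mem_imageAlong]
  constructor
  · rintro ⟨x, hx, -, rfl⟩
    rw [afn_aut α hx]
    exact autFn_mem α hx
  · intro hy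
    refine ⟨autFn α⁻¹ y, autFn_mem _ hy, autFn_mem _ hy, ?_⟩
    rw [afn_aut α (autFn_mem _ hy), autFn_inv_right α hy]

theorem aut_comp_injective {T : Subgroup Ω} (α : MulAut T) :
    Function.Injective (T.subtype.comp α.toMonoidHom) := by
  intro a b hab
  have h1 : ((α a : T) : Ω) = ((α b : T) : Ω) := hab
  exact α.injective (Subtype.ext h1)

/-- a saturated subsystem of `p`-power index is invariant under the automorphisms of `T` in `F` -/
theorem ppow_inv [Finite S] {p : ℕ} [Fact p.Prime] (hS : IsPGroup p S)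
    {F : FusionSystem S} {T : Subgroup Ω} (hTS : T ≤ S) {E : FusionSystem T}
    (hEs : E.IsSaturated p) (hEi : E.HasPPowerIndexIn F p) {α : MulAut T}
    (hα : α ∈ F.autGroup T) {P : Subgroup Ω} {f : Ω → Ω} (hf : Mor E P f) :
    ∃ g, Mor E ((P.subgroupOf T).map (T.subtype.comp α.toMonoidHom)) g ∧
      ∀ x ∈ P, g (autFn α x) = autFn α (f x) := by
  haveI : Finite T := finite_of_le hTS
  have hpT : IsPGroup p T := hS.to_le hTS
  have hinj := aut_comp_injective α
  have hT' := imageAlong_aut_top α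
  obtain ⟨E', hpush⟩ := exists_push hinj (le_refl T) E
  have hE's : E'.IsSaturated p := hpush.saturated hpT hEs
  have hE'sub : E'.IsSubsystemOf F := by
    intro P' φ' hφ'
    obtain ⟨P₀, f₀, hf₀, hPP, hff⟩ := (hpush.hom _ _).mp (mor_of_hom hφ')
    apply hom_of_mor_fn
    obtain ⟨g, hg, hgf⟩ := inv_sub hTS hα (hf₀.of_subsystem hEi.1) hf₀.le
      (fun x hx => hf₀.mem hx)
    subst hPP
    refine Mor.congr (P := (P₀.subgroupOf T).map (T.subtype.comp α.toMonoidHom)) hg
      (fun y hy => ?_)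
    obtain ⟨x, hx, hxT, rfl⟩ := (mem_amap α).mp hy
    rw [hgf x hx, ← afn_aut α hxT, hff x hx, afn_aut α (hf₀.mem hx)]
  have hE'i : ∀ P' : Subgroup Ω, P' ≤ imageAlong (T.subtype.comp α.toMonoidHom) T →
      (pResidual p (F.autGroup P')).map (F.autGroup P').subtype ≤ E'.autGroup P' := by
    intro P' hP'
    have hP'T : P' ≤ T := hT' ▸ hP'
    rw [Subgroup.map_le_iff_le_comap]
    have h0 : pResidual p ↥(F.autGroup P') =
        Subgroup.closure {g | Nat.Coprime (orderOf g) p} := rfl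
    rw [h0, Subgroup.closure_le]
    intro β' hβ'
    show ((β' : F.autGroup P') : MulAut P') ∈ E'.autGroup P'
    have hβ'o : Nat.Coprime (orderOf (β' : MulAut P')) p := by
      rw [Subgroup.orderOf_coe]
      exact hβ'
    have hm' : Mor F P' (autFn (β' : MulAut P')) :=
      (mem_autGroup_iff (hP'T.trans hTS) _).mp β'.2
    obtain ⟨g, hg, hgf⟩ := inv_sub hTS (inv_mem hα) hm' hP'T
      (fun x hx => hP'T (autFn_mem _ hx))
    have hPT : (P'.subgroupOf T).map (T.subtype.comp (α⁻¹).toMonoidHom) ≤ T := by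
      intro y hy
      obtain ⟨x, hx, hxT, rfl⟩ := (mem_amap α⁻¹).mp hy
      exact autFn_mem _ hxT
    have hmaps : ∀ y ∈ (P'.subgroupOf T).map (T.subtype.comp (α⁻¹).toMonoidHom),
        g y ∈ (P'.subgroupOf T).map (T.subtype.comp (α⁻¹).toMonoidHom) := by
      intro y hy
      obtain ⟨x, hx, hxT, rfl⟩ := (mem_amap α⁻¹).mp hy
      rw [hgf x hx]
      exact (mem_amap α⁻¹).mpr ⟨_, autFn_mem _ hx, hP'T (autFn_mem _ hx), rfl⟩
    have : Finite ((P'.subgroupOf T).map (T.subtype.comp (α⁻¹).toMonoidHom) : Subgroup Ω) :=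
      finite_of_le (hPT.trans hTS)
    obtain ⟨β, hβ, hβf⟩ := exists_aut_of_mor hg hmaps
    have hβfn : ∀ y ∈ (P'.subgroupOf T).map (T.subtype.comp (α⁻¹).toMonoidHom),
        autFn β y = g y := by
      intro y hy
      rw [autFn_of_mem β hy]
      exact hβf ⟨y, hy⟩
    have hkey : ∀ z ∈ P', autFn β (autFn α⁻¹ z) = autFn α⁻¹ (autFn (β' : MulAut P') z) := by
      intro z hz
      rw [hβfn _ ((mem_amap α⁻¹).mpr ⟨z, hz, hP'T hz, rfl⟩), hgf z hz]
    have hdvd : orderOf β ∣ orderOf (β' : MulAut P') := by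
      refine conj_order_dvd α hPT ?_ ?_
      · intro y hy
        obtain ⟨z, hz, hzT, rfl⟩ := (mem_amap α⁻¹).mp hy
        rw [autFn_inv_right α hzT]
        exact hz
      · intro y hy
        obtain ⟨z, hz, hzT, rfl⟩ := (mem_amap α⁻¹).mp hy
        rw [autFn_inv_right α hzT, hkey z hz, autFn_inv_right α (hP'T (autFn_mem _ hz))]
    have hβo : Nat.Coprime (orderOf β) p := Nat.Coprime.coprime_dvd_left hdvd hβ'o
    have hβE : β ∈ E.autGroup _ := hEi.2.2 _ hPT (mem_pResidual_of_coprime hβ hβo)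
    have hQ' : P' = imageAlong (T.subtype.comp α.toMonoidHom)
        ((P'.subgroupOf T).map (T.subtype.comp (α⁻¹).toMonoidHom)) := by
      ext y
      rw [mem_imageAlong]
      constructor
      · intro hy
        refine ⟨autFn α⁻¹ y, (mem_amap α⁻¹).mpr ⟨y, hy, hP'T hy, rfl⟩,
          autFn_mem _ (hP'T hy), ?_⟩
        rw [afn_aut α (autFn_mem _ (hP'T hy)), autFn_inv_right α (hP'T hy)]
      · rintro ⟨x, hx, hxT, rfl⟩
        obtain ⟨z, hz, hzT, rfl⟩ := (mem_amap α⁻¹).mp hx
        rw [afn_aut α hxT, autFn_inv_right α hzT]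
        exact hz
    obtain ⟨β'', hβ'', hβ''f⟩ := hpush.aut_push hPT hβE hQ'
    have heq : β'' = (β' : MulAut P') := by
      apply MulEquiv.ext
      intro z
      apply Subtype.ext
      have hzT : (z : Ω) ∈ T := hP'T z.2
      have h1 := hβ''f (autFn α⁻¹ z) ((mem_amap α⁻¹).mpr ⟨z, z.2, hzT, rfl⟩)
      rw [afn_aut α (autFn_mem _ hzT), autFn_inv_right α hzT, hkey z z.2,
        afn_aut α (autFn_mem _ (hP'T (autFn_mem _ z.2))),
        autFn_inv_right α (hP'T (autFn_mem _ z.2)), autFn_apply, autFn_apply] at h1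
      exact h1
    rw [← heq]
    exact hβ''
  have hsame : SameSys E E' :=
    ppow_unique hT'.symm hpT E E' hEs hE's hEi.1 hE'sub hEi.2.2 hE'i
  have hPT : P ≤ T := hf.le
  have h1 := hpush.fwd' hf
  obtain ⟨φ, hφ, hφf⟩ := h1
  have hφ' : φ ∈ E.Hom (imageAlong (T.subtype.comp α.toMonoidHom) P) := by
    rw [hsame.2]
    exact hφ
  have hm : Mor E (imageAlong (T.subtype.comp α.toMonoidHom) P)
      (fun y => afn (T.subtype.comp α.toMonoidHom) (f (ainv (T.subtype.comp α.toMonoidHom) y))) :=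
    ⟨φ, hφ', hφf⟩
  refine ⟨_, hm, fun x hx => ?_⟩
  show afn (T.subtype.comp α.toMonoidHom) (f (ainv (T.subtype.comp α.toMonoidHom) (autFn α x))) =
    autFn α (f x)
  rw [← afn_aut α (hPT hx), ainv_afn hinj (hPT hx), afn_aut α (hf.mem hx)]

end Cfsg.Agent.Helper27
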