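import Cfsg.Agent.Helper27.PPN2

set_option autoImplicit false

namespace Cfsg.Agent.Helper27

open Cfsg Cfsg.FusionSystem

variable {Ω : Type*} [Group Ω] {S : Subgroup Ω}

/-- Frattini predicate: on `P ⊓ T` the map is a map of `E` followed by an automorphism of `T` -/
def FratPred (F : FusionSystem S) {T : Subgroup Ω} (E : FusionSystem T) (P : Subgroup Ω)
    (f : Ω → Ω) : Prop :=
  ∃ α ∈ F.autGroup T, ∃ f₀, Mor E (P ⊓ T) f₀ ∧ ∀ x ∈ P ⊓ T, f x = autFn α (f₀ x)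

theorem fratPred_conj {F : FusionSystem S} {T : Subgroup Ω} (hTS : T ≤ S)
    (hTn : ∀ g ∈ S, ∀ t : Ω, t ∈ T ↔ g * t * g⁻¹ ∈ T) (E : FusionSystem T)
    (P : Subgroup Ω) (g : Ω) (_hP : P ≤ S) (hg : g ∈ S) :
    FratPred F E P (fun x => g * x * g⁻¹) := by
  have hgN : g ∈ Subgroup.normalizer (T : Set Ω) :=
    Subgroup.mem_normalizer_iff.mpr (fun t => hTn g hg t)
  refine ⟨conjAut T g hgN, ?_, fun x => x, Mor.id E inf_le_right, fun x hx => ?_⟩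
  · exact autInducedBy_le_autGroup F hTS (conjAut_mem_autInducedBy hg hgN)
  · rw [autFn_of_mem _ (Subgroup.mem_inf.mp hx).2]
    rfl

theorem fratPred_congr {F : FusionSystem S} {T : Subgroup Ω} (E : FusionSystem T)
    (P : Subgroup Ω) (f f' : Ω → Ω) (h : FratPred F E P f) (hff : ∀ x ∈ P, f x = f' x) :
    FratPred F E P f' := by
  obtain ⟨α, hα, f₀, hf₀, hp⟩ := h
  exact ⟨α, hα, f₀, hf₀, fun x hx => by
    rw [← hff x (Subgroup.mem_inf.mp hx).1]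
    exact hp x hx⟩

theorem fratPred_comp [Finite S] {p : ℕ} [Fact p.Prime] (hS : IsPGroup p S)
    {F : FusionSystem S} {T : Subgroup Ω} (hTS : T ≤ S) {E : FusionSystem T}
    (hEs : E.IsSaturated p) (hEi : E.HasPPowerIndexIn F p)
    (P P₂ : Subgroup Ω) (f f₂ : Ω → Ω) (hmaps : ∀ x ∈ P, f x ∈ P₂)
    (h : FratPred F E P f) (h₂ : FratPred F E P₂ f₂) : FratPred F E P (f₂ ∘ f) := by
  obtain ⟨α₁, hα₁, f₁, hf₁, hp₁⟩ := h
  obtain ⟨α₂, hα₂, f₀₂, hf₀₂, hp₂⟩ := h₂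
  obtain ⟨g, hg, hgf⟩ := ppow_inv hS hTS hEs hEi (inv_mem hα₁) hf₀₂
  have hfx : ∀ x ∈ P ⊓ T, f x ∈ P₂ ⊓ T := by
    intro x hx
    refine Subgroup.mem_inf.mpr ⟨hmaps x (Subgroup.mem_inf.mp hx).1, ?_⟩
    rw [hp₁ x hx]
    exact autFn_mem α₁ (hf₁.mem hx)
  have hf₁x : ∀ x ∈ P ⊓ T, autFn α₁⁻¹ (f x) = f₁ x := by
    intro x hx
    rw [hp₁ x hx, autFn_inv_left α₁ (hf₁.mem hx)]
  have hdom : ∀ x ∈ P ⊓ T,
      f₁ x ∈ ((P₂ ⊓ T).subgroupOf T).map (T.subtype.comp (α₁⁻¹).toMonoidHom) := by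
    intro x hx
    exact (mem_amap α₁⁻¹).mpr ⟨f x, hfx x hx, (Subgroup.mem_inf.mp (hfx x hx)).2, hf₁x x hx⟩
  refine ⟨α₂ * α₁, mul_mem hα₂ hα₁, g ∘ f₁, hf₁.comp hg hdom, fun x hx => ?_⟩
  show f₂ (f x) = autFn (α₂ * α₁) (g (f₁ x))
  have hgT : g (f₁ x) ∈ T := hg.mem (hdom x hx)
  rw [autFn_mul_apply α₂ α₁ hgT, ← hf₁x x hx, hgf (f x) (hfx x hx),
    autFn_inv_right α₁ (hf₀₂.mem (hfx x hx)), hp₂ (f x) (hfx x hx)]

theorem fratPred_inv [Finite S] {p : ℕ} [Fact p.Prime] (hS : IsPGroup p S)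
    {F : FusionSystem S} {T : Subgroup Ω} (hTS : T ≤ S) (hsc : F.StronglyClosed T)
    {E : FusionSystem T} (hEs : E.IsSaturated p) (hEi : E.HasPPowerIndexIn F p)
    (P : Subgroup Ω) (f g : Ω → Ω) (hf : Mor F P f) (h : FratPred F E P f)
    (hg : Mor F (img P f) g) (hgf : ∀ x ∈ P, g (f x) = x) : FratPred F E (img P f) g := by
  obtain ⟨α, hα, f₀, hf₀, hp⟩ := h
  obtain ⟨k, hk, hkf, -, -⟩ := hf₀.exists_inv
  obtain ⟨g', hg', hg'f⟩ := ppow_inv hS hTS hEs hEi hα hk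
  have hy : ∀ y ∈ img P f ⊓ T, ∃ x ∈ P ⊓ T, f x = y := by
    intro y hy
    obtain ⟨hy1, hy2⟩ := Subgroup.mem_inf.mp hy
    obtain ⟨x, hx, rfl⟩ := hf.mem_img.mp hy1
    refine ⟨x, Subgroup.mem_inf.mpr ⟨hx, ?_⟩, rfl⟩
    have h1 : Mor F (img P f ⊓ T) g := hg.restrict inf_le_left
    obtain ⟨φ, hφ, hφf⟩ := h1
    have h2 := hsc.2 (img P f ⊓ T) inf_le_right φ hφ ⟨f x, hy⟩
    rw [hφf ⟨f x, hy⟩] at h2
    have h3 : g (f x) ∈ T := h2
    rwa [hgf x hx] at h3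
  refine ⟨α⁻¹, inv_mem hα, g', hg'.restrict ?_, fun y hy' => ?_⟩
  · intro y hy'
    obtain ⟨x, hx, rfl⟩ := hy y hy'
    exact (mem_amap α).mpr ⟨f₀ x, apply_mem_img hx, hf₀.mem hx, (hp x hx).symm⟩
  · obtain ⟨x, hx, rfl⟩ := hy y hy'
    rw [hgf x (Subgroup.mem_inf.mp hx).1, hp x hx, hg'f (f₀ x) (apply_mem_img hx), hkf x hx,
      autFn_inv_left α (Subgroup.mem_inf.mp hx).2]

/-- elements of `O^p(Aut_F(R))` restrict to maps of `E` on `R ⊓ T` -/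
theorem res_pResidual [Finite S] {p : ℕ} [Fact p.Prime] {F : FusionSystem S} {T : Subgroup Ω}
    (hsc : F.StronglyClosed T) {E : FusionSystem T} (hEi : E.HasPPowerIndexIn F p)
    {R : Subgroup Ω} (hR : R ≤ S) {u : F.autGroup R} (hu : u ∈ pResidual p (F.autGroup R)) :
    Mor E (R ⊓ T) (autFn ((u : F.autGroup R) : MulAut R)) := by
  have hTS := hsc.1
  have h0 : pResidual p ↥(F.autGroup R) = Subgroup.closure {g | Nat.Coprime (orderOf g) p} := rfl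
  rw [h0] at hu
  have hmapsTo : ∀ (v : MulAut R), Mor E (R ⊓ T) (autFn v) → ∀ x ∈ R ⊓ T,
      autFn v x ∈ R ⊓ T := by
    intro v hv x hx
    exact Subgroup.mem_inf.mpr ⟨autFn_mem v (Subgroup.mem_inf.mp hx).1, hv.mem hx⟩
  induction hu using Subgroup.closure_induction with
  | mem v hv =>
    have hvo : Nat.Coprime (orderOf ((v : F.autGroup R) : MulAut R)) p := by
      rw [Subgroup.orderOf_coe]
      exact hv
    obtain ⟨β, hβ, hβo, hβf⟩ := restrict_pprime hsc hR v.2 hvo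
    have hβE : β ∈ E.autGroup (R ⊓ T) :=
      hEi.2.2 _ inf_le_right (mem_pResidual_of_coprime hβ hβo)
    refine ((mem_autGroup_iff inf_le_right β).mp hβE).congr (fun x hx => ?_)
    rw [autFn_of_mem β hx]
    exact hβf ⟨x, hx⟩
  | one =>
    refine (Mor.id E inf_le_right).congr (fun x hx => ?_)
    show x = autFn (1 : MulAut R) x
    exact (autFn_one_apply (Subgroup.mem_inf.mp hx).1).symm
  | mul v w _ _ hv hw =>
    refine ((hw.comp hv (hmapsTo _ hw)).congr (fun x hx => ?_))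
    show autFn (v : MulAut R) (autFn (w : MulAut R) x) = autFn ((v : MulAut R) * (w : MulAut R)) x
    rw [autFn_mul_apply _ _ (Subgroup.mem_inf.mp hx).1]
  | inv v _ hv =>
    obtain ⟨k, hk, hkf, hk2, hk3⟩ := hv.exists_inv
    have himg : img (R ⊓ T) (autFn (v : MulAut R)) = R ⊓ T := by
      haveI : Finite ↥(R ⊓ T) := finite_of_le ((inf_le_right : R ⊓ T ≤ T).trans hTS)
      exact Subgroup.eq_of_le_of_card_ge (hv.img_le_of (hmapsTo _ hv)) (le_of_eq hv.card_img.symm)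
    have hx'' : ∀ x ∈ R ⊓ T, x ∈ img (R ⊓ T) (autFn (v : MulAut R)) := by
      intro x hx
      rw [himg]
      exact hx
    rw [himg] at hk
    refine hk.congr (fun x hx => ?_)
    obtain ⟨h3, h4⟩ := hk2 x (hx'' x hx)
    have hxR := (Subgroup.mem_inf.mp hx).1
    have h5 : autFn (v : MulAut R) (autFn ((v : MulAut R))⁻¹ x) = x := autFn_inv_right _ hxR
    show k x = autFn ((v : MulAut R))⁻¹ x
    apply autFn_injOn (v : MulAut R) (Subgroup.mem_inf.mp h3).1 (autFn_mem _ hxR)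
    rw [h4, h5]

/-- the Frattini property of a saturated subsystem of `p`-power index -/
theorem ppow_frat [Finite S] {p : ℕ} [Fact p.Prime] (hS : IsPGroup p S)
    {F : FusionSystem S} (hF : F.IsSaturated p) {T : Subgroup Ω} (hTS : T ≤ S)
    (hTn : ∀ g ∈ S, ∀ t : Ω, t ∈ T ↔ g * t * g⁻¹ ∈ T) (hsc : F.StronglyClosed T)
    {E : FusionSystem T} (hEs : E.IsSaturated p) (hEi : E.HasPPowerIndexIn F p)
    {P : Subgroup Ω} (hPT : P ≤ T) {f : Ω → Ω} (hf : Mor F P f) :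
    ∃ α ∈ F.autGroup T, ∃ f₀, Mor E P f₀ ∧ ∀ x ∈ P, f x = autFn α (f₀ x) := by
  let D : FusionSystem S := predSys F (FratPred F E) (fratPred_conj hTS hTn E) (fratPred_congr E)
    (fun P P₂ f f₂ _ _ hmaps h h₂ => fratPred_comp hS hTS hEs hEi P P₂ f f₂ hmaps h h₂)
    (fun P f g hf h hg hgf => fratPred_inv hS hTS hsc hEs hEi P f g hf h hg hgf)
  have hA : ∀ R : Subgroup Ω, (R = S ∨ F.IsEssential p R) → F.autGroup R ≤ D.autGroup R := by
    intro R hRc β hβ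
    have hRfn : F.IsFullyNormalized R := by
      rcases hRc with hRe | hess
      · rw [hRe]
        exact Cfsg.Agent.Helper26.fullyNormalized_top F
      · exact hess.2.1
    have hR : R ≤ S := hRfn.1
    obtain ⟨g, hg, u, hu, hgu⟩ := Cfsg.Agent.Helper26.aut_decomp p hS F hF hRfn ⟨β, hβ⟩
    rw [mem_autGroup_iff hR β]
    refine mor_predSys_iff.mpr ⟨(mem_autGroup_iff hR β).mp hβ, ?_⟩
    have hgN : g ∈ Subgroup.normalizer (T : Set Ω) :=
      Subgroup.mem_normalizer_iff.mpr (fun t => hTn g hg t)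
    have hu' : Mor E (R ⊓ T) (autFn ((u : F.autGroup R) : MulAut R)) :=
      res_pResidual hsc hEi hR hu
    refine ⟨conjAut T g hgN, autInducedBy_le_autGroup F hTS (conjAut_mem_autInducedBy hg hgN),
      autFn ((u : F.autGroup R) : MulAut R), hu', fun x hx => ?_⟩
    obtain ⟨hxR, hxT⟩ := Subgroup.mem_inf.mp hx
    rw [autFn_of_mem β hxR]
    have h1 : ((β ⟨x, hxR⟩ : R) : Ω) =
        g * ((((u : F.autGroup R) : MulAut R) ⟨x, hxR⟩ : R) : Ω) * g⁻¹ := hgu ⟨x, hxR⟩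
    rw [h1, autFn_of_mem (conjAut T g hgN) (hu'.mem hx), conjAut_apply]
    show g * ((((u : F.autGroup R) : MulAut R) ⟨x, hxR⟩ : R) : Ω) * g⁻¹ =
      g * autFn ((u : F.autGroup R) : MulAut R) x * g⁻¹
    rw [autFn_of_mem _ hxR]
  have h1 : ∀ φ ∈ F.Hom P, φ ∈ D.Hom P :=
    Cfsg.Agent.Helper26.alperin_goldschmidt p hS F hF D hA _ P (hPT.trans hTS) rfl
  obtain ⟨φ, hφ, hφf⟩ := hf
  have h2 := (mor_predSys_iff.mp (mor_of_hom (h1 φ hφ))).2
  obtain ⟨α, hα, f₀, hf₀, hp⟩ := h2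
  have hPe : P ⊓ T = P := inf_eq_left.mpr hPT
  rw [hPe] at hf₀ hp
  refine ⟨α, hα, f₀, hf₀, fun x hx => ?_⟩
  rw [← hp x hx, fn_of_mem φ hx]
  exact (hφf ⟨x, hx⟩).symm

end Cfsg.Agent.Helper27
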