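import Cfsg.Agent.Helper27.PPN3

set_option autoImplicit false

namespace Cfsg.Agent.Helper27

open Cfsg Cfsg.FusionSystem

variable {Ω : Type*} [Group Ω] {S : Subgroup Ω}

theorem maps_sup {F : FusionSystem S} {A B K : Subgroup Ω} {b : Ω → Ω} (hb : Mor F (A ⊔ B) b)
    (hA : ∀ x ∈ A, b x ∈ K) (hB : ∀ x ∈ B, b x ∈ K) : ∀ w ∈ A ⊔ B, b w ∈ K := by
  intro w hw
  rw [Subgroup.sup_eq_closure] at hw
  suffices key : w ∈ A ⊔ B ∧ b w ∈ K from key.2
  induction hw using Subgroup.closure_induction with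
  | mem x hx =>
    rcases hx with hx | hx
    · exact ⟨(le_sup_left : A ≤ A ⊔ B) hx, hA x hx⟩
    · exact ⟨(le_sup_right : B ≤ A ⊔ B) hx, hB x hx⟩
  | one => exact ⟨Subgroup.one_mem _, by rw [hb.map_one]; exact K.one_mem⟩
  | mul x y _ _ hx hy =>
    exact ⟨Subgroup.mul_mem _ hx.1 hy.1, by
      rw [hb.map_mul hx.1 hy.1]
      exact K.mul_mem hx.2 hy.2⟩
  | inv x _ hx =>
    exact ⟨Subgroup.inv_mem _ hx.1, by
      rw [hb.map_inv hx.1]
      exact K.inv_mem hx.2⟩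

/-- an automorphism of `T` preserves the centre of `T` -/
theorem aut_center {T : Subgroup Ω} (α : MulAut T) {z : Ω}
    (hz : z ∈ T ⊓ Subgroup.centralizer (T : Set Ω)) :
    autFn α z ∈ T ⊓ Subgroup.centralizer (T : Set Ω) := by
  obtain ⟨hzT, hzC⟩ := Subgroup.mem_inf.mp hz
  refine Subgroup.mem_inf.mpr ⟨autFn_mem α hzT, ?_⟩
  rw [Subgroup.mem_centralizer_iff]
  intro t ht
  have ht' : autFn α⁻¹ t ∈ T := autFn_mem _ ht
  have h1 : autFn α (autFn α⁻¹ t) = t := autFn_inv_right α ht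
  have h2 := Subgroup.mem_centralizer_iff.mp hzC (autFn α⁻¹ t) ht'
  calc t * autFn α z = autFn α (autFn α⁻¹ t) * autFn α z := by rw [h1]
    _ = autFn α (autFn α⁻¹ t * z) := (autFn_map_mul α ht' hzT).symm
    _ = autFn α (z * autFn α⁻¹ t) := by rw [h2]
    _ = autFn α z * autFn α (autFn α⁻¹ t) := autFn_map_mul α hzT ht'
    _ = autFn α z * t := by rw [h1]

/-- a map on `T C_S(T)` restricting to an automorphism of `T` preserves `C_S(T)` -/
theorem maps_cent {F : FusionSystem S} {T : Subgroup Ω} {b : Ω → Ω}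
    (hb : Mor F (T ⊔ centralizerIn S T) b) {α : MulAut T} (hbT : ∀ x ∈ T, b x = autFn α x) :
    ∀ c ∈ centralizerIn S T, b c ∈ centralizerIn S T := by
  intro c hc
  have hcW : c ∈ T ⊔ centralizerIn S T := (le_sup_right : centralizerIn S T ≤ _) hc
  obtain ⟨hcS, hcC⟩ := Subgroup.mem_inf.mp hc
  refine Subgroup.mem_inf.mpr ⟨hb.mem hcW, ?_⟩
  rw [Subgroup.mem_centralizer_iff]
  intro t ht
  have ht' : autFn α⁻¹ t ∈ T := autFn_mem _ ht
  have ht'W : autFn α⁻¹ t ∈ T ⊔ centralizerIn S T := (le_sup_left : T ≤ _) ht'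
  have h1 : b (autFn α⁻¹ t) = t := by rw [hbT _ ht', autFn_inv_right α ht]
  have h2 := Subgroup.mem_centralizer_iff.mp hcC (autFn α⁻¹ t) ht'
  calc t * b c = b (autFn α⁻¹ t) * b c := by rw [h1]
    _ = b (autFn α⁻¹ t * c) := (hb.map_mul ht'W hcW).symm
    _ = b (c * autFn α⁻¹ t) := by rw [h2]
    _ = b c * b (autFn α⁻¹ t) := hb.map_mul hcW ht'W
    _ = b c * t := by rw [h1]

/-- the extension property for an automorphism of `T` -/
def ExtPred (F : FusionSystem S) (T : Subgroup Ω) (α : MulAut T) : Prop :=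
  ∃ b, Mor F (T ⊔ centralizerIn S T) b ∧ (∀ x ∈ T, b x = autFn α x) ∧
    ∀ c ∈ centralizerIn S T, c⁻¹ * b c ∈ T ⊓ Subgroup.centralizer (T : Set Ω)

theorem extPred_maps {F : FusionSystem S} {T : Subgroup Ω} {b : Ω → Ω}
    (hb : Mor F (T ⊔ centralizerIn S T) b) {α : MulAut T} (hbT : ∀ x ∈ T, b x = autFn α x) :
    ∀ w ∈ T ⊔ centralizerIn S T, b w ∈ T ⊔ centralizerIn S T := by
  refine maps_sup hb (fun x hx => ?_) (fun c hc => ?_)
  · rw [hbT x hx]
    exact (le_sup_left : T ≤ _) (autFn_mem α hx)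
  · exact (le_sup_right : centralizerIn S T ≤ _) (maps_cent hb hbT c hc)

theorem extPred_one {F : FusionSystem S} {T : Subgroup Ω} (hTS : T ≤ S) :
    ExtPred F T (1 : MulAut T) := by
  refine ⟨fun x => x, Mor.id F (sup_le hTS (centralizerIn_le S T)), fun x hx => ?_,
    fun c hc => ?_⟩
  · exact (autFn_one_apply hx).symm
  · show c⁻¹ * c ∈ _
    rw [inv_mul_cancel]
    exact Subgroup.one_mem _

theorem extPred_mul {F : FusionSystem S} {T : Subgroup Ω} (hTS : T ≤ S) {α₁ α₂ : MulAut T}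
    (h₁ : ExtPred F T α₁) (h₂ : ExtPred F T α₂) : ExtPred F T (α₁ * α₂) := by
  obtain ⟨b₁, hb₁, hb₁T, hb₁C⟩ := h₁
  obtain ⟨b₂, hb₂, hb₂T, hb₂C⟩ := h₂
  have hZW : T ⊓ Subgroup.centralizer (T : Set Ω) ≤ T ⊔ centralizerIn S T :=
    inf_le_left.trans le_sup_left
  refine ⟨b₁ ∘ b₂, hb₂.comp hb₁ (extPred_maps hb₂ hb₂T), fun x hx => ?_, fun c hc => ?_⟩
  · show b₁ (b₂ x) = autFn (α₁ * α₂) x
    rw [hb₂T x hx, hb₁T _ (autFn_mem α₂ hx), autFn_mul_apply α₁ α₂ hx]
  · show c⁻¹ * b₁ (b₂ c) ∈ _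
    have hcW : c ∈ T ⊔ centralizerIn S T := (le_sup_right : centralizerIn S T ≤ _) hc
    have hz₂ := hb₂C c hc
    have hz₁ := hb₁C c hc
    have e : b₂ c = c * (c⁻¹ * b₂ c) := by rw [mul_inv_cancel_left]
    have e2 : c⁻¹ * b₁ (b₂ c) = (c⁻¹ * b₁ c) * autFn α₁ (c⁻¹ * b₂ c) := by
      rw [e, hb₁.map_mul hcW (hZW hz₂), hb₁T _ (Subgroup.mem_inf.mp hz₂).1, ← e, mul_assoc]
    rw [e2]
    exact Subgroup.mul_mem _ hz₁ (aut_center α₁ hz₂)

theorem extPred_pow {F : FusionSystem S} {T : Subgroup Ω} (hTS : T ≤ S) {α : MulAut T}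
    (h : ExtPred F T α) (k : ℕ) : ExtPred F T (α ^ k) := by
  induction k with
  | zero =>
    rw [pow_zero]
    exact extPred_one hTS
  | succ k ih =>
    rw [pow_succ]
    exact extPred_mul hTS ih h

theorem extPred_inv [Finite S] {F : FusionSystem S} {T : Subgroup Ω} (hTS : T ≤ S) {α : MulAut T}
    (h : ExtPred F T α) : ExtPred F T α⁻¹ := by
  haveI : Finite T := finite_of_le hTS
  have h1 : α⁻¹ = α ^ (orderOf α - 1) := by
    apply inv_eq_of_mul_eq_one_right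
    rw [← pow_succ', Nat.sub_add_cancel (orderOf_pos α), pow_orderOf_eq_one]
  rw [h1]
  exact extPred_pow hTS h _

theorem extPred_conj {F : FusionSystem S} {T : Subgroup Ω} (hTS : T ≤ S) {g : Ω} (hg : g ∈ T)
    (hgN : g ∈ Subgroup.normalizer (T : Set Ω)) : ExtPred F T (conjAut T g hgN) := by
  refine ⟨fun x => g * x * g⁻¹, Mor.conj F (sup_le hTS (centralizerIn_le S T)) (hTS hg),
    fun x hx => ?_, fun c hc => ?_⟩
  · rw [autFn_of_mem _ hx]
    rfl
  · show c⁻¹ * (g * c * g⁻¹) ∈ _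
    have h2 := Subgroup.mem_centralizer_iff.mp (Subgroup.mem_inf.mp hc).2 g hg
    have e : c⁻¹ * (g * c * g⁻¹) = 1 := by
      rw [h2]
      group
    rw [e]
    exact Subgroup.one_mem _

theorem fullyNormalized_of_normal [Finite S] (F : FusionSystem S) {T : Subgroup Ω} (hTS : T ≤ S)
    (hTn : ∀ g ∈ S, ∀ t : Ω, t ∈ T ↔ g * t * g⁻¹ ∈ T) : F.IsFullyNormalized T := by
  refine ⟨hTS, fun Q _ => ?_⟩
  have : Finite (normalizerIn S T) := finite_of_le (normalizerIn_le S T)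
  apply Subgroup.card_le_of_le
  intro x hx
  have hxS : x ∈ S := normalizerIn_le S Q hx
  exact Subgroup.mem_inf.mpr ⟨hxS, Subgroup.mem_normalizer_iff.mpr (fun t => hTn x hxS t)⟩

theorem autFn_pow_restrict {T W : Subgroup Ω} (hTW : T ≤ W) {γ : MulAut W} {υ : MulAut T}
    (h : ∀ x ∈ T, autFn γ x = autFn υ x) (k : ℕ) :
    ∀ x ∈ T, autFn (γ ^ k) x = autFn (υ ^ k) x := by
  induction k with
  | zero =>
    intro x hx
    rw [pow_zero, pow_zero, autFn_one_apply (hTW hx), autFn_one_apply hx]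
  | succ k ih =>
    intro x hx
    rw [pow_succ', pow_succ', autFn_mul_apply γ _ (hTW hx), ih x hx, h _ (autFn_mem _ hx),
      autFn_mul_apply υ _ hx]

/-- automorphisms of `T` in `F` of order prime to `p` have the extension property -/
theorem extPred_pprime [Finite S] {p : ℕ} [Fact p.Prime] (hS : IsPGroup p S)
    {F : FusionSystem S} (hF : F.IsSaturated p) {T : Subgroup Ω} (hTS : T ≤ S)
    (hTn : ∀ g ∈ S, ∀ t : Ω, t ∈ T ↔ g * t * g⁻¹ ∈ T) (hT : F.hyperfocalSubgroup p ≤ T)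
    {υ : MulAut T} (hυ : υ ∈ F.autGroup T) (hcop : Nat.Coprime (orderOf υ) p) :
    ExtPred F T υ := by
  have hp : p.Prime := Fact.out
  haveI : Finite T := finite_of_le hTS
  have hW : T ⊔ centralizerIn S T ≤ S := sup_le hTS (centralizerIn_le S T)
  haveI : Finite ↥(T ⊔ centralizerIn S T) := finite_of_le hW
  have hfn := fullyNormalized_of_normal F hTS hTn
  have hrec := (fullyNormalized_props hS hF hfn).2.1
  have hm : Mor F T (autFn υ) := (mem_autGroup_iff hTS υ).mp hυ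
  obtain ⟨f', hf', hf'T⟩ := (receptive_iff.mp hrec).2 T (autFn υ) hm (img_autFn υ)
  have hWext : T ⊔ centralizerIn S T ≤ ext S T (autFn υ) :=
    sup_le hm.le_ext (centralizerIn_le_ext S T (autFn υ))
  have hb₀ : Mor F (T ⊔ centralizerIn S T) f' := hf'.restrict hWext
  obtain ⟨γ, hγ, hγf⟩ := exists_aut_of_mor hb₀ (extPred_maps hb₀ hf'T)
  have hγT : ∀ x ∈ T, autFn γ x = autFn υ x := by
    intro x hx
    rw [autFn_of_mem γ ((le_sup_left : T ≤ _) hx), hγf, hf'T x hx]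
  obtain ⟨a, m, hm', hgm⟩ := Nat.exists_eq_pow_mul_and_not_dvd (orderOf_pos γ).ne' p hp.ne_one
  have hcop' : Nat.Coprime (p ^ a) (orderOf υ) := Nat.Coprime.pow_left a hcop.symm
  have hj1 := Nat.ModEq.pow_totient hcop'
  have hυj : υ ^ (p ^ a) ^ Nat.totient (orderOf υ) = υ := by
    have := (pow_eq_pow_iff_modEq (x := υ)).mpr hj1
    rwa [pow_one] at this
  have hdvd : p ^ a ∣ (p ^ a) ^ Nat.totient (orderOf υ) :=
    dvd_pow_self _ (Nat.totient_pos.mpr (orderOf_pos υ)).ne'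
  have hord : orderOf (γ ^ (p ^ a) ^ Nat.totient (orderOf υ)) ∣ m := by
    apply orderOf_dvd_of_pow_eq_one
    rw [← pow_mul]
    apply orderOf_dvd_iff_pow_eq_one.mp
    rw [hgm]
    exact mul_dvd_mul hdvd dvd_rfl
  have hγ'o : Nat.Coprime (orderOf (γ ^ (p ^ a) ^ Nat.totient (orderOf υ))) p :=
    Nat.Coprime.coprime_dvd_left hord ((Nat.Prime.coprime_iff_not_dvd hp).mpr hm').symm
  have hγ' : γ ^ (p ^ a) ^ Nat.totient (orderOf υ) ∈ F.autGroup (T ⊔ centralizerIn S T) :=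
    pow_mem hγ _
  have hγ'T : ∀ x ∈ T, autFn (γ ^ (p ^ a) ^ Nat.totient (orderOf υ)) x = autFn υ x := by
    intro x hx
    rw [autFn_pow_restrict le_sup_left hγT _ x hx, hυj]
  have hmor : Mor F (T ⊔ centralizerIn S T) (autFn (γ ^ (p ^ a) ^ Nat.totient (orderOf υ))) :=
    (mem_autGroup_iff hW _).mp hγ'
  refine ⟨autFn (γ ^ (p ^ a) ^ Nat.totient (orderOf υ)), hmor, hγ'T, fun c hc => ?_⟩
  have hcW : c ∈ T ⊔ centralizerIn S T := (le_sup_right : centralizerIn S T ≤ _) hc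
  have hbc := maps_cent hmor hγ'T c hc
  refine Subgroup.mem_inf.mpr ⟨hT (Subgroup.subset_closure ?_), ?_⟩
  · refine ⟨T ⊔ centralizerIn S T, ⟨_, hγ'⟩, ⟨c, hcW⟩, hW, ?_, ?_⟩
    · apply Subgroup.subset_closure
      show Nat.Coprime (orderOf (⟨_, hγ'⟩ : F.autGroup (T ⊔ centralizerIn S T))) p
      have h3 : orderOf (⟨_, hγ'⟩ : F.autGroup (T ⊔ centralizerIn S T)) =
          orderOf (γ ^ (p ^ a) ^ Nat.totient (orderOf υ)) :=
        (Subgroup.orderOf_coe (⟨_, hγ'⟩ : F.autGroup (T ⊔ centralizerIn S T))).symm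
      rw [h3]
      exact hγ'o
    · rw [autFn_of_mem _ hcW]
  · exact Subgroup.mul_mem _ (Subgroup.inv_mem _ (Subgroup.mem_inf.mp hc).2)
      (Subgroup.mem_inf.mp hbc).2

/-- the extension property of a saturated subsystem of `p`-power index over a normal subgroup -/
theorem ppow_ext [Finite S] {p : ℕ} [Fact p.Prime] (hS : IsPGroup p S)
    {F : FusionSystem S} (hF : F.IsSaturated p) {T : Subgroup Ω} (hTS : T ≤ S)
    (hTn : ∀ g ∈ S, ∀ t : Ω, t ∈ T ↔ g * t * g⁻¹ ∈ T) (hT : F.hyperfocalSubgroup p ≤ T)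
    {E : FusionSystem T} (hEs : E.IsSaturated p) (hEi : E.HasPPowerIndexIn F p)
    {α : MulAut T} (hα : α ∈ E.autGroup T) :
    ∃ β ∈ F.autGroup (T ⊔ centralizerIn S T), (∀ x ∈ T, autFn β x = autFn α x) ∧
      ∀ c ∈ centralizerIn S T, c⁻¹ * autFn β c ∈ T ⊓ Subgroup.centralizer (T : Set Ω) := by
  haveI : Finite T := finite_of_le hTS
  have hpT : IsPGroup p T := hS.to_le hTS
  have hW : T ⊔ centralizerIn S T ≤ S := sup_le hTS (centralizerIn_le S T)
  haveI : Finite ↥(T ⊔ centralizerIn S T) := finite_of_le hW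
  have hfnE : E.IsFullyNormalized T := Cfsg.Agent.Helper26.fullyNormalized_top E
  have key : ∀ u : E.autGroup T, u ∈ pResidual p (E.autGroup T) →
      ExtPred F T ((u : E.autGroup T) : MulAut T) := by
    intro u hu
    have h0 : pResidual p ↥(E.autGroup T) =
        Subgroup.closure {g | Nat.Coprime (orderOf g) p} := rfl
    rw [h0] at hu
    induction hu using Subgroup.closure_induction with
    | mem v hv =>
      have hvo : Nat.Coprime (orderOf ((v : E.autGroup T) : MulAut T)) p := by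
        rw [Subgroup.orderOf_coe]
        exact hv
      have hvF : ((v : E.autGroup T) : MulAut T) ∈ F.autGroup T :=
        (mem_autGroup_iff hTS _).mpr
          (((mem_autGroup_iff le_rfl _).mp v.2).of_subsystem hEi.1)
      exact extPred_pprime hS hF hTS hTn hT hvF hvo
    | one => exact extPred_one hTS
    | mul v w _ _ hv hw => exact extPred_mul hTS hv hw
    | inv v _ hv => exact extPred_inv hTS hv
  obtain ⟨g, hg, u, hu, hgu⟩ := Cfsg.Agent.Helper26.aut_decomp p hpT E hEs hfnE ⟨α, hα⟩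
  have hgN : g ∈ Subgroup.normalizer (T : Set Ω) := Subgroup.le_normalizer hg
  have hu' : ExtPred F T ((u : E.autGroup T) : MulAut T) := key u hu
  have hα' : α = conjAut T g hgN * ((u : E.autGroup T) : MulAut T) := by
    apply MulEquiv.ext
    intro x
    apply Subtype.ext
    exact hgu x
  have hE : ExtPred F T α := by
    rw [hα']
    exact extPred_mul hTS (extPred_conj hTS hg hgN) hu'
  obtain ⟨b, hb, hbT, hbC⟩ := hE
  obtain ⟨β, hβ, hβf⟩ := exists_aut_of_mor hb (extPred_maps hb hbT)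
  refine ⟨β, hβ, fun x hx => ?_, fun c hc => ?_⟩
  · rw [autFn_of_mem β ((le_sup_left : T ≤ _) hx), hβf, hbT x hx]
  · rw [autFn_of_mem β ((le_sup_right : centralizerIn S T ≤ _) hc), hβf]
    exact hbC c hc

end Cfsg.Agent.Helper27
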