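import Mathlib
import Cfsg.Agent.Helper27.Marks

set_option autoImplicit false

namespace Cfsg.Agent.Helper27

section Weights

open Classical in
/-- balancing weights on a family of subgroups, by downward recursion on the order -/
noncomputable def wt {K : Type*} [Group K] [Finite K] (𝒟 : Set (Subgroup K)) (D : Subgroup K) :
    ℕ :=
  if D ∈ 𝒟 then
    (1 + ∑ᶠ D' : Subgroup K, if h : Nat.card D < Nat.card D' then wt 𝒟 D' else 0) -
      ∑ᶠ D' : Subgroup K, if h : Nat.card D < Nat.card D' ∧ D ≤ D' then wt 𝒟 D' else 0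
  else 0
termination_by Nat.card K - Nat.card D
decreasing_by
  · have := Subgroup.card_le_card_group D'
    omega
  · have := Subgroup.card_le_card_group D'
    have := h.1
    omega

variable {K : Type*} [Group K] [Finite K]

open Classical in
noncomputable def wtT (𝒟 : Set (Subgroup K)) (j : ℕ) : ℕ :=
  ∑ᶠ D' : Subgroup K, if j < Nat.card D' then wt 𝒟 D' else 0

open Classical in
noncomputable def wtU (𝒟 : Set (Subgroup K)) (D : Subgroup K) : ℕ :=
  ∑ᶠ D' : Subgroup K, if Nat.card D < Nat.card D' ∧ D ≤ D' then wt 𝒟 D' else 0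

open Classical in
noncomputable def wtA (𝒟 : Set (Subgroup K)) (E : Subgroup K) : ℕ :=
  ∑ᶠ D : Subgroup K, if E ≤ D then wt 𝒟 D else 0

theorem wt_of_mem {𝒟 : Set (Subgroup K)} {D : Subgroup K} (hD : D ∈ 𝒟) :
    wt 𝒟 D = (1 + wtT 𝒟 (Nat.card D)) - wtU 𝒟 D := by
  rw [wt, if_pos hD]
  simp only [dite_eq_ite]
  rfl

theorem wt_of_not_mem {𝒟 : Set (Subgroup K)} {D : Subgroup K} (hD : D ∉ 𝒟) : wt 𝒟 D = 0 := by
  rw [wt, if_neg hD]

theorem wtU_le (𝒟 : Set (Subgroup K)) (D : Subgroup K) : wtU 𝒟 D ≤ wtT 𝒟 (Nat.card D) := by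
  classical
  have := Fintype.ofFinite (Subgroup K)
  unfold wtU wtT
  rw [finsum_eq_sum_of_fintype, finsum_eq_sum_of_fintype]
  apply Finset.sum_le_sum
  intro D' _
  by_cases h : Nat.card D < Nat.card D' ∧ D ≤ D'
  · rw [if_pos h, if_pos h.1]
  · rw [if_neg h]
    exact Nat.zero_le _

theorem wtA_eq (𝒟 : Set (Subgroup K)) (E : Subgroup K) : wtA 𝒟 E = wt 𝒟 E + wtU 𝒟 E := by
  classical
  have := Fintype.ofFinite (Subgroup K)
  unfold wtA wtU
  rw [finsum_eq_sum_of_fintype, finsum_eq_sum_of_fintype]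
  have h1 : wt 𝒟 E = ∑ D : Subgroup K, if D = E then wt 𝒟 D else 0 := by
    rw [Finset.sum_ite_eq' Finset.univ E (fun D => wt 𝒟 D), if_pos (Finset.mem_univ E)]
  rw [h1, ← Finset.sum_add_distrib]
  apply Finset.sum_congr rfl
  intro D _
  by_cases hDE : D = E
  · subst hDE
    rw [if_pos le_rfl, if_pos rfl, if_neg (by simp), add_zero]
  · rw [if_neg hDE, zero_add]
    by_cases hle : E ≤ D
    · have hlt : Nat.card E < Nat.card D := by
        have h2 := Subgroup.card_le_of_le hle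
        rcases h2.lt_or_eq with h3 | h3
        · exact h3
        · exact absurd (Subgroup.eq_of_le_of_card_ge hle (le_of_eq h3.symm)).symm hDE
      rw [if_pos hle, if_pos ⟨hlt, hle⟩]
    · rw [if_neg hle, if_neg (fun h => hle h.2)]

theorem wtA_of_mem {𝒟 : Set (Subgroup K)} {E : Subgroup K} (hE : E ∈ 𝒟) :
    wtA 𝒟 E = 1 + wtT 𝒟 (Nat.card E) := by
  rw [wtA_eq, wt_of_mem hE]
  have := wtU_le 𝒟 E
  omega

theorem wt_pos {𝒟 : Set (Subgroup K)} {D : Subgroup K} (hD : D ∈ 𝒟) : 0 < wt 𝒟 D := by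
  rw [wt_of_mem hD]
  have := wtU_le 𝒟 D
  omega

theorem wtA_of_not_mem {𝒟 : Set (Subgroup K)} (hsub : ∀ D ∈ 𝒟, ∀ E : Subgroup K, E ≤ D → E ∈ 𝒟)
    {E : Subgroup K} (hE : E ∉ 𝒟) : wtA 𝒟 E = 0 := by
  classical
  unfold wtA
  have h : ∀ D : Subgroup K, (if E ≤ D then wt 𝒟 D else 0) = 0 := by
    intro D
    by_cases hle : E ≤ D
    · rw [if_pos hle]
      exact wt_of_not_mem (fun hD => hE (hsub D hD E hle))
    · rw [if_neg hle]
  simp only [h]
  exact finsum_zero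

end Weights

section KSet

variable {K : Type*} [Group K]

/-- the `K`-set `⨆ D, n(D) · K/D` as a permutation representation -/
def parkAct (n : Subgroup K → ℕ) : K →* Equiv.Perm (Σ D : Subgroup K, Fin (n D) × (K ⧸ D)) where
  toFun k :=
    { toFun := fun ξ => ⟨ξ.1, ξ.2.1, k • ξ.2.2⟩
      invFun := fun ξ => ⟨ξ.1, ξ.2.1, k⁻¹ • ξ.2.2⟩
      left_inv := by
        rintro ⟨D, j, c⟩
        simp
      right_inv := by
        rintro ⟨D, j, c⟩
        simp }
  map_one' := by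
    apply Equiv.ext
    rintro ⟨D, j, c⟩
    show (⟨D, j, (1 : K) • c⟩ : Σ D : Subgroup K, Fin (n D) × (K ⧸ D)) = ⟨D, j, c⟩
    rw [one_smul]
  map_mul' := by
    intro a b
    apply Equiv.ext
    rintro ⟨D, j, c⟩
    show (⟨D, j, (a * b) • c⟩ : Σ D : Subgroup K, Fin (n D) × (K ⧸ D)) = ⟨D, j, a • b • c⟩
    rw [mul_smul]

theorem parkAct_apply (n : Subgroup K → ℕ) (k : K) (D : Subgroup K) (j : Fin (n D)) (c : K ⧸ D) :
    parkAct n k ⟨D, j, c⟩ = ⟨D, j, k • c⟩ := rfl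

theorem parkAct_fix_iff (n : Subgroup K → ℕ) (k : K) (D : Subgroup K) (j : Fin (n D)) (c : K ⧸ D) :
    parkAct n k ⟨D, j, c⟩ = ⟨D, j, c⟩ ↔ k • c = c := by
  rw [parkAct_apply]
  constructor
  · intro h
    have h1 := (Sigma.mk.inj_iff.mp h).2
    have h2 := eq_of_heq h1
    exact congrArg Prod.snd h2
  · intro h
    rw [h]

theorem smul_mk_eq_iff (D : Subgroup K) (e k : K) :
    e • (k : K ⧸ D) = (k : K ⧸ D) ↔ k⁻¹ * e * k ∈ D := by
  have h1 : e • (k : K ⧸ D) = ((e * k : K) : K ⧸ D) := rfl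
  rw [h1, QuotientGroup.eq]
  constructor
  · intro h
    have := D.inv_mem h
    have e2 : ((e * k)⁻¹ * k)⁻¹ = k⁻¹ * e * k := by group
    rwa [e2] at this
  · intro h
    have := D.inv_mem h
    have e2 : (k⁻¹ * e * k)⁻¹ = (e * k)⁻¹ * k := by group
    rwa [e2] at this

/-- counting through the cosets -/
noncomputable def cosetEquiv (D : Subgroup K) (P : K ⧸ D → Prop) :
    {k : K // P (k : K ⧸ D)} ≃ {c : K ⧸ D // P c} × D where
  toFun k := (⟨(k.1 : K ⧸ D), k.2⟩, ⟨((k.1 : K ⧸ D)).out⁻¹ * k.1, by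
    rw [← QuotientGroup.eq]
    exact QuotientGroup.out_eq' _⟩)
  invFun x := ⟨x.1.1.out * x.2.1, by
    have : ((x.1.1.out * x.2.1 : K) : K ⧸ D) = x.1.1 := by
      rw [QuotientGroup.mk_mul_of_mem _ x.2.2]
      exact QuotientGroup.out_eq' _
    rw [this]
    exact x.1.2⟩
  left_inv k := by
    apply Subtype.ext
    show ((k.1 : K ⧸ D)).out * (((k.1 : K ⧸ D)).out⁻¹ * k.1) = k.1
    group
  right_inv x := by
    have h0 : ((x.1.1.out * x.2.1 : K) : K ⧸ D) = x.1.1 := by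
      rw [QuotientGroup.mk_mul_of_mem _ x.2.2]
      exact QuotientGroup.out_eq' _
    apply Prod.ext
    · apply Subtype.ext
      exact h0
    · apply Subtype.ext
      show ((x.1.1.out * x.2.1 : K) : K ⧸ D).out⁻¹ * (x.1.1.out * x.2.1) = x.2.1
      rw [h0]
      group

theorem card_fix_mul (D E : Subgroup K) [Finite K] :
    Nat.card {c : K ⧸ D // ∀ e ∈ E, e • c = c} * Nat.card D =
      Nat.card {k : K // ∀ e ∈ E, k⁻¹ * e * k ∈ D} := by
  rw [← Nat.card_prod]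
  rw [← Nat.card_congr (cosetEquiv D (fun c => ∀ e ∈ E, e • c = c))]
  apply Nat.card_congr
  apply Equiv.subtypeEquivRight
  intro k
  constructor
  · intro h e he
    exact (smul_mk_eq_iff D e k).mp (h e he)
  · intro h e he
    exact (smul_mk_eq_iff D e k).mpr (h e he)

/-- the fixed points of the `K`-set -/
def fixEquiv (n : Subgroup K → ℕ) (E : Subgroup K) :
    {ξ : Σ D : Subgroup K, Fin (n D) × (K ⧸ D) // ξ ∈ fixSet (parkAct n) E} ≃
      Σ D : Subgroup K, Fin (n D) × {c : K ⧸ D // ∀ e ∈ E, e • c = c} where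
  toFun ξ := ⟨ξ.1.1, ξ.1.2.1, ⟨ξ.1.2.2, fun e he => (parkAct_fix_iff n e _ _ _).mp (ξ.2 e he)⟩⟩
  invFun η := ⟨⟨η.1, η.2.1, η.2.2.1⟩, fun e he => (parkAct_fix_iff n e _ _ _).mpr (η.2.2.2 e he)⟩
  left_inv ξ := rfl
  right_inv η := rfl

theorem ncard_fixSet [Finite K] (n : Subgroup K → ℕ) (E : Subgroup K) :
    (fixSet (parkAct n) E).ncard =
      ∑ᶠ D : Subgroup K, n D * Nat.card {c : K ⧸ D // ∀ e ∈ E, e • c = c} := by
  classical
  have := Fintype.ofFinite (Subgroup K)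
  rw [← Nat.card_coe_set_eq, finsum_eq_sum_of_fintype]
  have h1 := Nat.card_congr (fixEquiv n E)
  have h2 : Nat.card ↥(fixSet (parkAct n) E) =
      Nat.card {ξ : Σ D : Subgroup K, Fin (n D) × (K ⧸ D) // ξ ∈ fixSet (parkAct n) E} := rfl
  rw [h2, h1, Nat.card_sigma]
  apply Finset.sum_congr rfl
  intro D _
  rw [Nat.card_prod, Nat.card_eq_fintype_card, Fintype.card_fin]

theorem conj_map_le_iff (E D : Subgroup K) (k : K) :
    E.map (MulAut.conj k⁻¹).toMonoidHom ≤ D ↔ ∀ e ∈ E, k⁻¹ * e * k ∈ D := by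
  rw [Subgroup.map_le_iff_le_comap]
  constructor
  · intro h e he
    have := h he
    rw [Subgroup.mem_comap] at this
    simpa [MulAut.conj_apply] using this
  · intro h e he
    rw [Subgroup.mem_comap]
    have := h e he
    simpa [MulAut.conj_apply] using this

theorem park_marks [Finite K] (𝒟 : Set (Subgroup K)) (E : Subgroup K) :
    (fixSet (parkAct (fun D => Nat.card D * wt 𝒟 D)) E).ncard =
      ∑ᶠ k : K, wtA 𝒟 (E.map (MulAut.conj k⁻¹).toMonoidHom) := by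
  classical
  have := Fintype.ofFinite (Subgroup K)
  have := Fintype.ofFinite K
  rw [ncard_fixSet, finsum_eq_sum_of_fintype, finsum_eq_sum_of_fintype]
  have h1 : ∀ D : Subgroup K,
      Nat.card D * wt 𝒟 D * Nat.card {c : K ⧸ D // ∀ e ∈ E, e • c = c} =
        ∑ k : K, if (∀ e ∈ E, k⁻¹ * e * k ∈ D) then wt 𝒟 D else 0 := by
    intro D
    have h2 : Nat.card D * wt 𝒟 D * Nat.card {c : K ⧸ D // ∀ e ∈ E, e • c = c} =
        wt 𝒟 D * (Nat.card {c : K ⧸ D // ∀ e ∈ E, e • c = c} * Nat.card D) := by ring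
    rw [h2, card_fix_mul, Nat.card_eq_fintype_card, Fintype.card_subtype, Finset.card_filter,
      Finset.mul_sum]
    apply Finset.sum_congr rfl
    intro k _
    by_cases hk : ∀ e ∈ E, k⁻¹ * e * k ∈ D
    · rw [if_pos hk, if_pos hk, mul_one]
    · rw [if_neg hk, if_neg hk, mul_zero]
  simp only [h1]
  rw [Finset.sum_comm]
  apply Finset.sum_congr rfl
  intro k _
  unfold wtA
  rw [finsum_eq_sum_of_fintype]
  apply Finset.sum_congr rfl
  intro D _
  by_cases hk : ∀ e ∈ E, k⁻¹ * e * k ∈ D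
  · rw [if_pos hk, if_pos ((conj_map_le_iff E D k).mpr hk)]
  · rw [if_neg hk, if_neg (fun h => hk ((conj_map_le_iff E D k).mp h))]

theorem park_marks_mem [Finite K] (𝒟 : Set (Subgroup K))
    (hconj : ∀ D ∈ 𝒟, ∀ k : K, D.map (MulAut.conj k).toMonoidHom ∈ 𝒟)
    {E : Subgroup K} (hE : E ∈ 𝒟) :
    (fixSet (parkAct (fun D => Nat.card D * wt 𝒟 D)) E).ncard =
      Nat.card K * (1 + wtT 𝒟 (Nat.card E)) := by
  classical
  have := Fintype.ofFinite K
  rw [park_marks, finsum_eq_sum_of_fintype]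
  have h1 : ∀ k : K, wtA 𝒟 (E.map (MulAut.conj k⁻¹).toMonoidHom) = 1 + wtT 𝒟 (Nat.card E) := by
    intro k
    rw [wtA_of_mem (hconj E hE k⁻¹),
      Subgroup.card_map_of_injective (MulAut.conj k⁻¹).injective]
  simp only [h1]
  rw [Finset.sum_const, Finset.card_univ, smul_eq_mul, ← Nat.card_eq_fintype_card]

theorem park_marks_not_mem [Finite K] (𝒟 : Set (Subgroup K))
    (hconj : ∀ D ∈ 𝒟, ∀ k : K, D.map (MulAut.conj k).toMonoidHom ∈ 𝒟)
    (hsub : ∀ D ∈ 𝒟, ∀ E : Subgroup K, E ≤ D → E ∈ 𝒟)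
    {E : Subgroup K} (hE : E ∉ 𝒟) :
    (fixSet (parkAct (fun D => Nat.card D * wt 𝒟 D)) E).ncard = 0 := by
  rw [park_marks]
  have h1 : ∀ k : K, wtA 𝒟 (E.map (MulAut.conj k⁻¹).toMonoidHom) = 0 := by
    intro k
    apply wtA_of_not_mem hsub
    intro hk
    apply hE
    apply hsub _ (hconj _ hk k) E
    intro e he
    refine ⟨k⁻¹ * e * k, ⟨e, he, by simp [MulAut.conj_apply]⟩, ?_⟩
    show k * (k⁻¹ * e * k) * k⁻¹ = e
    group
  simp only [h1]
  exact finsum_zero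

end KSet

end Cfsg.Agent.Helper27
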