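import Mathlib
import Cfsg.Agent.Helper27.ParkSet

set_option autoImplicit false

namespace Cfsg.Agent.Helper27

section Real

variable {S₀ : Type*} [Group S₀]

/-- the permutations of the `S₀ × S₀`-set commuting with the right factor -/
def parkGroup (n : Subgroup (S₀ × S₀) → ℕ) :
    Subgroup (Equiv.Perm (Σ D : Subgroup (S₀ × S₀), Fin (n D) × ((S₀ × S₀) ⧸ D))) :=
  Subgroup.centralizer (Set.range fun b : S₀ => parkAct n ((1 : S₀), b))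

/-- the left factor, inside `parkGroup` -/
def parkIota (n : Subgroup (S₀ × S₀) → ℕ) : S₀ →* parkGroup n :=
  MonoidHom.codRestrict ((parkAct n).comp (MonoidHom.inl S₀ S₀)) (parkGroup n) (by
    intro a
    rw [parkGroup, Subgroup.mem_centralizer_iff]
    rintro _ ⟨b, rfl⟩
    show parkAct n (1, b) * parkAct n (a, 1) = parkAct n (a, 1) * parkAct n (1, b)
    rw [← map_mul, ← map_mul]
    simp)

theorem parkIota_coe (n : Subgroup (S₀ × S₀) → ℕ) (a : S₀) :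
    ((parkIota n a : parkGroup n) : Equiv.Perm _) = parkAct n (a, 1) := rfl

theorem mem_map_conj {K : Type*} [Group K] (D : Subgroup K) (k k' : K) :
    k' ∈ D.map (MulAut.conj k).toMonoidHom ↔ k⁻¹ * k' * k ∈ D := by
  constructor
  · rintro ⟨d, hd, rfl⟩
    have : k⁻¹ * (MulAut.conj k).toMonoidHom d * k = d := by
      show k⁻¹ * (k * d * k⁻¹) * k = d
      group
    rw [this]
    exact hd
  · intro h
    refine ⟨k⁻¹ * k' * k, h, ?_⟩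
    show k * (k⁻¹ * k' * k) * k⁻¹ = k'
    group

variable [Finite S₀]

theorem park_forward (𝒟 : Set (Subgroup (S₀ × S₀)))
    (hconj : ∀ D ∈ 𝒟, ∀ k : S₀ × S₀, D.map (MulAut.conj k).toMonoidHom ∈ 𝒟)
    (hsub : ∀ D ∈ 𝒟, ∀ E : Subgroup (S₀ × S₀), E ≤ D → E ∈ 𝒟)
    {H₀ : Type*} [Group H₀] [Finite H₀] (u₁ u₂ : H₀ →* S₀)
    (hu₁ : Function.Injective u₁) (hu₂ : Function.Injective u₂)
    (h𝒟 : ∀ L : Subgroup (H₀ × S₀), L.map (u₁.prodMap (MonoidHom.id S₀)) ∈ 𝒟 ↔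
      L.map (u₂.prodMap (MonoidHom.id S₀)) ∈ 𝒟) :
    ∃ g : parkGroup (fun D => Nat.card D * wt 𝒟 D), ∀ x : H₀,
      parkIota (fun D => Nat.card D * wt 𝒟 D) (u₂ x) =
        g * parkIota (fun D => Nat.card D * wt 𝒟 D) (u₁ x) * g⁻¹ := by
  have hfix : ∀ (u : H₀ →* S₀) (L : Subgroup (H₀ × S₀)),
      fixSet ((parkAct (fun D => Nat.card D * wt 𝒟 D)).comp (u.prodMap (MonoidHom.id S₀))) L =
        fixSet (parkAct (fun D => Nat.card D * wt 𝒟 D)) (L.map (u.prodMap (MonoidHom.id S₀))) := by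
    intro u L
    ext ξ
    constructor
    · rintro h _ ⟨l, hl, rfl⟩
      exact h l hl
    · intro h l hl
      exact h _ (Subgroup.mem_map_of_mem _ hl)
  have hinj : ∀ (u : H₀ →* S₀), Function.Injective u →
      Function.Injective (u.prodMap (MonoidHom.id S₀)) := by
    intro u hu
    rw [MonoidHom.coe_prodMap]
    exact Function.Injective.prodMap hu Function.injective_id
  have hm : ∀ L : Subgroup (H₀ × S₀),
      (fixSet ((parkAct (fun D => Nat.card D * wt 𝒟 D)).comp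
        (u₁.prodMap (MonoidHom.id S₀))) L).ncard =
      (fixSet ((parkAct (fun D => Nat.card D * wt 𝒟 D)).comp
        (u₂.prodMap (MonoidHom.id S₀))) L).ncard := by
    intro L
    rw [hfix, hfix]
    by_cases h1 : L.map (u₁.prodMap (MonoidHom.id S₀)) ∈ 𝒟
    · have h2 := (h𝒟 L).mp h1
      rw [park_marks_mem 𝒟 hconj h1, park_marks_mem 𝒟 hconj h2,
        Subgroup.card_map_of_injective (hinj u₁ hu₁), Subgroup.card_map_of_injective (hinj u₂ hu₂)]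
    · have h2 : L.map (u₂.prodMap (MonoidHom.id S₀)) ∉ 𝒟 := fun h => h1 ((h𝒟 L).mpr h)
      rw [park_marks_not_mem 𝒟 hconj hsub h1, park_marks_not_mem 𝒟 hconj hsub h2]
  obtain ⟨e, he⟩ := exists_equivariant_perm _ _ hm
  have heG : e ∈ parkGroup (fun D => Nat.card D * wt 𝒟 D) := by
    rw [parkGroup, Subgroup.mem_centralizer_iff]
    rintro _ ⟨b, rfl⟩
    apply Equiv.ext
    intro ξ
    have h1 := he ((1 : H₀), b) ξ
    have e1 : (u₁.prodMap (MonoidHom.id S₀)) ((1 : H₀), b) = ((1 : S₀), b) := by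
      show (u₁ 1, b) = ((1 : S₀), b)
      rw [map_one]
    have e2 : (u₂.prodMap (MonoidHom.id S₀)) ((1 : H₀), b) = ((1 : S₀), b) := by
      show (u₂ 1, b) = ((1 : S₀), b)
      rw [map_one]
    rw [MonoidHom.comp_apply, MonoidHom.comp_apply, e1, e2] at h1
    exact h1.symm
  refine ⟨⟨e, heG⟩, ?_⟩
  intro x
  apply Subtype.ext
  show parkAct (fun D => Nat.card D * wt 𝒟 D) (u₂ x, 1) =
    e * parkAct (fun D => Nat.card D * wt 𝒟 D) (u₁ x, 1) * e⁻¹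
  rw [eq_mul_inv_iff_mul_eq]
  apply Equiv.ext
  intro ξ
  exact (he (x, (1 : S₀)) ξ).symm

theorem park_converse (𝒟 : Set (Subgroup (S₀ × S₀)))
    (hconj : ∀ D ∈ 𝒟, ∀ k : S₀ × S₀, D.map (MulAut.conj k).toMonoidHom ∈ 𝒟)
    {H₀ : Type*} [Group H₀] (u₁ u₂ : H₀ →* S₀)
    (D₀ : Subgroup (S₀ × S₀)) (hD₀ : D₀ ∈ 𝒟) (hdiag : ∀ x : H₀, (u₁ x, u₁ x) ∈ D₀)
    (g : parkGroup (fun D => Nat.card D * wt 𝒟 D))
    (hg : ∀ x : H₀, parkIota (fun D => Nat.card D * wt 𝒟 D) (u₂ x) =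
        g * parkIota (fun D => Nat.card D * wt 𝒟 D) (u₁ x) * g⁻¹) :
    ∃ D' ∈ 𝒟, ∀ x : H₀, (u₂ x, u₁ x) ∈ D' := by
  have hpos : 0 < Nat.card D₀ * wt 𝒟 D₀ := Nat.mul_pos Nat.card_pos (wt_pos hD₀)
  obtain ⟨ξ₀, hξ₀⟩ : ∃ ξ₀ : Σ D : Subgroup (S₀ × S₀), Fin (Nat.card D * wt 𝒟 D) × ((S₀ × S₀) ⧸ D),
      ξ₀ = ⟨D₀, ⟨0, hpos⟩, ((1 : S₀ × S₀) : (S₀ × S₀) ⧸ D₀)⟩ := ⟨_, rfl⟩
  obtain ⟨η, hη⟩ : ∃ η, η = (g : Equiv.Perm _) ξ₀ := ⟨_, rfl⟩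
  obtain ⟨D, j, c⟩ := η
  obtain ⟨k, rfl⟩ := QuotientGroup.mk_surjective c
  have hD : D ∈ 𝒟 := by
    by_contra hD
    have h1 := j.pos
    rw [wt_of_not_mem hD, mul_zero] at h1
    exact lt_irrefl _ h1
  obtain ⟨gp, hgp⟩ : ∃ gp : Equiv.Perm (Σ D : Subgroup (S₀ × S₀),
      Fin (Nat.card D * wt 𝒟 D) × ((S₀ × S₀) ⧸ D)), gp = g.1 := ⟨_, rfl⟩
  obtain ⟨τ, hτ⟩ : ∃ τ : S₀ × S₀ →* Equiv.Perm (Σ D : Subgroup (S₀ × S₀),
      Fin (Nat.card D * wt 𝒟 D) × ((S₀ × S₀) ⧸ D)), τ = parkAct (fun D => Nat.card D * wt 𝒟 D) :=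
    ⟨_, rfl⟩
  have hcomm : ∀ (b : S₀) (ζ : Σ D : Subgroup (S₀ × S₀),
      Fin (Nat.card D * wt 𝒟 D) × ((S₀ × S₀) ⧸ D)), τ ((1 : S₀), b) (gp ζ) = gp (τ ((1 : S₀), b) ζ) := by
    intro b ζ
    have h1 : gp ∈ Subgroup.centralizer (Set.range fun b : S₀ =>
        parkAct (fun D => Nat.card D * wt 𝒟 D) ((1 : S₀), b)) := by
      rw [hgp]
      exact g.2
    rw [Subgroup.mem_centralizer_iff] at h1
    have h2 := h1 _ ⟨b, rfl⟩
    rw [hτ]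
    exact DFunLike.congr_fun h2 ζ
  refine ⟨D.map (MulAut.conj k).toMonoidHom, hconj D hD k, ?_⟩
  intro x
  rw [mem_map_conj, ← smul_mk_eq_iff, ← parkAct_fix_iff (fun D => Nat.card D * wt 𝒟 D) _ D j, hη,
    ← hgp, ← hτ]
  have h1 : ∀ ζ : Σ D : Subgroup (S₀ × S₀), Fin (Nat.card D * wt 𝒟 D) × ((S₀ × S₀) ⧸ D),
      τ (u₂ x, 1) (gp ζ) = gp (τ (u₁ x, 1) ζ) := by
    intro ζ
    have h2 := congrArg Subtype.val (hg x)
    have h3 : parkAct (fun D => Nat.card D * wt 𝒟 D) (u₂ x, 1) =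
        g.1 * parkAct (fun D => Nat.card D * wt 𝒟 D) (u₁ x, 1) * g.1⁻¹ := h2
    have h4 : parkAct (fun D => Nat.card D * wt 𝒟 D) (u₂ x, 1) * g.1 =
        g.1 * parkAct (fun D => Nat.card D * wt 𝒟 D) (u₁ x, 1) := by
      rw [h3, inv_mul_cancel_right]
    rw [hτ, hgp]
    exact DFunLike.congr_fun h4 ζ
  have h4 : ∀ ζ : Σ D : Subgroup (S₀ × S₀), Fin (Nat.card D * wt 𝒟 D) × ((S₀ × S₀) ⧸ D),
      τ (u₂ x, u₁ x) ζ = τ (u₂ x, 1) (τ (1, u₁ x) ζ) := by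
    intro ζ
    rw [← Equiv.Perm.mul_apply, ← map_mul]
    simp
  have h5 : ∀ ζ : Σ D : Subgroup (S₀ × S₀), Fin (Nat.card D * wt 𝒟 D) × ((S₀ × S₀) ⧸ D),
      τ (u₁ x, u₁ x) ζ = τ (u₁ x, 1) (τ (1, u₁ x) ζ) := by
    intro ζ
    rw [← Equiv.Perm.mul_apply, ← map_mul]
    simp
  have h6 : τ (u₁ x, u₁ x) ξ₀ = ξ₀ := by
    rw [hξ₀, hτ, parkAct_fix_iff, smul_mk_eq_iff]
    simpa using hdiag x
  rw [h4, hcomm, h1, ← h5, h6]

theorem parkIota_injective (𝒟 : Set (Subgroup (S₀ × S₀)))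
    (D₀ : Subgroup (S₀ × S₀)) (hD₀ : D₀ ∈ 𝒟) (h1 : ∀ a : S₀, (a, (1 : S₀)) ∈ D₀ → a = 1) :
    Function.Injective (parkIota (fun D => Nat.card D * wt 𝒟 D)) := by
  rw [injective_iff_map_eq_one]
  intro a ha
  apply h1
  have hpos : 0 < Nat.card D₀ * wt 𝒟 D₀ := Nat.mul_pos Nat.card_pos (wt_pos hD₀)
  have h2 := congrArg Subtype.val ha
  have h3 : parkAct (fun D => Nat.card D * wt 𝒟 D) (a, 1) = 1 := h2
  have h4 : parkAct (fun D => Nat.card D * wt 𝒟 D) (a, 1)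
      ⟨D₀, ⟨0, hpos⟩, ((1 : S₀ × S₀) : (S₀ × S₀) ⧸ D₀)⟩ =
      ⟨D₀, ⟨0, hpos⟩, ((1 : S₀ × S₀) : (S₀ × S₀) ⧸ D₀)⟩ := by
    rw [h3]
    rfl
  rw [parkAct_fix_iff, smul_mk_eq_iff] at h4
  simpa using h4

end Real

end Cfsg.Agent.Helper27
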