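import Mathlib
import Cfsg.Agent.Helper27.ParkReal
import Cfsg.Agent.Helper27.FusBasic

set_option autoImplicit false

namespace Cfsg.Agent.Helper27

open Cfsg Cfsg.FusionSystem

universe u

variable {Ω : Type u} [Group Ω] {S : Subgroup Ω}

/-- the graph of a function on `Q`, inside `S × S` (first coordinate the value) -/
def graphSet (S : Subgroup Ω) (Q : Subgroup Ω) (f : Ω → Ω) : Set (↥S × ↥S) :=
  {k | (k.2 : Ω) ∈ Q ∧ (k.1 : Ω) = f k.2}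

/-- the subgroups of `S × S` that are graphs of maps of the system -/
def graphFam (F : FusionSystem S) : Set (Subgroup (↥S × ↥S)) :=
  {D | ∃ (Q : Subgroup Ω) (f : Ω → Ω), Mor F Q f ∧ (D : Set (↥S × ↥S)) = graphSet S Q f}

theorem mem_graph_iff {D : Subgroup (↥S × ↥S)} {Q : Subgroup Ω} {f : Ω → Ω}
    (h : (D : Set (↥S × ↥S)) = graphSet S Q f) (k : ↥S × ↥S) :
    k ∈ D ↔ (k.2 : Ω) ∈ Q ∧ (k.1 : Ω) = f k.2 := by
  rw [← SetLike.mem_coe, h]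
  rfl

theorem graphFam_conj (F : FusionSystem S) :
    ∀ D ∈ graphFam F, ∀ k : ↥S × ↥S, D.map (MulAut.conj k).toMonoidHom ∈ graphFam F := by
  rintro D ⟨Q, f, hf, hD⟩ ⟨a, b⟩
  have hQ' : Q.comap (MulAut.conj ((b : Ω)⁻¹)).toMonoidHom ≤ S := by
    intro y hy
    have h1 : (b : Ω)⁻¹ * y * (b : Ω)⁻¹⁻¹ ∈ Q := hy
    have h2 := hf.le h1
    have h3 : y = (b : Ω) * ((b : Ω)⁻¹ * y * (b : Ω)⁻¹⁻¹) * (b : Ω)⁻¹ := by group
    rw [h3]
    exact S.mul_mem (S.mul_mem b.2 h2) (S.inv_mem b.2)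
  have m1 : Mor F (Q.comap (MulAut.conj ((b : Ω)⁻¹)).toMonoidHom)
      (fun y => (b : Ω)⁻¹ * y * (b : Ω)⁻¹⁻¹) := Mor.conj F hQ' (S.inv_mem b.2)
  have m2 := m1.comp hf (fun y hy => hy)
  have m3 := m2.comp (Mor.conj F (le_refl S) a.2) (fun y hy => hf.mem hy)
  refine ⟨_, _, m3, ?_⟩
  ext k
  rw [SetLike.mem_coe, mem_map_conj, mem_graph_iff hD]
  show ((b : Ω)⁻¹ * (k.2 : Ω) * (b : Ω) ∈ Q ∧
    (a : Ω)⁻¹ * (k.1 : Ω) * (a : Ω) = f ((b : Ω)⁻¹ * (k.2 : Ω) * (b : Ω))) ↔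
    ((b : Ω)⁻¹ * (k.2 : Ω) * (b : Ω)⁻¹⁻¹ ∈ Q ∧
      (k.1 : Ω) = (a : Ω) * f ((b : Ω)⁻¹ * (k.2 : Ω) * (b : Ω)⁻¹⁻¹) * (a : Ω)⁻¹)
  rw [inv_inv]
  constructor
  · rintro ⟨h1, h2⟩
    refine ⟨h1, ?_⟩
    rw [← h2]
    group
  · rintro ⟨h1, h2⟩
    refine ⟨h1, ?_⟩
    rw [h2]
    group

theorem graphFam_sub (F : FusionSystem S) :
    ∀ D ∈ graphFam F, ∀ E : Subgroup (↥S × ↥S), E ≤ D → E ∈ graphFam F := by
  rintro D ⟨Q, f, hf, hD⟩ E hED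
  have hR : E.map (S.subtype.comp (MonoidHom.snd ↥S ↥S)) ≤ Q := by
    rintro _ ⟨k, hk, rfl⟩
    exact ((mem_graph_iff hD k).mp (hED hk)).1
  refine ⟨E.map (S.subtype.comp (MonoidHom.snd ↥S ↥S)), f, hf.restrict hR, ?_⟩
  ext k
  constructor
  · intro hk
    exact ⟨⟨k, hk, rfl⟩, ((mem_graph_iff hD k).mp (hED hk)).2⟩
  · rintro ⟨⟨k', hk', hk2⟩, hk1⟩
    have hk2' : (k'.2 : Ω) = (k.2 : Ω) := hk2
    have h1 := ((mem_graph_iff hD k').mp (hED hk')).2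
    have h2 : k' = k := by
      apply Prod.ext
      · apply Subtype.ext
        rw [h1, hk2', ← hk1]
      · exact Subtype.ext hk2'
    rw [← h2]
    exact hk'

/-- the diagonal subgroup -/
def diagSub (S : Subgroup Ω) : Subgroup (↥S × ↥S) where
  carrier := {k | k.1 = k.2}
  one_mem' := rfl
  mul_mem' := by
    intro x y hx hy
    have hx' : x.1 = x.2 := hx
    have hy' : y.1 = y.2 := hy
    show x.1 * y.1 = x.2 * y.2
    rw [hx', hy']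
  inv_mem' := by
    intro x hx
    have hx' : x.1 = x.2 := hx
    show x.1⁻¹ = x.2⁻¹
    rw [hx']

theorem diagSub_mem (F : FusionSystem S) : diagSub S ∈ graphFam F := by
  refine ⟨S, fun x => x, Mor.id F (le_refl S), ?_⟩
  ext k
  constructor
  · intro hk
    have hk' : k.1 = k.2 := hk
    exact ⟨k.2.2, congrArg Subtype.val hk'⟩
  · rintro ⟨-, h⟩
    exact Subtype.ext h

theorem graphFam_pull (F : FusionSystem S) {P : Subgroup Ω} (hP : P ≤ S) {φ : P →* Ω}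
    (hφ : φ ∈ F.Hom P) (hφS : ∀ x : P, φ x ∈ S) (L : Subgroup (↥P × ↥S)) :
    L.map ((Subgroup.inclusion hP).prodMap (MonoidHom.id ↥S)) ∈ graphFam F ↔
      L.map ((φ.codRestrict S hφS).prodMap (MonoidHom.id ↥S)) ∈ graphFam F := by
  have hmor : Mor F P (fn φ) := mor_of_hom hφ
  have hm1 : ∀ k : ↥S × ↥S, k ∈ L.map ((Subgroup.inclusion hP).prodMap (MonoidHom.id ↥S)) ↔
      ∃ x : P, ∃ b : ↥S, (x, b) ∈ L ∧ (k.1 : Ω) = (x : Ω) ∧ k.2 = b := by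
    intro k
    constructor
    · rintro ⟨⟨x, b⟩, hl, rfl⟩
      exact ⟨x, b, hl, rfl, rfl⟩
    · rintro ⟨x, b, hl, h1, h2⟩
      refine ⟨(x, b), hl, ?_⟩
      apply Prod.ext
      · exact Subtype.ext h1.symm
      · exact h2.symm
  have hm2 : ∀ k : ↥S × ↥S, k ∈ L.map ((φ.codRestrict S hφS).prodMap (MonoidHom.id ↥S)) ↔
      ∃ x : P, ∃ b : ↥S, (x, b) ∈ L ∧ (k.1 : Ω) = φ x ∧ k.2 = b := by
    intro k
    constructor
    · rintro ⟨⟨x, b⟩, hl, rfl⟩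
      exact ⟨x, b, hl, rfl, rfl⟩
    · rintro ⟨x, b, hl, h1, h2⟩
      refine ⟨(x, b), hl, ?_⟩
      apply Prod.ext
      · exact Subtype.ext h1.symm
      · exact h2.symm
  constructor
  · rintro ⟨R, θ, hθ, hD⟩
    -- values of `θ` on `R` lie in `P`
    have hval : ∀ b : ↥S, (b : Ω) ∈ R → ∃ x : P, (x, b) ∈ L ∧ (x : Ω) = θ b := by
      intro b hb
      have h1 : ((⟨θ b, hθ.mem hb⟩ : ↥S), b) ∈
          L.map ((Subgroup.inclusion hP).prodMap (MonoidHom.id ↥S)) :=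
        (mem_graph_iff hD _).mpr ⟨hb, rfl⟩
      obtain ⟨x, b', hl, h2, h3⟩ := (hm1 _).mp h1
      have h3' : b = b' := h3
      subst h3'
      exact ⟨x, hl, h2.symm⟩
    have hRP : ∀ y ∈ R, θ y ∈ P := by
      intro y hy
      obtain ⟨x, -, hx⟩ := hval ⟨y, hθ.le hy⟩ hy
      have hx' : (x : Ω) = θ y := hx
      rw [← hx']
      exact x.2
    refine ⟨R, fn φ ∘ θ, hθ.comp hmor hRP, ?_⟩
    ext k
    rw [SetLike.mem_coe, hm2]
    constructor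
    · rintro ⟨x, b, hl, h1, h2⟩
      have h3 : ((Subgroup.inclusion hP x : ↥S), b) ∈
          L.map ((Subgroup.inclusion hP).prodMap (MonoidHom.id ↥S)) :=
        (hm1 _).mpr ⟨x, b, hl, rfl, rfl⟩
      obtain ⟨h4, h5⟩ := (mem_graph_iff hD _).mp h3
      have h5' : (x : Ω) = θ b := h5
      refine ⟨by rw [h2]; exact h4, ?_⟩
      show (k.1 : Ω) = fn φ (θ k.2)
      rw [h1, h2, ← h5', fn_apply]
    · rintro ⟨h1, h2⟩
      obtain ⟨x, hl, hx⟩ := hval k.2 h1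
      refine ⟨x, k.2, hl, ?_, rfl⟩
      have h2' : (k.1 : Ω) = fn φ (θ k.2) := h2
      rw [h2', ← hx, fn_apply]
  · rintro ⟨R, θ, hθ, hD⟩
    obtain ⟨g, hg, hgf, -, -⟩ := hmor.exists_inv
    have hval : ∀ b : ↥S, (b : Ω) ∈ R → ∃ x : P, (x, b) ∈ L ∧ φ x = θ b := by
      intro b hb
      have h1 : ((⟨θ b, hθ.mem hb⟩ : ↥S), b) ∈
          L.map ((φ.codRestrict S hφS).prodMap (MonoidHom.id ↥S)) :=
        (mem_graph_iff hD _).mpr ⟨hb, rfl⟩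
      obtain ⟨x, b', hl, h2, h3⟩ := (hm2 _).mp h1
      have h3' : b = b' := h3
      subst h3'
      exact ⟨x, hl, h2.symm⟩
    have hRP : ∀ y ∈ R, θ y ∈ img P (fn φ) := by
      intro y hy
      obtain ⟨x, -, hx⟩ := hval ⟨y, hθ.le hy⟩ hy
      have hx' : φ x = θ y := hx
      rw [← hx', ← fn_apply φ x]
      exact apply_mem_img x.2
    refine ⟨R, g ∘ θ, hθ.comp hg hRP, ?_⟩
    ext k
    rw [SetLike.mem_coe, hm1]
    constructor
    · rintro ⟨x, b, hl, h1, h2⟩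
      have h3 : (((φ.codRestrict S hφS) x : ↥S), b) ∈
          L.map ((φ.codRestrict S hφS).prodMap (MonoidHom.id ↥S)) :=
        (hm2 _).mpr ⟨x, b, hl, rfl, rfl⟩
      obtain ⟨h4, h5⟩ := (mem_graph_iff hD _).mp h3
      have h5' : φ x = θ b := h5
      refine ⟨by rw [h2]; exact h4, ?_⟩
      show (k.1 : Ω) = g (θ k.2)
      rw [h1, h2, ← h5', ← fn_apply φ x, hgf x x.2]
    · rintro ⟨h1, h2⟩
      obtain ⟨x, hl, hx⟩ := hval k.2 h1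
      refine ⟨x, k.2, hl, ?_, rfl⟩
      have h2' : (k.1 : Ω) = g (θ k.2) := h2
      rw [h2', ← hx, ← fn_apply φ x, hgf x x.2]

theorem hom_of_graph (F : FusionSystem S) {P : Subgroup Ω} (hP : P ≤ S) {φ : P →* Ω}
    (hφS : ∀ x : P, φ x ∈ S) (D : Subgroup (↥S × ↥S)) (hD : D ∈ graphFam F)
    (h : ∀ x : P, ((φ.codRestrict S hφS) x, Subgroup.inclusion hP x) ∈ D) : φ ∈ F.Hom P := by
  obtain ⟨R, θ, hθ, hDR⟩ := hD
  have h1 : ∀ x : P, (x : Ω) ∈ R ∧ φ x = θ x := by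
    intro x
    exact (mem_graph_iff hDR _).mp (h x)
  have hPR : P ≤ R := fun x hx => (h1 ⟨x, hx⟩).1
  obtain ⟨φ', hφ', hφ'θ⟩ := hθ.restrict hPR
  have e : φ' = φ := by
    ext x
    rw [hφ'θ x, (h1 x).2]
  rw [← e]
  exact hφ'

end Cfsg.Agent.Helper27
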