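import Cfsg.Agent.Helper27.SubnConstr

set_option autoImplicit false

namespace Cfsg.Agent.Helper27

open Cfsg Cfsg.FusionSystem

variable {G : Type*} [Group G]

/-- the elements of `T` acting trivially on `Q` modulo the (central in `T`) subgroup `Zc` -/
def commCentSub (T Q Zc : Subgroup G) (hZ : ∀ z ∈ Zc, ∀ t ∈ T, t * z = z * t) : Subgroup G where
  carrier := {x | x ∈ T ∧ ∀ q ∈ Q, x * q * x⁻¹ * q⁻¹ ∈ Zc}
  mul_mem' := by
    rintro x y ⟨hx, hxq⟩ ⟨hy, hyq⟩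
    refine ⟨T.mul_mem hx hy, fun q hq => ?_⟩
    have h1 := hZ _ (hyq q hq) x hx
    have e : x * y * q * (x * y)⁻¹ * q⁻¹ = x * (y * q * y⁻¹ * q⁻¹) * x⁻¹ * (x * q * x⁻¹ * q⁻¹) := by
      group
    rw [e, h1, mul_inv_cancel_right]
    exact Zc.mul_mem (hyq q hq) (hxq q hq)
  one_mem' := by
    refine ⟨T.one_mem, fun q _ => ?_⟩
    have e : (1 : G) * q * 1⁻¹ * q⁻¹ = 1 := by group
    rw [e]
    exact Zc.one_mem
  inv_mem' := by
    rintro x ⟨hx, hxq⟩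
    refine ⟨T.inv_mem hx, fun q hq => ?_⟩
    have h1 := hZ _ (Zc.inv_mem (hxq q hq)) x hx
    have e : x⁻¹ * q * x⁻¹⁻¹ * q⁻¹ = x⁻¹ * ((x * q * x⁻¹ * q⁻¹)⁻¹ * x) := by group
    rw [e, ← h1, inv_mul_cancel_left]
    exact Zc.inv_mem (hxq q hq)

theorem mem_commCentSub {T Q Zc : Subgroup G} {hZ : ∀ z ∈ Zc, ∀ t ∈ T, t * z = z * t} {x : G} :
    x ∈ commCentSub T Q Zc hZ ↔ x ∈ T ∧ ∀ q ∈ Q, x * q * x⁻¹ * q⁻¹ ∈ Zc := Iff.rfl

/-- group-theoretic consequences of `F_T(L)` being constrained -/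
theorem constrained_group_facts [Finite G] {p : ℕ} [Fact p.Prime] {L T : Subgroup G} (hTL : T ≤ L)
    (hTp : IsPGroup p T) (hE : (fusionSystemOfSubgroup L T hTL).IsConstrained p) :
    ∃ Q : Subgroup G, Q ≤ T ∧
      (∀ P : Subgroup G, P ≤ T → ∀ g ∈ L, (∀ x ∈ P, g * x * g⁻¹ ∈ T) →
        ∃ h ∈ L, (∀ x ∈ P, h * x * h⁻¹ = g * x * g⁻¹) ∧ (∀ q ∈ Q, h * q * h⁻¹ ∈ Q) ∧
          (∀ q ∈ Q, h⁻¹ * q * h ∈ Q)) ∧
      (∀ x ∈ T, (∀ q ∈ Q, x * q * x⁻¹ * q⁻¹ ∈ centralizerIn L L) → x ∈ Q) := by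
  obtain ⟨hsat, Q₁, hQ₁n, hQ₁c⟩ := hE
  obtain ⟨E, hEdef⟩ : ∃ E : FusionSystem T, E = fusionSystemOfSubgroup L T hTL := ⟨_, rfl⟩
  rw [← hEdef] at hsat hQ₁n hQ₁c
  have hmor : ∀ {P : Subgroup G} {f : G → G}, Mor E P f ↔
      P ≤ T ∧ (∀ x ∈ P, f x ∈ T) ∧ ∃ g ∈ L, ∀ x ∈ P, f x = g * x * g⁻¹ := by
    intro P f
    rw [hEdef]
    exact mor_subgroupSystem_iff
  obtain ⟨Q, hQdef⟩ : ∃ Q : Subgroup G, Q = E.core := ⟨_, rfl⟩
  have hQn : E.IsNormal Q := by rw [hQdef]; exact Cfsg.Agent.S5145.result E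
  have hQT : Q ≤ T := hQn.1
  have hQ₁Q : Q₁ ≤ Q := by rw [hQdef]; exact le_sSup hQ₁n
  have hCQ : centralizerIn T Q ≤ Q := by
    intro c hc
    rw [mem_centralizerIn] at hc
    apply hQ₁Q
    apply hQ₁c.2 Q₁ (isConj_refl E hQ₁c.1)
    rw [mem_centralizerIn]
    exact ⟨hc.1, fun y hy => hc.2 y (hQ₁Q hy)⟩
  refine ⟨Q, hQT, ?_, ?_⟩
  · intro P hP g hg hgP
    have hf : Mor E P (fun x => g * x * g⁻¹) := hmor.mpr ⟨hP, hgP, g, hg, fun x _ => rfl⟩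
    obtain ⟨f', hf', hf'P, hf'Q, hf'surj⟩ := normal_extend hQn hf
    obtain ⟨-, -, h, hh, hf'h⟩ := hmor.mp hf'
    refine ⟨h, hh, fun x hx => ?_, fun q hq => ?_, fun q hq => ?_⟩
    · rw [← hf'h x ((le_sup_left : P ≤ P ⊔ Q) hx), hf'P x hx]
    · rw [← hf'h q ((le_sup_right : Q ≤ P ⊔ Q) hq)]
      exact hf'Q q hq
    · obtain ⟨q₀, hq₀, rfl⟩ := hf'surj q hq
      rw [hf'h q₀ ((le_sup_right : Q ≤ P ⊔ Q) hq₀)]
      have e : h⁻¹ * (h * q₀ * h⁻¹) * h = q₀ := by group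
      rw [e]
      exact hq₀
  · have hZ : ∀ z ∈ centralizerIn L L, ∀ t ∈ T, t * z = z * t :=
      fun z hz t ht => (mem_centralizerIn.mp hz).2 t (hTL ht)
    have hZL : ∀ z ∈ centralizerIn L L, ∀ l ∈ L, l * z * l⁻¹ = z := by
      intro z hz l hl
      rw [(mem_centralizerIn.mp hz).2 l hl, mul_inv_cancel_right]
    obtain ⟨X, hXdef⟩ : ∃ X : Subgroup G, X = commCentSub T Q (centralizerIn L L) hZ := ⟨_, rfl⟩
    have hXmem : ∀ {x : G}, x ∈ X ↔ x ∈ T ∧ ∀ q ∈ Q, x * q * x⁻¹ * q⁻¹ ∈ centralizerIn L L := by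
      intro x; rw [hXdef]; exact mem_commCentSub
    haveI : Finite T := inferInstance
    have hRQ : T ⊓ centralizerIn L L ≤ Q := by
      intro r hr
      apply hCQ
      rw [mem_centralizerIn]
      exact ⟨hr.1, fun y hy => hZ r hr.2 y (hQT hy)⟩
    have hRsc : E.StronglyClosed (T ⊓ centralizerIn L L) := by
      refine ⟨inf_le_left, fun A hA φ hφ x => ?_⟩
      have hf : Mor E A (fn φ) := mor_of_hom hφ
      obtain ⟨-, -, g, hg, hfg⟩ := hmor.mp hf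
      have h1 : φ x = x := by
        rw [← fn_apply φ x, hfg x x.2]
        exact hZL _ (hA x.2).2 g hg
      rw [h1]
      exact hA x.2
    have hXsc : E.StronglyClosed X := by
      refine ⟨fun x hx => (hXmem.mp hx).1, fun A hA φ hφ x => ?_⟩
      have hf : Mor E A (fn φ) := mor_of_hom hφ
      obtain ⟨f', hf', hf'A, hf'Q, hf'surj⟩ := normal_extend hQn hf
      obtain ⟨-, hf'T, h, hh, hf'h⟩ := hmor.mp hf'
      have hxA : (x : G) ∈ A ⊔ Q := (le_sup_left : A ≤ A ⊔ Q) x.2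
      have e1 : φ x = h * x * h⁻¹ := by
        rw [← fn_apply φ x, ← hf'A x x.2, hf'h x hxA]
      rw [hXmem]
      refine ⟨?_, fun q hq => ?_⟩
      · rw [← fn_apply φ x, ← hf'A x x.2]
        exact hf'T x hxA
      · obtain ⟨q₀, hq₀, rfl⟩ := hf'surj q hq
        rw [e1, hf'h q₀ ((le_sup_right : Q ≤ A ⊔ Q) hq₀)]
        have hz := (hXmem.mp (hA x.2)).2 q₀ hq₀
        have e2 : h * x * h⁻¹ * (h * q₀ * h⁻¹) * (h * x * h⁻¹)⁻¹ * (h * q₀ * h⁻¹)⁻¹ =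
            h * ((x : G) * q₀ * (x : G)⁻¹ * q₀⁻¹) * h⁻¹ := by group
        rw [e2, hZL _ hz h hh]
        exact hz
    have hXn : E.IsNormal X := by
      refine normal_of_chain hTp hsat hQn hCQ hRQ hRsc hXsc ?_
      intro x hx
      obtain ⟨hxT, hxq⟩ := hXmem.mp hx
      refine ⟨fun r hr => (hZ r hr.2 x hxT).symm, fun a ha => ?_⟩
      have hz := hxq a ha
      have e : a⁻¹ * (x * a * x⁻¹) = a⁻¹ * (x * a * x⁻¹ * a⁻¹) * a⁻¹⁻¹ := by group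
      have h2 := hZL _ hz a⁻¹ (L.inv_mem (hTL (hQT ha)))
      refine ⟨T.mul_mem (T.inv_mem (hQT ha)) (T.mul_mem (T.mul_mem hxT (hQT ha)) (T.inv_mem hxT)), ?_⟩
      rw [e, h2]
      exact hz
    have hXQ : X ≤ Q := by rw [hQdef]; exact le_sSup hXn
    intro x hxT hxq
    exact hXQ (hXmem.mpr ⟨hxT, hxq⟩)

end Cfsg.Agent.Helper27
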