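import Cfsg.Agent.Helper27.QuotConstr

set_option autoImplicit false

namespace Cfsg.Agent.Helper27

open Cfsg Cfsg.FusionSystem

variable {G : Type*} [Group G]

/-- if `F_{S ∩ L}(L)` is constrained then so is the fusion system of `L / Z(L)` on the image of `S ∩ L` -/
theorem quotient_constrained [Finite G] (p : ℕ) [Fact p.Prime] (S : Sylow p G) (L : Subgroup G)
    (P₀ : Sylow p ↥L) (hP₀ : (P₀ : Subgroup ↥L) = (S : Subgroup G).subgroupOf L)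
    (hE : (fusionSystemOfSubgroup L ((S : Subgroup G) ⊓ L) inf_le_right).IsConstrained p) :
    (groupFusionSystem (((S : Subgroup G).subgroupOf L).map
      (QuotientGroup.mk' (Subgroup.center L)))).IsConstrained p := by
  obtain ⟨Q, hQT, hN, hC⟩ :=
    constrained_group_facts inf_le_right (S.isPGroup'.to_le inf_le_left) hE
  obtain ⟨π, hπdef⟩ : ∃ π : ↥L →* ↥L ⧸ Subgroup.center ↥L,
      π = QuotientGroup.mk' (Subgroup.center ↥L) := ⟨_, rfl⟩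
  rw [← hπdef]
  have hπs : Function.Surjective π := by rw [hπdef]; exact QuotientGroup.mk'_surjective _
  have hπeq : ∀ a b : ↥L, π a = π b ↔ a⁻¹ * b ∈ Subgroup.center ↥L := by
    intro a b
    rw [hπdef]
    exact QuotientGroup.eq
  have hsat0 : (groupFusionSystem ((P₀ : Subgroup ↥L).map π)).IsSaturated p :=
    Cfsg.Agent.S5076.result p (P₀.mapSurjective hπs)
  rw [hP₀] at hsat0
  obtain ⟨Tb, hTbdef⟩ : ∃ Tb : Subgroup (↥L ⧸ Subgroup.center ↥L),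
      Tb = ((S : Subgroup G).subgroupOf L).map π := ⟨_, rfl⟩
  rw [← hTbdef] at hsat0 ⊢
  obtain ⟨Qb, hQbdef⟩ : ∃ Qb : Subgroup (↥L ⧸ Subgroup.center ↥L),
      Qb = (Q.subgroupOf L).map π := ⟨_, rfl⟩
  have hTbmem : ∀ {y : ↥L ⧸ Subgroup.center ↥L},
      y ∈ Tb ↔ ∃ t : ↥L, (t : G) ∈ (S : Subgroup G) ∧ π t = y := by
    intro y
    rw [hTbdef]
    constructor
    · rintro ⟨t, ht, rfl⟩
      exact ⟨t, Subgroup.mem_subgroupOf.mp ht, rfl⟩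
    · rintro ⟨t, ht, rfl⟩
      exact ⟨t, Subgroup.mem_subgroupOf.mpr ht, rfl⟩
  have hQbmem : ∀ {y : ↥L ⧸ Subgroup.center ↥L},
      y ∈ Qb ↔ ∃ q : ↥L, (q : G) ∈ Q ∧ π q = y := by
    intro y
    rw [hQbdef]
    constructor
    · rintro ⟨t, ht, rfl⟩
      exact ⟨t, Subgroup.mem_subgroupOf.mp ht, rfl⟩
    · rintro ⟨t, ht, rfl⟩
      exact ⟨t, Subgroup.mem_subgroupOf.mpr ht, rfl⟩
  have hQbTb : Qb ≤ Tb := by
    intro y hy
    obtain ⟨q, hq, rfl⟩ := hQbmem.mp hy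
    exact hTbmem.mpr ⟨q, (hQT hq).1, rfl⟩
  have hcentS : ∀ z : ↥L, z ∈ Subgroup.center ↥L → (∃ k : ℕ, z ^ p ^ k = 1) →
      (z : G) ∈ (S : Subgroup G) := by
    rintro z hz ⟨k, hk⟩
    have hle : Subgroup.zpowers z ≤ Subgroup.center ↥L := (Subgroup.zpowers_le).mpr hz
    haveI : (Subgroup.zpowers z).Normal := by
      constructor
      intro n hn g
      have h1 := Subgroup.mem_center_iff.mp (hle hn) g
      rw [h1, mul_inv_cancel_right]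
      exact hn
    have hpg : IsPGroup p (Subgroup.zpowers z) := by
      rintro ⟨w, hw⟩
      obtain ⟨j, rfl⟩ := Subgroup.mem_zpowers_iff.mp hw
      refine ⟨k, Subtype.ext ?_⟩
      show (z ^ j) ^ p ^ k = 1
      rw [← zpow_natCast, ← zpow_mul, mul_comm, zpow_mul, zpow_natCast, hk, one_zpow]
    have h2 := hpg.le_sylow_of_normal P₀ (Subgroup.mem_zpowers z)
    have h3 : z ∈ (P₀ : Subgroup ↥L) := h2
    rw [hP₀, Subgroup.mem_subgroupOf] at h3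
    exact h3
  have hpow : ∀ t : ↥L, (t : G) ∈ (S : Subgroup G) → ∃ k : ℕ, t ^ p ^ k = 1 := by
    intro t ht
    obtain ⟨k, hk⟩ := S.isPGroup' ⟨(t : G), ht⟩
    refine ⟨k, Subtype.ext ?_⟩
    have h1 := congrArg (fun z : (S : Subgroup G) => (z : G)) hk
    simpa using h1
  have K1 : ∀ (Pb : Subgroup (↥L ⧸ Subgroup.center ↥L)), Pb ≤ Tb →
      ∀ gb : ↥L ⧸ Subgroup.center ↥L, (∀ y ∈ Pb, gb * y * gb⁻¹ ∈ Tb) →
      ∃ h : ↥L, (∀ y ∈ Pb, π h * y * (π h)⁻¹ = gb * y * gb⁻¹) ∧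
        (∀ q ∈ Qb, π h * q * (π h)⁻¹ ∈ Qb) ∧ (∀ q ∈ Qb, (π h)⁻¹ * q * π h ∈ Qb) := by
    intro Pb hPb gb hgb
    obtain ⟨g, rfl⟩ := hπs gb
    obtain ⟨P, hPdef⟩ : ∃ P : Subgroup G,
        P = ((S : Subgroup G) ⊓ L) ⊓ (Pb.comap π).map L.subtype := ⟨_, rfl⟩
    have hPmem : ∀ {x : G}, x ∈ P ↔ x ∈ (S : Subgroup G) ∧ ∃ hx : x ∈ L, π ⟨x, hx⟩ ∈ Pb := by
      intro x
      rw [hPdef]
      constructor
      · rintro ⟨⟨hxS, hxL⟩, y, hy, rfl⟩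
        exact ⟨hxS, y.2, hy⟩
      · rintro ⟨hxS, hxL, hx⟩
        exact ⟨⟨hxS, hxL⟩, ⟨x, hxL⟩, hx, rfl⟩
    have hconj : ∀ x ∈ P, (g : G) * x * (g : G)⁻¹ ∈ (S : Subgroup G) ⊓ L := by
      intro x hx
      obtain ⟨hxS, hxL, hxb⟩ := hPmem.mp hx
      refine ⟨?_, L.mul_mem (L.mul_mem g.2 hxL) (L.inv_mem g.2)⟩
      have h1 := hgb _ hxb
      obtain ⟨t, ht, hteq⟩ := hTbmem.mp h1
      have h2 : π t = π (g * ⟨x, hxL⟩ * g⁻¹) := by rw [hteq, map_mul, map_mul, map_inv]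
      have hz := (hπeq _ _).mp h2
      obtain ⟨u, hudef⟩ : ∃ u : ↥L, u = g * ⟨x, hxL⟩ * g⁻¹ := ⟨_, rfl⟩
      rw [← hudef] at hz
      obtain ⟨k₁, hk₁⟩ := hpow t ht
      obtain ⟨k₂, hk₂⟩ := hpow ⟨x, hxL⟩ hxS
      have hu : u ^ p ^ k₂ = 1 := by
        rw [hudef, conj_pow, hk₂]
        group
      have hcomm : Commute t⁻¹ u := by
        have h3 : t * (t⁻¹ * u) = (t⁻¹ * u) * t := Subgroup.mem_center_iff.mp hz t
        have h4 : u * t = t * u := by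
          have h5 : t * (t⁻¹ * u * t) = t * u := by rw [← h3]; group
          have h6 : t * (t⁻¹ * u * t) = u * t := by group
          rw [← h6, h5]
        show t⁻¹ * u = u * t⁻¹
        calc t⁻¹ * u = t⁻¹ * (u * t) * t⁻¹ := by group
          _ = t⁻¹ * (t * u) * t⁻¹ := by rw [h4]
          _ = u * t⁻¹ := by group
      have hzpow : (t⁻¹ * u) ^ p ^ (k₁ + k₂) = 1 := by
        rw [hcomm.mul_pow, inv_pow, pow_add, pow_mul, hk₁, one_pow, inv_one, one_mul,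
          mul_comm (p ^ k₁), pow_mul, hu, one_pow]
      have hzS := hcentS _ hz ⟨_, hzpow⟩
      have e : (g : G) * x * (g : G)⁻¹ = (t : G) * ((t⁻¹ * u : ↥L) : G) := by
        have e1 : g * ⟨x, hxL⟩ * g⁻¹ = t * (t⁻¹ * u) := by rw [hudef]; group
        exact congrArg (fun z : ↥L => (z : G)) e1
      rw [e]
      exact Subgroup.mul_mem _ ht hzS
    obtain ⟨h, hh, h1, h2, h3⟩ :=
      hN P (fun x hx => ⟨(hPmem.mp hx).1, (hPmem.mp hx).2.1⟩) g g.2 hconj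
    refine ⟨⟨h, hh⟩, ?_, ?_, ?_⟩
    · intro y hy
      obtain ⟨t, ht, rfl⟩ := hTbmem.mp (hPb hy)
      have htP : (t : G) ∈ P := hPmem.mpr ⟨ht, t.2, hy⟩
      have e : (⟨h, hh⟩ : ↥L) * t * (⟨h, hh⟩ : ↥L)⁻¹ = g * t * g⁻¹ := Subtype.ext (h1 _ htP)
      rw [← map_inv, ← map_mul, ← map_mul, e, map_mul, map_mul, map_inv]
    · intro q hq
      obtain ⟨q₀, hq₀, rfl⟩ := hQbmem.mp hq
      rw [← map_inv, ← map_mul, ← map_mul]
      exact hQbmem.mpr ⟨_, h2 _ hq₀, rfl⟩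
    · intro q hq
      obtain ⟨q₀, hq₀, rfl⟩ := hQbmem.mp hq
      rw [← map_inv, ← map_mul, ← map_mul]
      exact hQbmem.mpr ⟨_, h3 _ hq₀, rfl⟩
  have hnormal : (groupFusionSystem Tb).IsNormal Qb := by
    refine ⟨hQbTb, fun Pb φ hφ => ?_⟩
    obtain ⟨hPb, hφT, gb, hφg⟩ := hφ
    have hgb : ∀ y ∈ Pb, gb * y * gb⁻¹ ∈ Tb := fun y hy => by
      rw [← hφg ⟨y, hy⟩]; exact hφT ⟨y, hy⟩
    obtain ⟨h, h1, h2, h3⟩ := K1 Pb hPb gb hgb
    have hle : Pb ⊔ Qb ≤ Tb.comap (MulAut.conj (π h)).toMonoidHom := by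
      refine sup_le (fun y hy => ?_) (fun q hq => ?_)
      · show π h * y * (π h)⁻¹ ∈ Tb
        rw [h1 y hy]
        exact hgb y hy
      · show π h * q * (π h)⁻¹ ∈ Tb
        exact hQbTb (h2 q hq)
    have hval : ∀ x ∈ Pb ⊔ Qb, π h * x * (π h)⁻¹ ∈ Tb := fun x hx => hle hx
    refine ⟨conjHom (Pb ⊔ Qb) (π h),
      ⟨sup_le hPb hQbTb, fun x => hval x x.2, π h, fun x => rfl⟩, fun x => ?_, ?_⟩
    · show π h * (x : ↥L ⧸ Subgroup.center ↥L) * (π h)⁻¹ = φ x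
      rw [hφg, h1 x x.2]
    · ext w
      constructor
      · rintro ⟨y, hy, rfl⟩
        exact h2 _ (Subgroup.mem_subgroupOf.mp hy)
      · intro hw
        have hw' := h3 w hw
        refine ⟨⟨(π h)⁻¹ * w * π h, (le_sup_right : Qb ≤ Pb ⊔ Qb) hw'⟩,
          Subgroup.mem_subgroupOf.mpr hw', ?_⟩
        show π h * ((π h)⁻¹ * w * π h) * (π h)⁻¹ = w
        group
  have hcentric : (groupFusionSystem Tb).IsCentric Qb := by
    refine ⟨hQbTb, fun Q' hQ' => ?_⟩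
    obtain ⟨φ, ⟨-, hφT, gb, hφg⟩, rfl⟩ := hQ'
    have hgb : ∀ y ∈ Qb, gb * y * gb⁻¹ ∈ Tb := fun y hy => by
      rw [← hφg ⟨y, hy⟩]; exact hφT ⟨y, hy⟩
    obtain ⟨h, h1, h2, h3⟩ := K1 Qb hQbTb gb hgb
    have hrange : φ.range = Qb := by
      ext w
      constructor
      · rintro ⟨y, rfl⟩
        rw [hφg, ← h1 y y.2]
        exact h2 _ y.2
      · intro hw
        refine ⟨⟨(π h)⁻¹ * w * π h, h3 w hw⟩, ?_⟩
        rw [hφg]
        show gb * ((π h)⁻¹ * w * π h) * gb⁻¹ = w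
        rw [← h1 _ (h3 w hw)]
        group
    rw [hrange]
    intro xb hxb
    rw [mem_centralizerIn] at hxb
    obtain ⟨x, hxS, rfl⟩ := hTbmem.mp hxb.1
    refine hQbmem.mpr ⟨x, ?_, rfl⟩
    apply hC (x : G) ⟨hxS, x.2⟩
    intro q hq
    have hqL : q ∈ L := (hQT hq).2
    have h4 := hxb.2 (π ⟨q, hqL⟩) (hQbmem.mpr ⟨⟨q, hqL⟩, hq, rfl⟩)
    have h5 : π (x * ⟨q, hqL⟩ * x⁻¹ * ⟨q, hqL⟩⁻¹) = 1 := by
      rw [map_mul, map_mul, map_mul, map_inv, map_inv, ← h4]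
      group
    have h8 : π 1 = π (x * ⟨q, hqL⟩ * x⁻¹ * ⟨q, hqL⟩⁻¹) := by rw [map_one, h5]
    have h6 := (hπeq _ _).mp h8
    rw [inv_one, one_mul] at h6
    rw [mem_centralizerIn]
    refine ⟨(x * ⟨q, hqL⟩ * x⁻¹ * ⟨q, hqL⟩⁻¹ : ↥L).2, fun l hl => ?_⟩
    have h7 := Subgroup.mem_center_iff.mp h6 ⟨l, hl⟩
    exact congrArg Subtype.val h7
  exact ⟨hsat0, Qb, hnormal, hcentric⟩

end Cfsg.Agent.Helper27
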