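import Cfsg.Agent.Helper27.QuotConstr2

set_option autoImplicit false

namespace Cfsg.Agent.Helper27

open Cfsg Cfsg.FusionSystem

variable {G : Type*} [Group G]

/-- if `F_{S ∩ L}(L)` (inside `G`) is constrained then so is the fusion system of the group `L` on `S ∩ L` -/
theorem subgroupOf_constrained [Finite G] (p : ℕ) [Fact p.Prime] (S : Sylow p G) (L : Subgroup G)
    (P₀ : Sylow p ↥L) (hP₀ : (P₀ : Subgroup ↥L) = (S : Subgroup G).subgroupOf L)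
    (hE : (fusionSystemOfSubgroup L ((S : Subgroup G) ⊓ L) inf_le_right).IsConstrained p) :
    (groupFusionSystem ((S : Subgroup G).subgroupOf L)).IsConstrained p := by
  obtain ⟨Q, hQT, hN, hC⟩ :=
    constrained_group_facts inf_le_right (S.isPGroup'.to_le inf_le_left) hE
  have hsat0 : (groupFusionSystem ((P₀ : Subgroup ↥L))).IsSaturated p :=
    Cfsg.Agent.S5076.result p P₀
  rw [hP₀] at hsat0
  obtain ⟨Tb, hTbdef⟩ : ∃ Tb : Subgroup ↥L, Tb = (S : Subgroup G).subgroupOf L := ⟨_, rfl⟩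
  rw [← hTbdef] at hsat0 ⊢
  obtain ⟨Qb, hQbdef⟩ : ∃ Qb : Subgroup ↥L, Qb = Q.subgroupOf L := ⟨_, rfl⟩
  have hTbmem : ∀ {y : ↥L}, y ∈ Tb ↔ (y : G) ∈ (S : Subgroup G) := by
    intro y
    rw [hTbdef]
    exact Subgroup.mem_subgroupOf
  have hQbmem : ∀ {y : ↥L}, y ∈ Qb ↔ (y : G) ∈ Q := by
    intro y
    rw [hQbdef]
    exact Subgroup.mem_subgroupOf
  have hQbTb : Qb ≤ Tb := fun y hy => hTbmem.mpr (hQT (hQbmem.mp hy)).1
  have K1 : ∀ (Pb : Subgroup ↥L), Pb ≤ Tb → ∀ gb : ↥L, (∀ y ∈ Pb, gb * y * gb⁻¹ ∈ Tb) →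
      ∃ h : ↥L, (∀ y ∈ Pb, h * y * h⁻¹ = gb * y * gb⁻¹) ∧
        (∀ q ∈ Qb, h * q * h⁻¹ ∈ Qb) ∧ (∀ q ∈ Qb, h⁻¹ * q * h ∈ Qb) := by
    intro Pb hPb g hgb
    have hconj : ∀ x ∈ Pb.map L.subtype, (g : G) * x * (g : G)⁻¹ ∈ (S : Subgroup G) ⊓ L := by
      rintro x ⟨y, hy, rfl⟩
      have h1 := hTbmem.mp (hgb y hy)
      exact ⟨h1, (g * y * g⁻¹).2⟩
    have hPle : Pb.map L.subtype ≤ (S : Subgroup G) ⊓ L := by
      rintro x ⟨y, hy, rfl⟩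
      exact ⟨hTbmem.mp (hPb hy), y.2⟩
    obtain ⟨h, hh, h1, h2, h3⟩ := hN (Pb.map L.subtype) hPle g g.2 hconj
    refine ⟨⟨h, hh⟩, ?_, ?_, ?_⟩
    · intro y hy
      exact Subtype.ext (h1 _ ⟨y, hy, rfl⟩)
    · intro q hq
      exact hQbmem.mpr (h2 _ (hQbmem.mp hq))
    · intro q hq
      exact hQbmem.mpr (h3 _ (hQbmem.mp hq))
  have hnormal : (groupFusionSystem Tb).IsNormal Qb := by
    refine ⟨hQbTb, fun Pb φ hφ => ?_⟩
    obtain ⟨hPb, hφT, gb, hφg⟩ := hφ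
    have hgb : ∀ y ∈ Pb, gb * y * gb⁻¹ ∈ Tb := fun y hy => by
      rw [← hφg ⟨y, hy⟩]; exact hφT ⟨y, hy⟩
    obtain ⟨h, h1, h2, h3⟩ := K1 Pb hPb gb hgb
    have hle : Pb ⊔ Qb ≤ Tb.comap (MulAut.conj h).toMonoidHom := by
      refine sup_le (fun y hy => ?_) (fun q hq => ?_)
      · show h * y * h⁻¹ ∈ Tb
        rw [h1 y hy]
        exact hgb y hy
      · show h * q * h⁻¹ ∈ Tb
        exact hQbTb (h2 q hq)
    have hval : ∀ x ∈ Pb ⊔ Qb, h * x * h⁻¹ ∈ Tb := fun x hx => hle hx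
    refine ⟨conjHom (Pb ⊔ Qb) h,
      ⟨sup_le hPb hQbTb, fun x => hval x x.2, h, fun x => rfl⟩, fun x => ?_, ?_⟩
    · show h * (x : ↥L) * h⁻¹ = φ x
      rw [hφg, h1 x x.2]
    · ext w
      constructor
      · rintro ⟨y, hy, rfl⟩
        exact h2 _ (Subgroup.mem_subgroupOf.mp hy)
      · intro hw
        have hw' := h3 w hw
        refine ⟨⟨h⁻¹ * w * h, (le_sup_right : Qb ≤ Pb ⊔ Qb) hw'⟩,
          Subgroup.mem_subgroupOf.mpr hw', ?_⟩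
        show h * (h⁻¹ * w * h) * h⁻¹ = w
        group
  have hcentric : (groupFusionSystem Tb).IsCentric Qb := by
    refine ⟨hQbTb, fun Q' hQ' => ?_⟩
    obtain ⟨φ, ⟨-, hφT, gb, hφg⟩, rfl⟩ := hQ'
    have hgb : ∀ y ∈ Qb, gb * y * gb⁻¹ ∈ Tb := fun y hy => by
      rw [← hφg ⟨y, hy⟩]; exact hφT ⟨y, hy⟩
    obtain ⟨h, h1, h2, h3⟩ := K1 Qb hQbTb gb hgb
    have hrange : φ.range = Qb := by
      ext w
      constructor
      · rintro ⟨y, rfl⟩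
        rw [hφg, ← h1 y y.2]
        exact h2 _ y.2
      · intro hw
        refine ⟨⟨h⁻¹ * w * h, h3 w hw⟩, ?_⟩
        rw [hφg]
        show gb * (h⁻¹ * w * h) * gb⁻¹ = w
        rw [← h1 _ (h3 w hw)]
        group
    rw [hrange]
    intro xb hxb
    rw [mem_centralizerIn] at hxb
    refine hQbmem.mpr ?_
    apply hC (xb : G) ⟨hTbmem.mp hxb.1, xb.2⟩
    intro q hq
    have hqL : q ∈ L := (hQT hq).2
    have h4 := hxb.2 ⟨q, hqL⟩ (hQbmem.mpr hq)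
    have h6 : q * (xb : G) = (xb : G) * q := congrArg Subtype.val h4
    have h5 : (xb : G) * q * (xb : G)⁻¹ * q⁻¹ = 1 := by
      rw [← h6]
      group
    rw [h5]
    exact Subgroup.one_mem _
  exact ⟨hsat0, Qb, hnormal, hcentric⟩

end Cfsg.Agent.Helper27
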