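import Mathlib

set_option autoImplicit false

namespace Cfsg.Agent.Helper27

section trace

variable {G V : Type*} [Group G] [Finite G] [CommGroup V] (ρ : G →* MulAut V) (H : Subgroup G)

/-- the trace map over the cosets of a subgroup, for an action on a commutative group -/
noncomputable def cosetTrace (v : V) : V :=
  letI := Fintype.ofFinite (G ⧸ H)
  ∏ q : G ⧸ H, ρ (Quotient.out q) v

theorem cosetTrace_mul (v w : V) :
    cosetTrace ρ H (v * w) = cosetTrace ρ H v * cosetTrace ρ H w := by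
  unfold cosetTrace
  simp only [map_mul]
  exact Finset.prod_mul_distrib

theorem cosetTrace_one : cosetTrace ρ H (1 : V) = 1 := by
  unfold cosetTrace
  simp

theorem cosetTrace_inv (v : V) : cosetTrace ρ H v⁻¹ = (cosetTrace ρ H v)⁻¹ := by
  apply eq_inv_of_mul_eq_one_left
  rw [← cosetTrace_mul, inv_mul_cancel, cosetTrace_one]

theorem cosetTrace_fixed {v : V} (hv : ∀ h ∈ H, ρ h v = v) (g : G) :
    ρ g (cosetTrace ρ H v) = cosetTrace ρ H v := by
  unfold cosetTrace
  letI := Fintype.ofFinite (G ⧸ H)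
  rw [map_prod]
  have key : ∀ q : G ⧸ H, ρ g (ρ (Quotient.out q) v) = ρ (Quotient.out (g • q)) v := by
    intro q
    have h1 : (Quotient.out (g • q))⁻¹ * (g * Quotient.out q) ∈ H := by
      rw [← QuotientGroup.eq]
      have e1 : ((Quotient.out (g • q) : G) : G ⧸ H) = g • q := QuotientGroup.out_eq' _
      have e2 : ((g * Quotient.out q : G) : G ⧸ H) = g • ((Quotient.out q : G) : G ⧸ H) := rfl
      rw [e1, e2, QuotientGroup.out_eq']
    have h2 := hv _ h1
    calc ρ g (ρ (Quotient.out q) v) = ρ (g * Quotient.out q) v := by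
          rw [map_mul]
          rfl
      _ = ρ (Quotient.out (g • q) * ((Quotient.out (g • q))⁻¹ * (g * Quotient.out q))) v := by
          rw [mul_inv_cancel_left]
      _ = ρ (Quotient.out (g • q)) (ρ ((Quotient.out (g • q))⁻¹ * (g * Quotient.out q)) v) := by
          rw [map_mul]
          rfl
      _ = ρ (Quotient.out (g • q)) v := by rw [h2]
  rw [Finset.prod_congr rfl (fun q _ => key q)]
  exact Fintype.prod_equiv (MulAction.toPerm g) _ _ (fun q => rfl)

theorem cosetTrace_of_fixed {v : V} (hv : ∀ g : G, ρ g v = v) :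
    cosetTrace ρ H v = v ^ H.index := by
  unfold cosetTrace
  letI := Fintype.ofFinite (G ⧸ H)
  simp only [hv]
  rw [Finset.prod_const, Finset.card_univ, Subgroup.index_eq_card, Nat.card_eq_fintype_card]

/-- the fixed points of the whole group are a direct factor of the fixed points of a subgroup whose index acts
invertibly -/
theorem exists_complement_fixed
    (hroot : ∀ v : V, (∀ g : G, ρ g v = v) → ∃ w : V, (∀ g : G, ρ g w = w) ∧ w ^ H.index = v)
    (hinj : ∀ v : V, v ^ H.index = 1 → v = 1) :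
    ∃ K : Subgroup V, (∀ v ∈ K, ∀ h ∈ H, ρ h v = v) ∧
      (∀ v ∈ K, (∀ g : G, ρ g v = v) → v = 1) ∧
      ∀ v : V, (∀ h ∈ H, ρ h v = v) → ∃ w k, (∀ g : G, ρ g w = w) ∧ k ∈ K ∧ v = w * k := by
  let K : Subgroup V :=
    { carrier := {v | (∀ h ∈ H, ρ h v = v) ∧ cosetTrace ρ H v = 1}
      mul_mem' := by
        rintro a b ⟨ha, ha'⟩ ⟨hb, hb'⟩
        refine ⟨fun h hh => ?_, ?_⟩
        · rw [map_mul, ha h hh, hb h hh]
        · rw [cosetTrace_mul, ha', hb', one_mul]
      one_mem' := ⟨fun h _ => map_one _, cosetTrace_one ρ H⟩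
      inv_mem' := by
        rintro a ⟨ha, ha'⟩
        refine ⟨fun h hh => ?_, ?_⟩
        · rw [map_inv, ha h hh]
        · rw [cosetTrace_inv, ha', inv_one] }
  refine ⟨K, fun v hv => hv.1, fun v hv hg => ?_, fun v hv => ?_⟩
  · apply hinj
    rw [← cosetTrace_of_fixed ρ H hg]
    exact hv.2
  · obtain ⟨w, hw, hwv⟩ := hroot _ (cosetTrace_fixed ρ H hv)
    refine ⟨w, w⁻¹ * v, hw, ⟨fun h hh => ?_, ?_⟩, ?_⟩
    · rw [map_mul, map_inv, hw h, hv h hh]
    · rw [cosetTrace_mul, cosetTrace_inv, cosetTrace_of_fixed ρ H hw, hwv, inv_mul_cancel]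
    · rw [mul_inv_cancel_left]

end trace

end Cfsg.Agent.Helper27
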